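import Mathlib
import Cfsg.Agent.Forms25.MaximalSingular
import Cfsg.Agent.Classical.SimQuot

/-!
The parity of a similarity on the two classes of maximal totally singular subspaces, in any
characteristic, and uniqueness of homomorphisms given on reflections.
-/

set_option autoImplicit false
set_option linter.unusedSectionVars false

namespace Cfsg.Agent.OutPO

open QuadraticMap Module
open Cfsg.Agent.Forms25 (TotSing parity_maximal)

universe u v w

variable {K : Type u} [Field K] {V : Type v} [AddCommGroup V] [Module K V]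

/-- A hyperbolic space of dimension `2n`. -/
structure Hyp (Q : QuadraticForm K V) (n : ℕ) : Prop where
  nd : (QuadraticMap.polarBilin Q).Nondegenerate
  dim : finrank K V = 2 * n

/-- The parity of the codimension of the intersection of two subspaces of dimension `n`. -/
noncomputable def relPar (n : ℕ) (U W : Submodule K V) : ZMod 2 := (n + finrank K ↥(U ⊓ W) : ℕ)

theorem zmod2_eq_iff {a b : ℕ} : (a : ZMod 2) = b ↔ a % 2 = b % 2 := by
  rw [ZMod.natCast_eq_natCast_iff']

theorem relPar_comm (n : ℕ) (U W : Submodule K V) : relPar n U W = relPar n W U := by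
  rw [relPar, relPar, inf_comm]

variable [FiniteDimensional K V] {Q : QuadraticForm K V} {n : ℕ}

theorem relPar_add (h : Hyp Q n) {U W X : Submodule K V} (hU : TotSing Q U)
    (hUn : finrank K U = n) (hW : TotSing Q W) (hWn : finrank K W = n) (hX : TotSing Q X)
    (hXn : finrank K X = n) : relPar n U W + relPar n W X = relPar n U X := by
  have := parity_maximal h.nd h.dim hU hUn hW hWn hX hXn
  rw [relPar, relPar, relPar, ← Nat.cast_add, zmod2_eq_iff]
  omega

theorem relPar_map {L : V ≃ₗ[K] V} (U W : Submodule K V) :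
    relPar n (U.map L.toLinearMap) (W.map L.toLinearMap) = relPar n U W := by
  rw [relPar, relPar, ← Submodule.map_inf _ L.injective, LinearEquiv.finrank_map_eq]

theorem totSing_map {L : V ≃ₗ[K] V} {μ : K} (hL : ∀ v, Q (L v) = μ * Q v) {U : Submodule K V}
    (hU : TotSing Q U) : TotSing Q (U.map L.toLinearMap) := by
  rintro _ ⟨v, hv, rfl⟩
  show Q (L v) = 0
  rw [hL, hU v hv, mul_zero]

/-- A maximal totally singular subspace has dimension `n`. -/
theorem finrank_of_max (h : Hyp Q n) {U₀ : Submodule K V} (h0 : TotSing Q U₀)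
    (h0n : finrank K U₀ = n) {U : Submodule K V} (hU : TotSing Q U)
    (hmax : ∀ W, TotSing Q W → U ≤ W → W = U) : finrank K U = n := by
  set B := QuadraticMap.polarBilin Q
  have hle : U₀ ⊓ LinearMap.BilinForm.orthogonal B U = U₀ ⊓ U := by
    refine le_antisymm (le_inf inf_le_left fun x hx => ?_)
      (inf_le_inf_left U₀ hU.le_orthogonal)
    have := hmax _ (Forms25.totSing_sup_span hU (h0 x hx.1) hx.2) le_sup_left
    exact this ▸ Submodule.mem_sup_right (Submodule.mem_span_singleton_self x)
  have he : U₀ ⊓ LinearMap.BilinForm.orthogonal B U =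
      LinearMap.BilinForm.orthogonal B (U₀ ⊔ U) := by
    refine le_antisymm ?_ ?_
    · rintro x ⟨hx0, hxU⟩
      rw [LinearMap.BilinForm.mem_orthogonal_iff]
      intro y hy
      obtain ⟨a, ha, b, hb, rfl⟩ := Submodule.mem_sup.1 hy
      rw [map_add, LinearMap.add_apply,
        LinearMap.BilinForm.mem_orthogonal_iff.1 (h0.le_orthogonal hx0) a ha,
        LinearMap.BilinForm.mem_orthogonal_iff.1 hxU b hb, add_zero]
    · exact le_inf ((LinearMap.BilinForm.orthogonal_le le_sup_left).trans_eq
        (h0.orthogonal_eq h.nd h.dim h0n)) (LinearMap.BilinForm.orthogonal_le le_sup_right)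
  have h1 := congrArg (fun S : Submodule K V => finrank K S) (he.symm.trans hle)
  simp only [B, LinearMap.BilinForm.finrank_orthogonal h.nd] at h1
  have h2 := Submodule.finrank_sup_add_finrank_inf_eq U₀ U
  have h3 := Submodule.finrank_le (U₀ ⊔ U)
  have h4 := h.dim
  omega

/-- The parity of a linear map relative to `U₀`. -/
noncomputable def linPar (n : ℕ) (U₀ : Submodule K V) (L : V ≃ₗ[K] V) : ZMod 2 :=
  relPar n U₀ (U₀.map L.toLinearMap)

theorem linPar_mul (h : Hyp Q n) {U₀ : Submodule K V} (h0 : TotSing Q U₀)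
    (h0n : finrank K U₀ = n) {L M : V ≃ₗ[K] V} {μ ν : K} (hL : ∀ v, Q (L v) = μ * Q v)
    (hM : ∀ v, Q (M v) = ν * Q v) :
    linPar n U₀ (M.trans L) = linPar n U₀ L + linPar n U₀ M := by
  have e : U₀.map (M.trans L).toLinearMap = (U₀.map M.toLinearMap).map L.toLinearMap := by
    rw [← Submodule.map_comp]; rfl
  rw [linPar, linPar, linPar, e, ← relPar_map (L := L) U₀ (U₀.map M.toLinearMap)]
  exact (relPar_add h h0 h0n (totSing_map hL h0) (by rw [LinearEquiv.finrank_map_eq, h0n])
    (totSing_map hL (totSing_map hM h0))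
    (by rw [LinearEquiv.finrank_map_eq, LinearEquiv.finrank_map_eq, h0n])).symm

theorem linPar_of_fix {U₀ : Submodule K V} (h0n : finrank K U₀ = n) {L : V ≃ₗ[K] V}
    (h : ∀ v ∈ U₀, L v ∈ U₀) : linPar n U₀ L = 0 := by
  have e : U₀.map L.toLinearMap = U₀ :=
    Submodule.eq_of_le_of_finrank_eq (by rintro _ ⟨v, hv, rfl⟩; exact h v hv)
      (LinearEquiv.finrank_map_eq _ _)
  rw [linPar, e, relPar, inf_idem, h0n, ← Nat.cast_zero, zmod2_eq_iff]
  omega

/-- A reflection interchanges the two classes. -/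
theorem linPar_refl (h : Hyp Q n) {U₀ : Submodule K V} (h0 : TotSing Q U₀)
    (h0n : finrank K U₀ = n) {x : V} (hx : Q x ≠ 0) {L : V ≃ₗ[K] V}
    (hL : ∀ v, L v = v - ((Q x)⁻¹ * polar Q x v) • x) : linPar n U₀ L = 1 := by
  have hxU : x ∉ U₀ := fun hm => hx (h0 x hm)
  set φ := (QuadraticMap.polarBilin Q x).comp U₀.subtype with hφ
  have hφ0 : φ ≠ 0 := by
    intro e
    refine hxU ?_
    rw [← h0.orthogonal_eq h.nd h.dim h0n, LinearMap.BilinForm.mem_orthogonal_iff]
    intro y hy
    rw [Forms25.polarBilin_comm]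
    exact LinearMap.congr_fun e ⟨y, hy⟩
  have e : U₀ ⊓ U₀.map L.toLinearMap = (LinearMap.ker φ).map U₀.subtype := by
    refine le_antisymm ?_ ?_
    · rintro v ⟨hv, u, hu, e⟩
      change L u = v at e
      refine ⟨⟨v, hv⟩, ?_, rfl⟩
      show polar Q x v = 0
      by_contra hne
      have h1 : ((Q x)⁻¹ * polar Q x u) • x ∈ U₀ := by
        have : ((Q x)⁻¹ * polar Q x u) • x = u - v := by rw [← e, hL, sub_sub_cancel]
        rw [this]
        exact U₀.sub_mem hu hv
      rcases eq_or_ne ((Q x)⁻¹ * polar Q x u) 0 with h2 | h2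
      · refine hne ?_
        rw [← e, hL, h2, zero_smul, sub_zero]
        exact (mul_eq_zero.1 h2).resolve_left (inv_ne_zero hx)
      · exact hxU ((Submodule.smul_mem_iff _ h2).1 h1)
    · rintro _ ⟨⟨v, hv⟩, hker, rfl⟩
      have hp : polar Q x v = 0 := hker
      exact ⟨hv, v, hv, show L v = v by rw [hL, hp, mul_zero, zero_smul, sub_zero]⟩
  have hd := Module.Dual.finrank_ker_add_one_of_ne_zero hφ0
  rw [linPar, relPar, e, Submodule.finrank_map_subtype_eq, ← Nat.cast_one, zmod2_eq_iff]
  omega

section Matrix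

variable {ι : Type} [Fintype ι] [DecidableEq ι]

/-- The class condition is the vanishing of the parity. -/
theorem preserves_iff_linPar {f : (ι → K) → K} (Qf : QuadraticForm K (ι → K)) (hQ : ∀ v, Qf v = f v)
    {n : ℕ} (h : Hyp Qf n) {U₀ : Submodule K (ι → K)} (h0 : TotSing Qf U₀)
    (h0n : finrank K U₀ = n) (L : (ι → K) ≃ₗ[K] (ι → K)) {μ : K} (hμ : μ ≠ 0)
    (hL : ∀ v, Qf (L v) = μ * Qf v) (M : Matrix ι ι K) (hM : ∀ v, M.mulVec v = L v) :
    Cfsg.PreservesSingularClasses f M ↔ linPar n U₀ L = 0 := by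
  have hMU : ∀ U, Cfsg.imageSubmodule M U = U.map L.toLinearMap := fun U => by
    rw [Cfsg.imageSubmodule]
    congr 1
    exact LinearMap.ext hM
  have hts : ∀ U, Cfsg.Geo.IsTotallySingularQuad f U ↔ TotSing Qf U := fun U => by
    constructor
    · intro hU v hv; rw [hQ]; exact hU v hv
    · intro hU v hv; rw [← hQ]; exact hU v hv
  have hmax : ∀ U, Cfsg.IsMaxTotallySingular f U → TotSing Qf U ∧ finrank K U = n := fun U hU =>
    ⟨(hts U).1 hU.1, finrank_of_max h h0 h0n ((hts U).1 hU.1) fun W hW => hU.2 W ((hts W).2 hW)⟩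
  have key : ∀ U, TotSing Qf U → finrank K U = n →
      (Cfsg.SameParityClass U (Cfsg.imageSubmodule M U) ↔ linPar n U₀ L = 0) := by
    intro U hU hUn
    have hle := Submodule.finrank_mono
      (inf_le_left : U ⊓ U.map L.toLinearMap ≤ U)
    have e : relPar n U (U.map L.toLinearMap) = linPar n U₀ L := by
      have hL0 := totSing_map hL h0
      have hLU := totSing_map hL hU
      rw [← relPar_add h hU hUn h0 h0n hLU (by rw [LinearEquiv.finrank_map_eq, hUn]),
        ← relPar_add h h0 h0n hL0 (by rw [LinearEquiv.finrank_map_eq, h0n]) hLU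
          (by rw [LinearEquiv.finrank_map_eq, hUn]),
        relPar_map, relPar_comm n U U₀, linPar]
      generalize relPar n U₀ U = a
      generalize relPar n U₀ (U₀.map L.toLinearMap) = b
      revert a b
      decide
    rw [← e, Cfsg.SameParityClass, hMU, hUn, relPar, ← Nat.cast_zero, zmod2_eq_iff, Nat.even_iff]
    omega
  constructor
  · intro hp
    have hmax0 : Cfsg.IsMaxTotallySingular f U₀ := ⟨(hts U₀).2 h0, fun W hW hle => by
      refine (Submodule.eq_of_le_of_finrank_le hle ?_).symm
      have := ((hts W).1 hW).two_mul_le h.nd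
      have := h.dim
      omega⟩
    exact (key U₀ h0 h0n).1 (hp U₀ hmax0)
  · intro hl U hU
    obtain ⟨hU1, hU2⟩ := hmax U hU
    exact (key U hU1 hU2).2 hl

end Matrix

section HomExt

variable {F : Type u} [Field F] {ι : Type} [Fintype ι] [DecidableEq ι]
  {f : (ι → F) → F} {W : Type w} [AddCommGroup W] [Module F W]

/-- Homomorphisms on the isometry group are determined by their values on reflections. -/
theorem hom_ext_refl (D : Classical.OrthCoord f W) {X : Type*} [Group X]
    (α β : Cfsg.isometryGroup F f →* X) (h : ∀ x hx, α (D.refl x hx) = β (D.refl x hx)) : α = β := by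
  have htop : Classical.RQ (Classical.hypAdd D.Q) = ⊤ :=
    Classical.RQ_eq_top D.nondeg.qNondeg D.pairs D.gen
  have e : α.comp D.Θ.symm.toMonoidHom = β.comp D.Θ.symm.toMonoidHom := by
    refine MonoidHom.eq_of_eqOn_dense
      (s := {g | ∃ x, ∃ hx, g = Classical.reflQ (Classical.hypAdd D.Q) x hx}) htop ?_
    rintro _ ⟨x, hx, rfl⟩
    obtain ⟨v, rfl⟩ := D.e.surjective x
    have hv : f v ≠ 0 := by rwa [D.hypAdd_e] at hx
    show α (D.Θ.symm _) = β (D.Θ.symm _)
    rw [← D.Θ_refl v hv, MulEquiv.symm_apply_apply, h]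
  refine MonoidHom.ext fun g => ?_
  have := DFunLike.congr_fun e (D.Θ g)
  simpa using this

end HomExt

end Cfsg.Agent.OutPO
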