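import Mathlib
import Cfsg.Agent.Classical.OrthForms
import Cfsg.Agent.Forms.BaseChange
import Cfsg.Agent.ClassicalElem.OutPSL

/-!
The quadratic extension attached to an anisotropic binary form, and its automorphism group.
-/

set_option autoImplicit false
set_option linter.unusedSectionVars false

namespace Cfsg.Agent.OutPO

open Cfsg.Agent.Classical (binQF binQF_apply binMul binDisc_ne_zero two_ne_zero_of_odd)

universe u

variable {F : Type u} [Field F] {K : Type u} [Field K] [Algebra F K]

/-- Field automorphisms of a finite field commute. -/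
theorem ringAut_commute {L : Type u} [Field L] [Finite L] (σ ρ : L ≃+* L) : σ * ρ = ρ * σ := by
  obtain ⟨p, hp⟩ := CharP.exists L
  haveI := hp
  haveI : Fact p.Prime := ⟨CharP.char_is_prime L p⟩
  haveI := Fintype.ofFinite L
  obtain ⟨n, -, hn⟩ := FiniteField.card L p
  obtain ⟨e⟩ := ClassicalElem.exists_ringAut_equiv (F := L) p n
    (by rw [Nat.card_eq_fintype_card, hn])
  exact e.injective (by rw [map_mul, map_mul, mul_comm])

/-- `ω` generates the quadratic extension in which `z₀² + a z₀ z₁ + b z₁²` splits. -/
structure QExt (a b : F) (ω : K) : Prop where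
  root : ω * ω - algebraMap F K a * ω + algebraMap F K b = 0
  dim : Module.finrank F K = 2
  aniso : (binQF a b).Anisotropic

variable {a b : F} {ω : K}

theorem QExt.not_mem (E : QExt a b ω) (x : F) : algebraMap F K x ≠ ω := by
  intro h
  have h1 : x * x - a * x + b = 0 := (algebraMap F K).injective (by
    rw [map_add, map_sub, map_mul, map_mul, h, E.root, map_zero])
  have := congrFun (E.aniso ![x, -1] (by rw [binQF_apply]; simp; linear_combination h1)) 1
  simp at this

theorem QExt.coord_injective (E : QExt a b ω) :
    Function.Injective fun z : Fin 2 → F => algebraMap F K (z 0) + algebraMap F K (z 1) * ω := by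
  intro y z h
  simp only at h
  have h1 : y 1 = z 1 := by
    by_contra hne
    refine E.not_mem ((z 0 - y 0) / (y 1 - z 1)) ?_
    rw [map_div₀, div_eq_iff ((map_ne_zero _).2 (sub_ne_zero.2 hne)), map_sub, map_sub]
    linear_combination -h
  have h0 : y 0 = z 0 := (algebraMap F K).injective (by rw [h1] at h; exact add_right_cancel h)
  ext i; fin_cases i <;> assumption

/-- Coordinates in the quadratic extension. -/
noncomputable def QExt.coord (E : QExt a b ω) : (Fin 2 → F) ≃ₗ[F] K :=
  haveI : FiniteDimensional F K := Module.finite_of_finrank_eq_succ E.dim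
  LinearMap.linearEquivOfInjective
    { toFun := fun z => algebraMap F K (z 0) + algebraMap F K (z 1) * ω
      map_add' := fun y z => by simp only [Pi.add_apply, map_add]; ring
      map_smul' := fun c z => by
        simp only [Pi.smul_apply, smul_eq_mul, map_mul, RingHom.id_apply, Algebra.smul_def]; ring }
    E.coord_injective (by rw [E.dim, Module.finrank_fin_fun])

theorem QExt.coord_apply (E : QExt a b ω) (z : Fin 2 → F) :
    E.coord z = algebraMap F K (z 0) + algebraMap F K (z 1) * ω := rfl

theorem QExt.coord_inc (E : QExt a b ω) (x : F) : E.coord ![x, 0] = algebraMap F K x := by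
  rw [E.coord_apply]; simp

theorem QExt.coord_mul (E : QExt a b ω) (y z : Fin 2 → F) :
    E.coord (binMul a b y z) = E.coord y * E.coord z := by
  rw [E.coord_apply, E.coord_apply, E.coord_apply]
  simp [binMul]
  linear_combination (-(algebraMap F K (y 1) * algebraMap F K (z 1))) * E.root

/-- The conjugate root. -/
theorem QExt.conj_root (E : QExt a b ω) :
    (algebraMap F K a - ω) * (algebraMap F K a - ω) - algebraMap F K a * (algebraMap F K a - ω) +
      algebraMap F K b = 0 := by
  linear_combination E.root

theorem QExt.conjExt (E : QExt a b ω) : QExt a b (algebraMap F K a - ω) :=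
  ⟨E.conj_root, E.dim, E.aniso⟩

theorem QExt.norm_eq (E : QExt a b ω) (z : Fin 2 → F) :
    E.coord z * E.conjExt.coord z = algebraMap F K (binQF a b z) := by
  rw [E.coord_apply, E.conjExt.coord_apply, binQF_apply]
  simp only [map_add, map_mul, map_pow]
  linear_combination (-(algebraMap F K (z 1) ^ 2)) * E.root

/-- The conjugation of the quadratic extension. -/
noncomputable def QExt.conj (E : QExt a b ω) : K ≃+* K where
  toEquiv := (E.coord.symm.trans E.conjExt.coord).toEquiv
  map_mul' x y := by
    obtain ⟨x, rfl⟩ := E.coord.surjective x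
    obtain ⟨y, rfl⟩ := E.coord.surjective y
    show E.conjExt.coord (E.coord.symm _) = E.conjExt.coord (E.coord.symm _) *
      E.conjExt.coord (E.coord.symm _)
    rw [← E.coord_mul]
    simp only [LinearEquiv.symm_apply_apply, E.conjExt.coord_mul]
  map_add' x y := map_add (E.coord.symm.trans E.conjExt.coord) x y

theorem QExt.conj_coord (E : QExt a b ω) (z : Fin 2 → F) :
    E.conj (E.coord z) = E.conjExt.coord z := by
  show E.conjExt.coord (E.coord.symm (E.coord z)) = _
  rw [E.coord.symm_apply_apply]

theorem QExt.conj_algebraMap (E : QExt a b ω) (x : F) :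
    E.conj (algebraMap F K x) = algebraMap F K x := by
  conv_lhs => rw [← E.coord_inc x, E.conj_coord, E.conjExt.coord_inc]

variable [Finite F]

theorem QExt.conj_ne_one (E : QExt a b ω) : E.conj ≠ 1 := by
  intro h
  have h1 := DFunLike.congr_fun h (E.coord ![0, 1])
  rw [E.conj_coord, E.coord_apply, E.conjExt.coord_apply] at h1
  simp at h1
  refine binDisc_ne_zero E.aniso ((algebraMap F K).injective ?_)
  rw [map_sub, map_pow, map_mul, map_ofNat, map_zero]
  linear_combination (algebraMap F K a - 2 * ω) * h1 - 4 * E.root

theorem QExt.fixed_iff (E : QExt a b ω) (x : K) :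
    E.conj x = x ↔ ∃ y, algebraMap F K y = x := by
  refine ⟨fun h => ?_, by rintro ⟨y, rfl⟩; exact E.conj_algebraMap y⟩
  obtain ⟨z, rfl⟩ := E.coord.surjective x
  rw [E.conj_coord, E.coord_apply, E.conjExt.coord_apply] at h
  refine ⟨z 0, ?_⟩
  rw [E.coord_apply]
  rcases mul_eq_zero.1 (show algebraMap F K (z 1) * (algebraMap F K a - 2 * ω) = 0 by
    linear_combination h) with h1 | h1
  · rw [h1, zero_mul, add_zero]
  · exact absurd ((algebraMap F K).injective (show algebraMap F K (a ^ 2 - 4 * b) = algebraMap F K 0 by
      rw [map_sub, map_pow, map_mul, map_ofNat, map_zero]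
      linear_combination (algebraMap F K a - 2 * ω) * h1 - 4 * E.root)) (binDisc_ne_zero E.aniso)

theorem QExt.finite (E : QExt a b ω) : Finite K :=
  Finite.of_equiv _ E.coord.toEquiv

theorem QExt.card (E : QExt a b ω) : Nat.card K = Nat.card F ^ 2 := by
  rw [← Nat.card_congr E.coord.toEquiv, Nat.card_fun, Nat.card_fin]

theorem QExt.stable (E : QExt a b ω) (τ : K ≃+* K) (x : F) :
    ∃ y, algebraMap F K y = τ (algebraMap F K x) := by
  haveI := E.finite
  rw [← E.fixed_iff, show E.conj (τ (algebraMap F K x)) = τ (E.conj (algebraMap F K x)) from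
    DFunLike.congr_fun (ringAut_commute E.conj τ) _, E.conj_algebraMap]

/-- Restriction of an automorphism to the base field. -/
noncomputable def QExt.resFun (E : QExt a b ω) (τ : K ≃+* K) (x : F) : F := (E.stable τ x).choose

theorem QExt.resFun_spec (E : QExt a b ω) (τ : K ≃+* K) (x : F) :
    algebraMap F K (E.resFun τ x) = τ (algebraMap F K x) := (E.stable τ x).choose_spec

/-- Restriction of automorphisms to the base field. -/
noncomputable def QExt.res (E : QExt a b ω) : (K ≃+* K) →* (F ≃+* F) where
  toFun τ :=
    { toFun := E.resFun τ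
      invFun := E.resFun τ.symm
      left_inv := fun x => (algebraMap F K).injective (by
        rw [E.resFun_spec, E.resFun_spec, τ.symm_apply_apply])
      right_inv := fun x => (algebraMap F K).injective (by
        rw [E.resFun_spec, E.resFun_spec, τ.apply_symm_apply])
      map_mul' := fun x y => (algebraMap F K).injective (by
        rw [E.resFun_spec, map_mul, map_mul, map_mul, E.resFun_spec, E.resFun_spec])
      map_add' := fun x y => (algebraMap F K).injective (by
        rw [E.resFun_spec, map_add, map_add, map_add, E.resFun_spec, E.resFun_spec]) }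
  map_one' := RingEquiv.ext fun x => (algebraMap F K).injective (E.resFun_spec 1 x)
  map_mul' τ τ' := RingEquiv.ext fun x => (algebraMap F K).injective (by
    show algebraMap F K (E.resFun (τ * τ') x) = algebraMap F K (E.resFun τ (E.resFun τ' x))
    rw [E.resFun_spec, E.resFun_spec, E.resFun_spec]; rfl)

theorem QExt.res_spec (E : QExt a b ω) (τ : K ≃+* K) (x : F) :
    algebraMap F K (E.res τ x) = τ (algebraMap F K x) := E.resFun_spec τ x

theorem QExt.res_conj (E : QExt a b ω) : E.res E.conj = 1 :=
  RingEquiv.ext fun x => (algebraMap F K).injective (by rw [E.res_spec, E.conj_algebraMap]; rfl)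

theorem QExt.res_eq_one (E : QExt a b ω) {τ : K ≃+* K} (h : E.res τ = 1) :
    τ = 1 ∨ τ = E.conj := by
  have hτ : ∀ x : F, τ (algebraMap F K x) = algebraMap F K x := fun x => by
    rw [← E.res_spec, h]; rfl
  have hroot := congrArg τ E.root
  rw [map_add, map_sub, map_mul, map_mul, hτ, hτ, map_zero] at hroot
  have hfac : (τ ω - ω) * (τ ω - (algebraMap F K a - ω)) = 0 := by
    linear_combination hroot - E.root
  have key : ∀ x : K, τ x = algebraMap F K (E.coord.symm x 0) +
      algebraMap F K (E.coord.symm x 1) * τ ω := fun x => by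
    conv_lhs => rw [← E.coord.apply_symm_apply x, E.coord_apply, map_add, map_mul, hτ, hτ]
  rcases mul_eq_zero.1 hfac with h1 | h1 <;> rw [sub_eq_zero] at h1
  · left
    refine RingEquiv.ext fun x => ?_
    rw [key, h1, ← E.coord_apply, E.coord.apply_symm_apply]
    rfl
  · right
    refine RingEquiv.ext fun x => ?_
    rw [key, h1, ← E.conjExt.coord_apply]
    rfl

theorem QExt.ringAut_equiv (E : QExt a b ω) {p f : ℕ} [Fact p.Prime] (hF : Nat.card F = p ^ f) :
    Nonempty ((K ≃+* K) ≃* Multiplicative (ZMod (2 * f))) := by
  haveI := E.finite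
  exact ClassicalElem.exists_ringAut_equiv (F := K) p (2 * f)
    (by rw [E.card, hF, ← pow_mul, mul_comm])

theorem QExt.res_surjective (E : QExt a b ω) : Function.Surjective E.res := by
  classical
  haveI := E.finite
  haveI : Finite (K ≃+* K) := Finite.of_injective (fun e => (e : K → K)) DFunLike.coe_injective
  haveI : Finite (F ≃+* F) := Finite.of_injective (fun e => (e : F → F)) DFunLike.coe_injective
  obtain ⟨p, hp⟩ := CharP.exists F
  haveI := hp
  haveI : Fact p.Prime := ⟨CharP.char_is_prime F p⟩
  haveI := Fintype.ofFinite F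
  obtain ⟨n, -, hn⟩ := FiniteField.card F p
  have hF : Nat.card F = p ^ (n : ℕ) := by rw [Nat.card_eq_fintype_card, hn]
  obtain ⟨eF⟩ := ClassicalElem.exists_ringAut_equiv (F := F) p n hF
  obtain ⟨eK⟩ := E.ringAut_equiv hF
  have hker : Nat.card ↥E.res.ker ≤ 2 := by
    rw [← SetLike.coe_sort_coe, Nat.card_coe_set_eq]
    refine (Set.ncard_le_ncard (fun τ hτ => ?_) (Set.toFinite _)).trans
      ((Set.ncard_insert_le 1 {E.conj}).trans (by simp))
    rcases E.res_eq_one hτ with rfl | rfl <;> simp
  have h1 := E.res.ker.card_mul_index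
  rw [Subgroup.index_ker] at h1
  have h2 : Nat.card (K ≃+* K) = 2 * Nat.card (F ≃+* F) := by
    rw [Nat.card_congr eK.toEquiv, Nat.card_congr eF.toEquiv, Nat.card_congr Multiplicative.toAdd,
      Nat.card_congr Multiplicative.toAdd, Nat.card_zmod, Nat.card_zmod]
  rw [← MonoidHom.range_eq_top]
  refine Subgroup.eq_top_of_card_eq _ (le_antisymm (Subgroup.card_le_card_group _) ?_)
  rw [h2] at h1
  nlinarith [h1, hker]

/-- The quadratic extension exists. -/
theorem exists_qext (hA : (binQF a b).Anisotropic) :
    ∃ (K : Type u) (_ : Field K) (_ : Algebra F K) (ω : K), QExt a b ω := by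
  let P : Polynomial F := Polynomial.X ^ 2 + Polynomial.C (-a) * Polynomial.X + Polynomial.C b
  have hdeg : P.natDegree = 2 := by simp only [P]; compute_degree!
  have hm : P.Monic := by simp only [P]; monicity!
  have hirr : Irreducible P := by
    refine (Polynomial.Monic.irreducible_iff_roots_eq_zero_of_degree_le_three hm (by omega)
      (by omega)).2 ?_
    refine Multiset.eq_zero_of_forall_notMem fun x hx => ?_
    have h1 := (Polynomial.mem_roots hm.ne_zero).1 hx
    simp [P] at h1
    have := congrFun (hA ![x, -1] (by rw [binQF_apply]; simp; linear_combination h1)) 1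
    simp at this
  haveI : Fact (Irreducible P) := ⟨hirr⟩
  refine ⟨AdjoinRoot P, inferInstance, inferInstance, AdjoinRoot.root P, ?_, ?_, hA⟩
  · have h0 : Polynomial.aeval (AdjoinRoot.root P) P = 0 := by
      rw [AdjoinRoot.aeval_eq, AdjoinRoot.mk_self]
    simp [P] at h0
    simp only [AdjoinRoot.algebraMap_eq] at h0 ⊢
    linear_combination h0
  · rw [(AdjoinRoot.powerBasis hirr.ne_zero).finrank, AdjoinRoot.powerBasis_dim, hdeg]

/-- Every quadratic extension contains such a root. -/
theorem exists_qext_root (hA : (binQF a b).Anisotropic) (hK : Module.finrank F K = 2) :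
    ∃ ω : K, QExt a b ω := by
  haveI : FiniteDimensional F K := Module.finite_of_finrank_eq_succ hK
  haveI : Finite K := Module.finite_of_finite F
  haveI := Fintype.ofFinite F
  haveI := Fintype.ofFinite K
  obtain ⟨r, hr⟩ := Forms.exists_root_quadratic_extension (F := F) (K := K) (q := Fintype.card F)
    (by rw [Module.card_eq_pow_finrank (K := F), hK]) rfl (-a) b
  refine ⟨r, ?_, hK, hA⟩
  rw [map_neg] at hr
  linear_combination hr

end Cfsg.Agent.OutPO
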