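import Mathlib
import Cfsg.Agent.OutPO.Field

/-!
Conjugation of similarities by semisimilarities.
-/

set_option autoImplicit false
set_option linter.unusedSectionVars false

namespace Cfsg.Agent.OutPO

open Matrix QuadraticMap
open Cfsg.Agent.AutPO (Semi semiAutM)
open Cfsg.Agent.Classical (simAut)

universe u

variable {F : Type u} [Field F] {ι : Type} [Fintype ι] [DecidableEq ι] {f : (ι → F) → F}
  (Qf : QuadraticForm F (ι → F)) (hQ : ∀ v, Qf v = f v)

set_option quotPrecheck false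
local notation "GO" => ↥(Cfsg.Geo.quadSimilarityGroup (F := F) f)

/-- The invertible matrix of a linear automorphism of coordinate space. -/
noncomputable def glOf (L : (ι → F) ≃ₗ[F] (ι → F)) : GL ι F :=
  GeneralLinearGroup.toLin.symm (LinearMap.GeneralLinearGroup.ofLinearEquiv L)

theorem glOf_mulVec (L : (ι → F) ≃ₗ[F] (ι → F)) (v : ι → F) :
    ((glOf L : GL ι F) : Matrix ι ι F) *ᵥ v = L v := by
  show LinearMap.toMatrix' L.toLinearMap *ᵥ v = L v
  rw [LinearMap.toMatrix'_mulVec]; rfl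

theorem gl_ext {g h : GL ι F}
    (e : ∀ v, (g : Matrix ι ι F) *ᵥ v = (h : Matrix ι ι F) *ᵥ v) : g = h :=
  Units.ext (Matrix.ext_iff_mulVec.2 e)

/-- An invertible matrix as a linear automorphism of coordinate space. -/
noncomputable def linOf (g : GL ι F) : (ι → F) ≃ₗ[F] (ι → F) :=
  (GeneralLinearGroup.toLin g).toLinearEquiv

theorem linOf_apply (g : GL ι F) (v : ι → F) : linOf g v = (g : Matrix ι ι F) *ᵥ v := rfl

include hQ in
theorem semi_conj_mem (S : Semi Qf) (g : GO) :
    glOf (S.conjLin (linOf g.1)) ∈ Cfsg.Geo.quadSimilarityGroup (F := F) f := by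
  obtain ⟨c, hc⟩ := g.2
  refine ⟨Units.map S.σ.toRingHom.toMonoidHom c, fun v => ?_⟩
  obtain ⟨w, rfl⟩ := S.L.surjective v
  rw [glOf_mulVec, S.conjLin_apply, S.L.symm_apply_apply, linOf_apply, ← hQ, ← hQ, S.form, S.form,
    hQ, hQ, hc, map_mul]
  show _ = S.σ (c : F) * _
  ring

/-- Conjugation of similarities by a semisimilarity. -/
noncomputable def semiConj (S : Semi Qf) : GO →* GO where
  toFun g := ⟨glOf (S.conjLin (linOf g.1)), semi_conj_mem Qf hQ S g⟩
  map_one' := Subtype.ext (gl_ext fun v => by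
    rw [glOf_mulVec, S.conjLin_apply, linOf_apply, OneMemClass.coe_one, Units.val_one, one_mulVec,
      S.L.apply_symm_apply]
    rw [one_mulVec])
  map_mul' g h := Subtype.ext (gl_ext fun v => by
    simp only [Subgroup.coe_mul, Units.val_mul, ← Matrix.mulVec_mulVec, glOf_mulVec,
      Semi.conjLin_apply, linOf_apply, AddEquiv.symm_apply_apply])

theorem semiConj_spec (S : Semi Qf) (g : GO) (v : ι → F) :
    ((semiConj Qf hQ S g).1 : Matrix ι ι F) *ᵥ S.L v = S.L ((g.1 : Matrix ι ι F) *ᵥ v) := by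
  show ((glOf (S.conjLin (linOf g.1)) : GL ι F) : Matrix ι ι F) *ᵥ S.L v = _
  rw [glOf_mulVec, S.conjLin_apply, S.L.symm_apply_apply, linOf_apply]

theorem semiConj_eq (S : Semi Qf) (g h : GO)
    (e : ∀ v, (h.1 : Matrix ι ι F) *ᵥ S.L v = S.L ((g.1 : Matrix ι ι F) *ᵥ v)) :
    semiConj Qf hQ S g = h :=
  Subtype.ext (gl_ext fun v => by
    obtain ⟨w, rfl⟩ := S.L.surjective v
    rw [semiConj_spec, e])

theorem semiAutM_mul_simAut (S : Semi Qf) (g : GO) :
    semiAutM Qf hQ S * simAut g = simAut (semiConj Qf hQ S g) * semiAutM Qf hQ S := by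
  rw [simAut_eq_semi Qf hQ g, simAut_eq_semi Qf hQ (semiConj Qf hQ S g), ← semiAutM_comp,
    ← semiAutM_comp]
  refine semiAutM_congr Qf hQ fun x => ?_
  rw [semiComp_L, semiComp_L, simSemi_L, simSemi_L, semiConj_spec]

theorem semiConj_congr {S T : Semi Qf} (h : ∀ v, S.L v = T.L v) (g : GO) :
    semiConj Qf hQ S g = semiConj Qf hQ T g :=
  semiConj_eq Qf hQ S g _ fun v => by rw [h, semiConj_spec, h]

theorem semiConj_comp (S T : Semi Qf) (g : GO) :
    semiConj Qf hQ (semiComp S T) g = semiConj Qf hQ S (semiConj Qf hQ T g) :=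
  semiConj_eq Qf hQ _ g _ fun v => by
    rw [semiComp_L, semiConj_spec, semiConj_spec, semiComp_L]

include hQ in
/-- Two semisimilarities with the same field automorphism differ by a similarity. -/
theorem exists_sim_comp (S T : Semi Qf) (h : S.σ = T.σ) :
    ∃ g : GO, ∀ v, S.L v = (g.1 : Matrix ι ι F) *ᵥ T.L v := by
  let L : (ι → F) ≃ₗ[F] (ι → F) :=
    { (T.L.symm.trans S.L) with
      map_smul' := fun c x => by
        show S.L (T.L.symm (c • x)) = c • S.L (T.L.symm x)
        rw [T.symm_smul, S.smul, h, T.σ.apply_symm_apply] }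
  have hL : ∀ v, L (T.L v) = S.L v := fun v => by
    show S.L (T.L.symm (T.L v)) = _
    rw [T.L.symm_apply_apply]
  refine ⟨⟨glOf L, Units.mk0 (S.μ / T.μ) (div_ne_zero S.hμ T.hμ), fun v => ?_⟩, fun v => ?_⟩
  · obtain ⟨w, rfl⟩ := T.L.surjective v
    rw [glOf_mulVec, hL, ← hQ, ← hQ, S.form, T.form, h, Units.val_mk0]
    have := T.hμ
    field_simp
  · show _ = ((glOf L : GL ι F) : Matrix ι ι F) *ᵥ T.L v
    rw [glOf_mulVec, hL]

end Cfsg.Agent.OutPO
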