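import Mathlib
import Cfsg.Agent.OutPO.Parity
import Cfsg.Agent.OutPO.SemiConj
import Cfsg.Agent.OutPO.QuadExt
import Cfsg.Agent.OutPO.Rational
import Cfsg.Agent.Classical.SimMinus

/-!
The minus-type similarity group: the class character over the quadratic extension, the Galois
action of the quadratic extension and the decomposition of the automorphism group of `PΩ⁻`.
-/

set_option autoImplicit false
set_option linter.unusedSectionVars false

namespace Cfsg.Agent.OutPO

open Matrix QuadraticMap
open Cfsg.Agent.AutPO (Semi semiAutM good_minus minusFrame exists_induced)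
open Cfsg.Agent.Classical (simAut minusQF minusQF_apply binQF binQF_apply minusCoord minusScale
  minusScaleMat binVec BNondeg isoGroup_le_simGroup mem_isoGroup card_minus binMul)
open Cfsg.Agent.Forms25 (TotSing)

universe u v w

/-- The index set of the minus-type form. -/
abbrev MIx (k : ℕ) : Type := (Fin (k + 3) ⊕ Fin (k + 3)) ⊕ Fin 2

/-- The similarity group of the minus-type form. -/
abbrev GOm (k : ℕ) {F : Type u} [Field F] (a b : F) : Subgroup (GL (MIx k) F) :=
  Cfsg.Geo.quadSimilarityGroup (F := F) (Cfsg.quadFormMinus (k + 3) F a b)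

variable {F : Type u} [Field F] [Finite F] {k : ℕ} {a b : F}

/-- An isometry as a similarity. -/
def isoInc : ↥(Cfsg.isometryGroup F (Cfsg.quadFormMinus (k + 3) F a b)) →* ↥(GOm k a b) :=
  Subgroup.inclusion isoGroup_le_simGroup

theorem exists_minus_norm (hA : (binQF a b).Anisotropic) (c : Fˣ) :
    ∃ y, binQF a b y = (c : F) := by
  obtain ⟨z, hz⟩ := Classical.exists_binQF_eq a b (c : F)
  rcases hz with h | ⟨h, h'⟩
  · exact ⟨z, h⟩
  · exact absurd (hA z h) h'

theorem exists_scale_decomp (hA : (binQF a b).Anisotropic) (g : ↥(GOm k a b)) :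
    ∃ (c : Fˣ) (y : Fin 2 → F) (hy : binQF a b y = (c : F))
      (o : ↥(Cfsg.isometryGroup F (Cfsg.quadFormMinus (k + 3) F a b))),
      g = minusScale (k + 3) a b c y hy * isoInc o := by
  obtain ⟨y, hy⟩ := exists_minus_norm hA ((minusCoord k hA).mu g)
  set D := minusCoord k hA with hD
  set s := minusScale (k + 3) a b (D.mu g) y hy
  have hmu : D.mu s = D.mu g := Units.ext (D.mu_eq_of s fun v => Classical.minus_scale _ hy v)
  have h1 : D.mu (s⁻¹ * g) = 1 := by rw [map_mul, map_inv, hmu, inv_mul_cancel]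
  exact ⟨_, y, hy, ⟨_, D.mem_iso_of_mu _ h1⟩, (mul_inv_cancel_left s g).symm⟩

/-- Homomorphisms on the similarity group are determined by reflections and scalings. -/
theorem hom_ext_GOm (hA : (binQF a b).Anisotropic) {X : Type*} [Group X]
    (α β : ↥(GOm k a b) →* X)
    (h1 : ∀ x hx, α (isoInc ((minusCoord k hA).refl x hx)) =
      β (isoInc ((minusCoord k hA).refl x hx)))
    (h2 : ∀ c y hy, α (minusScale (k + 3) a b c y hy) = β (minusScale (k + 3) a b c y hy)) :
    α = β := by
  refine MonoidHom.ext fun g => ?_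
  obtain ⟨c, y, hy, o, rfl⟩ := exists_scale_decomp hA g
  rw [map_mul, map_mul, h2]
  exact congrArg (β _ * ·)
    (DFunLike.congr_fun (hom_ext_refl (minusCoord k hA) (α.comp isoInc) (β.comp isoInc) h1) o)

/-! ### The class character -/

section Char

variable {K : Type u} [Field K] [Algebra F K] {ω : K}

theorem minus_incV {K : Type w} [Field K] (e : F →+* K) (w : MIx k → F) :
    Cfsg.quadFormMinus (k + 3) K (e a) (e b) (incV e w) =
      e (Cfsg.quadFormMinus (k + 3) F a b w) := by
  simp [Cfsg.quadFormMinus, incV, map_sum]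

/-- The form over the quadratic extension. -/
noncomputable def formK (K : Type u) [Field K] [Algebra F K] (k : ℕ) (a b : F) :
    QuadraticForm K (MIx k → K) :=
  minusQF (k + 3) (algebraMap F K a) (algebraMap F K b)

theorem formK_incV (w : MIx k → F) :
    formK K k a b (incV (algebraMap F K) w) =
      algebraMap F K (Cfsg.quadFormMinus (k + 3) F a b w) := by
  rw [formK, minusQF_apply, minus_incV]

theorem QExt.sub_ne_zero' (E : QExt a b ω) : ω - (algebraMap F K a - ω) ≠ 0 := by
  intro h
  refine Classical.binDisc_ne_zero E.aniso ((algebraMap F K).injective ?_)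
  rw [map_sub, map_pow, map_mul, map_ofNat, map_zero]
  linear_combination (2 * ω - algebraMap F K a) * h - 4 * E.root

/-- Hyperbolic coordinates over the quadratic extension. -/
noncomputable def hypCoordK (E : QExt a b ω) :
    (MIx k → K) ≃ₗ[K] (Fin (k + 4) ⊕ Fin (k + 4) → K) where
  toFun v := Sum.elim
    (Fin.cons (v (.inr 0) + (algebraMap F K a - ω) * v (.inr 1)) fun i => v (.inl (.inl i)))
    (Fin.cons (v (.inr 0) + ω * v (.inr 1)) fun i => v (.inl (.inr i)))
  invFun w := Sum.elim
    (Sum.elim (fun i => w (.inl i.succ)) fun i => w (.inr i.succ))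
    ![w (.inr 0) - ω * ((w (.inr 0) - w (.inl 0)) / (ω - (algebraMap F K a - ω))),
      (w (.inr 0) - w (.inl 0)) / (ω - (algebraMap F K a - ω))]
  map_add' v w := by
    ext (i | i) <;> refine Fin.cases ?_ (fun j => ?_) i <;> simp <;> ring
  map_smul' c v := by
    ext (i | i) <;> refine Fin.cases ?_ (fun j => ?_) i <;> simp <;> ring
  left_inv v := by
    have := E.sub_ne_zero'
    ext ((i | i) | i)
    · simp
    · simp
    · fin_cases i <;> simp <;> field_simp <;> ring
  right_inv w := by
    have := E.sub_ne_zero'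
    ext (i | i) <;> refine Fin.cases ?_ (fun j => ?_) i <;> simp <;> field_simp <;> ring

theorem hypCoordK_spec (E : QExt a b ω) (v : MIx k → K) :
    Cfsg.quadFormPlus (k + 4) K (hypCoordK E v) = formK K k a b v := by
  rw [formK, minusQF_apply, Cfsg.quadFormPlus, Cfsg.quadFormMinus, Fin.sum_univ_succ]
  simp only [hypCoordK, LinearEquiv.coe_mk, LinearMap.coe_mk, AddHom.coe_mk, Sum.elim_inl,
    Sum.elim_inr, Fin.cons_zero, Fin.cons_succ]
  linear_combination (-(v (.inr 1) ^ 2)) * E.root

theorem hyp_formK (E : QExt a b ω) : Hyp (formK K k a b) (k + 4) := by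
  haveI := E.finite
  have hV : BNondeg (formK K k a b) :=
    Classical.bNondeg_congr ((hypCoordK E).trans (Classical.plusEquiv (k + 4)))
      (fun v => by
        rw [LinearEquiv.trans_apply, Classical.plusEquiv_spec, Classical.plusQF_apply, hypCoordK_spec])
      (Classical.bNondeg_hypExt (k + 4) (Q₀ := (0 : QuadraticForm K (Fin 0 → K)))
        Classical.goodCore_zero.nondeg)
  exact ⟨⟨fun x hx => hV x hx, fun y hy => hV y fun x => by rw [polar_comm]; exact hy x⟩,
    by rw [Module.finrank_fintype_fun_eq_card, card_minus]⟩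

/-- The reference maximal totally singular subspace. -/
noncomputable def baseU (E : QExt a b ω) : Submodule K (MIx k → K) :=
  LinearMap.range ((hypCoordK E).symm.toLinearMap.comp
    ((LinearEquiv.sumArrowLequivProdArrow (Fin (k + 4)) (Fin (k + 4)) K K).symm.toLinearMap.comp
      (LinearMap.inl K (Fin (k + 4) → K) (Fin (k + 4) → K))))

theorem mem_baseU (E : QExt a b ω) (v : MIx k → K) :
    v ∈ baseU E ↔ v (.inr 0) + ω * v (.inr 1) = 0 ∧ ∀ i, v (.inl (.inr i)) = 0 := by
  constructor
  · rintro ⟨u, rfl⟩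
    set w := (LinearEquiv.sumArrowLequivProdArrow (Fin (k + 4)) (Fin (k + 4)) K K).symm
      (LinearMap.inl K (Fin (k + 4) → K) (Fin (k + 4) → K) u) with hw
    have h : ∀ i, hypCoordK (k := k) E ((hypCoordK E).symm w) (.inr i) = 0 := fun i => by
      rw [LinearEquiv.apply_symm_apply, hw]
      simp
    exact ⟨h 0, fun i => h i.succ⟩
  · rintro ⟨h1, h2⟩
    refine ⟨fun i => hypCoordK E v (.inl i), ?_⟩
    show (hypCoordK E).symm _ = v
    rw [LinearEquiv.symm_apply_eq]
    funext i
    rcases i with i | i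
    · rfl
    · refine Fin.cases ?_ (fun j => ?_) i
      · exact h1.symm
      · exact (h2 j).symm

theorem totSing_baseU (E : QExt a b ω) : TotSing (formK K k a b) (baseU E) := by
  intro v hv
  obtain ⟨h1, h2⟩ := (mem_baseU E v).1 hv
  rw [← hypCoordK_spec E, Cfsg.quadFormPlus]
  refine Finset.sum_eq_zero fun i _ => mul_eq_zero_of_right _ ?_
  refine Fin.cases ?_ (fun j => ?_) i
  · exact h1
  · exact h2 j

theorem finrank_baseU (E : QExt a b ω) : Module.finrank K ↥(baseU (k := k) E) = k + 4 := by
  rw [baseU, LinearMap.finrank_range_of_inj, Module.finrank_fintype_fun_eq_card, Fintype.card_fin]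
  simp only [LinearMap.coe_comp, LinearEquiv.coe_coe]
  exact (hypCoordK E).symm.injective.comp
    ((LinearEquiv.injective _).comp LinearMap.inl_injective)

/-- The extension of a similarity to the quadratic extension. -/
noncomputable def mapK (K : Type u) [Field K] [Algebra F K] (g : ↥(GOm k a b)) :
    (MIx k → K) ≃ₗ[K] (MIx k → K) :=
  linOf (GeneralLinearGroup.map (algebraMap F K) g.1)

theorem mapK_apply (g : ↥(GOm k a b)) (v : MIx k → K) :
    mapK K g v =
      ((g.1 : Matrix (MIx k) (MIx k) F).map (algebraMap F K)) *ᵥ v := rfl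

theorem mapK_incV (g : ↥(GOm k a b)) (w : MIx k → F) :
    mapK K g (incV (algebraMap F K) w) =
      incV (algebraMap F K) ((g.1 : Matrix (MIx k) (MIx k) F) *ᵥ w) :=
  map_mulVec_inc (algebraMap F K) g.1 w

theorem mapK_form (g : ↥(GOm k a b)) :
    ∃ μ : K, μ ≠ 0 ∧ ∀ v, formK K k a b (mapK K g v) = μ * formK K k a b v := by
  obtain ⟨c, hc⟩ := g.2
  refine ⟨algebraMap F K c, (map_ne_zero _).2 c.ne_zero, fun v => ?_⟩
  have h := sim_of_rational (algebraMap F K)
    (f := Cfsg.quadFormMinus (k + 3) K (algebraMap F K a) (algebraMap F K b))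
    (f₀ := Cfsg.quadFormMinus (k + 3) F a b) (formK K k a b) (minusQF_apply _ _ _) (minus_incV _)
    (g := GeneralLinearGroup.map (algebraMap F K) g.1) (c := algebraMap F K c)
    (fun w => by rw [map_mulVec_inc, minus_incV, hc, map_mul]) v
  rw [formK, minusQF_apply, minusQF_apply]
  exact h

/-- The character recording whether the two classes of maximal totally singular subspaces over the
quadratic extension are interchanged. -/
noncomputable def chi (E : QExt a b ω) : ↥(GOm k a b) →* Multiplicative (ZMod 2) where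
  toFun g := Multiplicative.ofAdd (linPar (k + 4) (baseU E) (mapK K g))
  map_one' := by
    rw [linPar_of_fix (finrank_baseU E)]
    · rfl
    · intro v hv
      rw [mapK_apply, OneMemClass.coe_one, Units.val_one,
        Matrix.map_one _ (map_zero _) (map_one _), one_mulVec]
      exact hv
  map_mul' g h := by
    obtain ⟨μ, -, hg⟩ := mapK_form (K := K) g
    obtain ⟨ν, -, hh⟩ := mapK_form (K := K) h
    have e : mapK K (g * h) = (mapK K h).trans (mapK K g) := by
      refine LinearEquiv.ext fun v => ?_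
      rw [LinearEquiv.trans_apply, mapK_apply, mapK_apply, mapK_apply, Subgroup.coe_mul,
        Units.val_mul, Matrix.map_mul, ← Matrix.mulVec_mulVec]
    rw [e, linPar_mul (hyp_formK E) (totSing_baseU E) (finrank_baseU E) hg hh, ofAdd_add]

theorem chi_eq_one_iff (E : QExt a b ω) (g : ↥(GOm k a b)) :
    chi E g = 1 ↔ linPar (k + 4) (baseU E) (mapK K g) = 0 :=
  ofAdd_eq_one

theorem chi_eq_one_of_fix (E : QExt a b ω) (g : ↥(GOm k a b))
    (h : ∀ v ∈ baseU E, mapK K g v ∈ baseU E) : chi E g = 1 :=
  (chi_eq_one_iff E g).2 (linPar_of_fix (finrank_baseU E) h)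

theorem chi_scale (E : QExt a b ω) (c : Fˣ) (y : Fin 2 → F) (hy : binQF a b y = (c : F)) :
    chi E (minusScale (k + 3) a b c y hy) = 1 := by
  refine chi_eq_one_of_fix E _ fun v hv => ?_
  obtain ⟨h1, h2⟩ := (mem_baseU E v).1 hv
  have e : (minusScaleMat (k + 3) a b (c : F) y).map (algebraMap F K) =
      minusScaleMat (k + 3) (algebraMap F K a) (algebraMap F K b) (algebraMap F K c)
        (fun i => algebraMap F K (y i)) := by
    rw [minusScaleMat, minusScaleMat, Matrix.fromBlocks_map]
    congr 1
    · rw [Matrix.diagonal_map (map_zero _)]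
      congr 1
      funext i
      rcases i with i | i <;> simp
    · exact Matrix.map_zero _ (map_zero _)
    · exact Matrix.map_zero _ (map_zero _)
    · ext i j
      fin_cases i <;> fin_cases j <;> simp
  rw [mapK_apply, Classical.minusScale_val, e, mem_baseU]
  refine ⟨?_, fun i => ?_⟩
  · rw [Classical.minusScaleMat_inr, Classical.minusScaleMat_inr]
    simp [binMul]
    linear_combination (algebraMap F K (y 0) + algebraMap F K (y 1) * ω) * h1 -
      (algebraMap F K (y 1) * v (.inr 1)) * E.root
  · rw [Classical.minusScaleMat_inl, h2, mul_zero]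

theorem chi_refl (E : QExt a b ω) (x : MIx k → F)
    (hx : Cfsg.quadFormMinus (k + 3) F a b x ≠ 0) :
    chi E (isoInc ((minusCoord k E.aniso).refl x hx)) = Multiplicative.ofAdd 1 := by
  show Multiplicative.ofAdd _ = _
  congr 1
  set e := algebraMap F K
  set X := incV e x
  have hX : formK K k a b X ≠ 0 := by rw [formK_incV]; exact (map_ne_zero e).2 hx
  refine linPar_refl (hyp_formK E) (totSing_baseU E) (finrank_baseU E) hX ?_
  set L := mapK K (isoInc ((minusCoord k E.aniso).refl x hx)) with hL
  let φ : (MIx k → K) →ₗ[K] (MIx k → K) := LinearMap.id -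
    ((formK K k a b X)⁻¹ • QuadraticMap.polarBilin (formK K k a b) X).smulRight X
  suffices h : L.toLinearMap = φ by
    intro v
    have := DFunLike.congr_fun h v
    exact this
  refine (Pi.basisFun K (MIx k)).ext fun i => ?_
  rw [Pi.basisFun_apply, ← incV_single e i]
  show L (incV e _) = incV e _ -
    ((formK K k a b X)⁻¹ * polar (formK K k a b) X (incV e _)) • X
  rw [hL, mapK_incV]
  show incV e ((((minusCoord k E.aniso).refl x hx).1 : Matrix (MIx k) (MIx k) F) *ᵥ _) = _
  rw [(minusCoord k E.aniso).refl_mulVec]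
  have hp : ∀ w, polar (formK K k a b) X (incV e w) =
      e (polar (Cfsg.quadFormMinus (k + 3) F a b) x w) := fun w => by
    simp only [polar, X, ← incV_add, formK_incV, map_sub, e]
  rw [hp, formK_incV]
  funext j
  simp [incV, X, e]

theorem chi_scalar (E : QExt a b ω) (g : ↥(GOm k a b))
    (hg : g.1 ∈ Cfsg.Geo.scalars (MIx k) F) : chi E g = 1 := by
  obtain ⟨c, hc⟩ := (Cfsg.Geo.mem_scalars_iff _).1 hg
  refine chi_eq_one_of_fix E g fun v hv => ?_
  have e : mapK K g v = algebraMap F K c • v := by
    rw [mapK_apply, hc]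
    funext i
    simp [Matrix.mulVec, dotProduct, Matrix.one_apply, apply_ite (algebraMap F K)]
  rw [e]
  exact Submodule.smul_mem _ _ hv

theorem chi_indep {K' : Type u} [Field K'] [Algebra F K'] {ω' : K'} (E : QExt a b ω)
    (E' : QExt a b ω') : (chi E : ↥(GOm k a b) →* _) = chi E' :=
  hom_ext_GOm E.aniso _ _ (fun x hx => (chi_refl E x hx).trans (chi_refl E' x hx).symm)
    fun c y hy => (chi_scale E c y hy).trans (chi_scale E' c y hy).symm

theorem preserves_iff_chi (E : QExt a b ω) (g : ↥(GOm k a b)) :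
    Cfsg.PreservesSingularClasses
        (Cfsg.quadFormMinus (k + 3) K (algebraMap F K a) (algebraMap F K b))
        ((g.1 : Matrix (MIx k) (MIx k) F).map (algebraMap F K)) ↔ chi E g = 1 := by
  obtain ⟨μ, hμ, hg⟩ := mapK_form (K := K) g
  rw [preserves_iff_linPar (formK K k a b) (minusQF_apply _ _ _) (hyp_formK E) (totSing_baseU E)
    (finrank_baseU E) (mapK K g) hμ hg _ (fun v => (mapK_apply g v).symm), chi_eq_one_iff]

end Char

variable {K : Type u} [Field K] [Algebra F K] {ω : K}

theorem isInnDiagMinus_iff (E : QExt a b ω)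
    (β : MulAut (Cfsg.POmega F (Cfsg.quadFormMinus (k + 3) F a b))) :
    Cfsg.IsInnerDiagonalAutPOmegaMinus (k + 3) a b β ↔
      ∃ g ∈ (chi E : ↥(GOm k a b) →* _).ker, β = simAut g := by
  constructor
  · rintro ⟨g, hg, ⟨K', _, _, hK', hp⟩, h⟩
    obtain ⟨ω', E'⟩ := exists_qext_root (K := K') E.aniso hK'
    refine ⟨⟨g, hg⟩, ?_, (Classical.isInduced_iff ⟨g, hg⟩ β).1 h⟩
    rw [MonoidHom.mem_ker, chi_indep E E']
    exact (preserves_iff_chi E' ⟨g, hg⟩).1 hp
  · rintro ⟨g, hg, rfl⟩
    exact ⟨g.1, g.2, ⟨K, inferInstance, inferInstance, E.dim, (preserves_iff_chi E g).2 hg⟩,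
      (Classical.isInduced_iff g _).2 rfl⟩

theorem inndiagMinus_eq (E : QExt a b ω) : Cfsg.inndiagPOmegaMinus (k + 3) F a b =
    (chi E : ↥(GOm k a b) →* _).ker.map simAut :=
  Classical.autSubgroupOf_eq_map _ _ (isInnDiagMinus_iff E)

theorem mem_inndiagMinus_iff (E : QExt a b ω)
    (β : MulAut (Cfsg.POmega F (Cfsg.quadFormMinus (k + 3) F a b))) :
    β ∈ Cfsg.inndiagPOmegaMinus (k + 3) F a b ↔
      Cfsg.IsInnerDiagonalAutPOmegaMinus (k + 3) a b β := by
  rw [inndiagMinus_eq E, isInnDiagMinus_iff E]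
  constructor
  · rintro ⟨g, hg, e⟩; exact ⟨g, hg, e.symm⟩
  · rintro ⟨g, hg, e⟩; exact ⟨g, hg, e.symm⟩

/-! ### The Galois action of the quadratic extension -/

theorem QExt.norm_conj (E : QExt a b ω) (z : Fin 2 → F) :
    E.coord z * E.conj (E.coord z) = algebraMap F K (binQF a b z) := by
  rw [E.conj_coord, E.norm_eq]

/-- The action on the binary part. -/
noncomputable def QExt.binTau (E : QExt a b ω) (τ : K ≃+* K) (z : Fin 2 → F) : Fin 2 → F :=
  E.coord.symm (τ (E.coord z))

theorem QExt.binTau_form (E : QExt a b ω) (τ : K ≃+* K) (z : Fin 2 → F) :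
    binQF a b (E.binTau τ z) = E.res τ (binQF a b z) := by
  haveI := E.finite
  apply (algebraMap F K).injective
  rw [← E.norm_conj, QExt.binTau, E.coord.apply_symm_apply,
    show E.conj (τ (E.coord z)) = τ (E.conj (E.coord z)) from
      DFunLike.congr_fun (ringAut_commute E.conj τ) _,
    ← map_mul, E.norm_conj, E.res_spec]

/-- The semisimilarity attached to an automorphism of the quadratic extension. -/
noncomputable def gSemi (k : ℕ) (E : QExt a b ω) (τ : K ≃+* K) :
    Semi (minusQF (k + 3) a b) where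
  L :=
    { toFun := fun v => Sum.elim (fun i => E.res τ (v (.inl i))) (E.binTau τ fun j => v (.inr j))
      invFun := fun v => Sum.elim (fun i => (E.res τ).symm (v (.inl i)))
        (E.coord.symm (τ.symm (E.coord fun j => v (.inr j))))
      left_inv := fun v => funext fun i => by
        rcases i with i | i
        · simp
        · show E.coord.symm (τ.symm (E.coord (E.binTau τ fun j => v (.inr j)))) i = _
          rw [QExt.binTau, E.coord.apply_symm_apply, τ.symm_apply_apply, E.coord.symm_apply_apply]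
      right_inv := fun v => funext fun i => by
        rcases i with i | i
        · simp
        · show E.binTau τ (E.coord.symm (τ.symm (E.coord fun j => v (.inr j)))) i = _
          rw [QExt.binTau, E.coord.apply_symm_apply, τ.apply_symm_apply, E.coord.symm_apply_apply]
      map_add' := fun x y => funext fun i => by
        rcases i with i | i
        · simp
        · show E.binTau τ ((fun j => x (.inr j)) + fun j => y (.inr j)) i = _
          rw [QExt.binTau, map_add, map_add, map_add]
          rfl }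
  σ := E.res τ
  μ := 1
  hμ := one_ne_zero
  smul c x := funext fun i => by
    rcases i with i | i
    · simp
    · show E.binTau τ (c • fun j => x (.inr j)) i = _
      rw [QExt.binTau, map_smul, Algebra.smul_def, map_mul, ← E.res_spec, ← Algebra.smul_def,
        map_smul]
      rfl
  form x := by
    rw [one_mul, minusQF_apply, minusQF_apply]
    simp only [Cfsg.quadFormMinus, AddEquiv.coe_mk, Equiv.coe_fn_mk, Sum.elim_inl, Sum.elim_inr]
    have h := E.binTau_form τ fun j => x (.inr j)
    simp only [binQF_apply] at h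
    simp only [map_add, map_sum, map_mul, map_pow] at h ⊢
    rw [add_assoc, add_assoc] at h
    linear_combination h

theorem gSemi_L_inl (E : QExt a b ω) (τ : K ≃+* K) (v : MIx k → F)
    (i : Fin (k + 3) ⊕ Fin (k + 3)) : (gSemi k E τ).L v (.inl i) = E.res τ (v (.inl i)) := rfl

theorem gSemi_L_inr (E : QExt a b ω) (τ : K ≃+* K) (v : MIx k → F) :
    (fun j => (gSemi k E τ).L v (.inr j)) = E.binTau τ fun j => v (.inr j) := rfl

theorem gSemi_L_mul (E : QExt a b ω) (τ τ' : K ≃+* K) (v : MIx k → F) :
    (gSemi k E (τ * τ')).L v = (gSemi k E τ).L ((gSemi k E τ').L v) := by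
  funext i
  rcases i with i | i
  · rw [gSemi_L_inl, gSemi_L_inl, gSemi_L_inl, map_mul]; rfl
  · show E.binTau (τ * τ') (fun j => v (.inr j)) i =
      E.binTau τ (fun j => (gSemi k E τ').L v (.inr j)) i
    rw [gSemi_L_inr, QExt.binTau, QExt.binTau, QExt.binTau, E.coord.apply_symm_apply]
    rfl

theorem gSemi_L_one (E : QExt a b ω) (v : MIx k → F) : (gSemi k E 1).L v = v := by
  funext i
  rcases i with i | i
  · rw [gSemi_L_inl, map_one]; rfl
  · show E.coord.symm (E.coord fun j => v (.inr j)) i = _
    rw [E.coord.symm_apply_apply]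

/-- The field automorphisms of `PΩ⁻`, indexed by the automorphisms of the quadratic extension. -/
noncomputable def gamma (k : ℕ) (E : QExt a b ω) :
    (K ≃+* K) →* MulAut (Cfsg.POmega F (Cfsg.quadFormMinus (k + 3) F a b)) where
  toFun τ := semiAutM (minusQF (k + 3) a b) (minusQF_apply (k + 3) a b) (gSemi k E τ)
  map_one' := semiAutM_scalar _ _ _ (c := 1) fun x => by rw [gSemi_L_one, one_smul]
  map_mul' τ τ' := by
    rw [← semiAutM_comp]
    exact semiAutM_congr _ _ fun x => gSemi_L_mul E τ τ' x

/-- The Galois action on the similarity group. -/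
noncomputable def gConj (k : ℕ) (E : QExt a b ω) (τ : K ≃+* K) :
    ↥(GOm k a b) →* ↥(GOm k a b) :=
  semiConj (minusQF (k + 3) a b) (minusQF_apply (k + 3) a b) (gSemi k E τ)

theorem gamma_mul_simAut (E : QExt a b ω) (τ : K ≃+* K) (g : ↥(GOm k a b)) :
    gamma k E τ * simAut g = simAut (gConj k E τ g) * gamma k E τ :=
  semiAutM_mul_simAut _ _ _ g

theorem semiConj_refl_minus (hA : (binQF a b).Anisotropic)
    (S : Semi (minusQF (k + 3) a b)) (x : MIx k → F)
    (hx : Cfsg.quadFormMinus (k + 3) F a b x ≠ 0) :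
    ∃ hx', semiConj (minusQF (k + 3) a b) (minusQF_apply _ a b) S
        (isoInc ((minusCoord k hA).refl x hx)) =
      isoInc ((minusCoord k hA).refl (S.L x) hx') := by
  have hx' : Cfsg.quadFormMinus (k + 3) F a b (S.L x) ≠ 0 := by
    rw [← minusQF_apply, S.form, minusQF_apply]
    exact mul_ne_zero S.hμ ((map_ne_zero _).2 hx)
  refine ⟨hx', semiConj_eq _ _ _ _ _ fun v => ?_⟩
  show ((((minusCoord k hA).refl (S.L x) hx')).1 : Matrix (MIx k) (MIx k) F) *ᵥ S.L v =
    S.L (((((minusCoord k hA).refl x hx)).1 : Matrix (MIx k) (MIx k) F) *ᵥ v)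
  rw [(minusCoord k hA).refl_mulVec, (minusCoord k hA).refl_mulVec, map_sub, S.smul]
  congr 2
  simp only [polar, ← map_add, ← minusQF_apply, S.form, map_mul, map_inv₀, map_sub]
  have := S.hμ
  field_simp

theorem gConj_scale (E : QExt a b ω) (τ : K ≃+* K) (c : Fˣ) (y : Fin 2 → F)
    (hy : binQF a b y = (c : F)) :
    gConj k E τ (minusScale (k + 3) a b c y hy) =
      minusScale (k + 3) a b (Units.map (E.res τ).toRingHom.toMonoidHom c) (E.binTau τ y)
        (by rw [E.binTau_form, hy]; rfl) := by
  refine semiConj_eq _ _ _ _ _ fun v => ?_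
  rw [Classical.minusScale_val, Classical.minusScale_val]
  funext i
  rcases i with i | i
  · rw [gSemi_L_inl, Classical.minusScaleMat_inl, Classical.minusScaleMat_inl, gSemi_L_inl, map_mul]
    congr 1
    rcases i with i | i <;> simp
  · show _ = E.binTau τ _ i
    rw [Classical.minusScaleMat_inr, gSemi_L_inr]
    refine congrFun ?_ i
    rw [show (fun j => (minusScaleMat (k + 3) a b (c : F) y *ᵥ v) (.inr j)) =
      binMul a b y fun j => v (.inr j) from funext fun j => Classical.minusScaleMat_inr _ _ _ _ j]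
    apply E.coord.injective
    simp only [QExt.binTau, E.coord_mul, E.coord.apply_symm_apply, map_mul]

theorem chi_gConj (E : QExt a b ω) (τ : K ≃+* K) (g : ↥(GOm k a b)) :
    chi E (gConj k E τ g) = chi E g :=
  DFunLike.congr_fun (hom_ext_GOm E.aniso ((chi E).comp (gConj k E τ)) (chi E)
    (fun x hx => by
      obtain ⟨hx', h⟩ := semiConj_refl_minus E.aniso (gSemi k E τ) x hx
      rw [MonoidHom.comp_apply, gConj, h, chi_refl, chi_refl])
    fun c y hy => by rw [MonoidHom.comp_apply, gConj_scale, chi_scale, chi_scale]) g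

/-- The reflection realising the conjugation of the quadratic extension. -/
theorem exists_conjRefl (k : ℕ) (E : QExt a b ω) :
    ∃ r : ↥(GOm k a b), chi E r = Multiplicative.ofAdd 1 ∧
      ∀ v, (gSemi k E E.conj).L v = (r.1 : Matrix (MIx k) (MIx k) F) *ᵥ v := by
  have hQ : binQF a b ![-a, 2] = 4 * b - a ^ 2 := by simp; ring
  have hd : 4 * b - a ^ 2 ≠ 0 := fun h => Classical.binDisc_ne_zero E.aniso (by linear_combination -h)
  have hx : Cfsg.quadFormMinus (k + 3) F a b (binVec ![-a, 2]) ≠ 0 := by
    rw [Classical.minus_binVec, hQ]; exact hd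
  refine ⟨_, chi_refl E _ hx, fun v => ?_⟩
  show _ = (((minusCoord k E.aniso).refl _ hx).1 : Matrix (MIx k) (MIx k) F) *ᵥ v
  rw [(minusCoord k E.aniso).refl_mulVec, Classical.minus_binVec, Classical.polar_minus_binVec, hQ]
  have hp : polar (binQF a b) ![-a, 2] (fun j => v (.inr j)) = (4 * b - a ^ 2) * v (.inr 1) := by
    simp [Classical.polar_binQF]; ring
  rw [hp, inv_mul_cancel_left₀ hd]
  funext i
  rcases i with i | i
  · rw [gSemi_L_inl, E.res_conj]
    simp [binVec]
  · show E.coord.symm (E.conj (E.coord fun j => v (.inr j))) i = _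
    rw [E.conj_coord, show E.conjExt.coord (fun j => v (.inr j)) =
        E.coord ![v (.inr 0) + a * v (.inr 1), -v (.inr 1)] by
      rw [E.coord_apply, E.conjExt.coord_apply]; simp; ring,
      E.coord.symm_apply_apply]
    fin_cases i <;> simp [binVec] <;> ring

theorem QExt.conj_mul_conj (E : QExt a b ω) : E.conj * E.conj = 1 := by
  refine RingEquiv.ext fun x => ?_
  obtain ⟨z, rfl⟩ := E.coord.surjective x
  show E.conj (E.conj (E.coord z)) = E.coord z
  rw [E.conj_coord, show E.conjExt.coord z = E.coord ![z 0 + a * z 1, -z 1] by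
    rw [E.coord_apply, E.conjExt.coord_apply]; simp; ring, E.conj_coord, E.coord_apply,
    E.conjExt.coord_apply]
  simp
  ring

theorem simAut_mul (g h : ↥(GOm k a b)) : simAut (g * h) = simAut g * simAut h :=
  MonoidHom.map_mul _ g h

theorem simAut_inv (g : ↥(GOm k a b)) : simAut g⁻¹ = (simAut g)⁻¹ :=
  MonoidHom.map_inv _ g

theorem gamma_eq_simAut_of_L (E : QExt a b ω) (τ : K ≃+* K) (g : ↥(GOm k a b))
    (h : ∀ v, (gSemi k E τ).L v = (g.1 : Matrix (MIx k) (MIx k) F) *ᵥ v) :
    gamma k E τ = simAut g := by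
  rw [simAut_eq_semi (minusQF (k + 3) a b) (minusQF_apply _ a b)]
  exact semiAutM_congr _ _ fun x => by rw [simSemi_L, h]

set_option maxHeartbeats 1000000 in
/-- Every automorphism is an inner-diagonal one times one from the quadratic extension. -/
theorem exists_decomp_minus (E : QExt a b ω)
    (β : MulAut (Cfsg.POmega F (Cfsg.quadFormMinus (k + 3) F a b))) :
    ∃ (g : ↥(GOm k a b)) (τ : K ≃+* K), chi E g = 1 ∧ β = simAut g * gamma k E τ := by
  obtain ⟨S, -, -, rfl, -, -⟩ := exists_induced (minusQF (k + 3) a b) (minusQF_apply _ a b)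
    (good_minus E.aniso (by omega)) (minusFrame _ E.aniso) (by omega) β
  obtain ⟨τ, hτ⟩ := E.res_surjective S.σ
  obtain ⟨g, hg⟩ := exists_sim_comp _ (minusQF_apply _ a b) S (gSemi k E τ) hτ.symm
  have e : semiAutM (minusQF (k + 3) a b) (minusQF_apply _ a b) S = simAut g * gamma k E τ := by
    rw [simAut_eq_semi (minusQF (k + 3) a b) (minusQF_apply _ a b)]
    exact (semiAutM_congr _ _ fun x => by rw [semiComp_L, simSemi_L, hg]).trans
      (semiAutM_comp _ _ _ _)
  rw [e]
  by_cases h1 : chi E g = 1
  · exact ⟨g, τ, h1, rfl⟩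
  obtain ⟨r, hr, hrL⟩ := exists_conjRefl k E
  refine ⟨g * r, E.conj * τ, ?_, ?_⟩
  · rw [map_mul, hr]
    revert h1
    generalize chi E g = x
    revert x
    decide
  · have h2 := simAut_mul g r
    rw [h2, ← gamma_eq_simAut_of_L E _ r hrL, map_mul (gamma k E), ← mul_assoc, mul_assoc (simAut g),
      ← map_mul (gamma k E), E.conj_mul_conj, map_one (gamma k E), mul_one]

theorem simAut_gamma_eq_one (E : QExt a b ω) (g : ↥(GOm k a b)) (τ : K ≃+* K)
    (hg : chi E g = 1) (h : simAut g * gamma k E τ = 1) :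
    τ = 1 ∧ g.1 ∈ Cfsg.Geo.scalars (MIx k) F := by
  set Qf := minusQF (k + 3) a b with hQf
  set hQ := minusQF_apply (k + 3) a b
  have hg' := h
  rw [simAut_eq_semi Qf hQ, show gamma k E τ = semiAutM Qf hQ (gSemi k E τ) from rfl,
    ← semiAutM_comp] at h
  obtain ⟨hσ, c, hc0, hc⟩ := semiAutM_eq_one Qf hQ (good_minus E.aniso (by omega)) _ h
  have hres : E.res τ = 1 := by
    refine RingEquiv.ext fun t => ?_
    have := DFunLike.congr_fun hσ t
    exact this
  rcases E.res_eq_one hres with rfl | rfl
  · refine ⟨rfl, (simAut_eq_one_iff' Qf hQ (good_minus E.aniso (by omega)) g).1 ?_⟩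
    rw [map_one, mul_one] at hg'
    exact hg'
  · exfalso
    obtain ⟨r, hr, hrL⟩ := exists_conjRefl k E
    rw [gamma_eq_simAut_of_L E _ r hrL, ← map_mul] at hg'
    have h2 := chi_scalar E _ ((simAut_eq_one_iff' Qf hQ (good_minus E.aniso (by omega)) _).1 hg')
    rw [map_mul, hg, one_mul, hr] at h2
    exact absurd h2 (by decide)

theorem simAut_ker_iff (E : QExt a b ω) (g : ↥(GOm k a b)) :
    simAut g = 1 ↔ g.1 ∈ Cfsg.Geo.scalars (MIx k) F :=
  simAut_eq_one_iff' _ (minusQF_apply (k + 3) a b) (good_minus E.aniso (by omega)) g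

theorem chi_eq_of_simAut_eq (E : QExt a b ω) {g h : ↥(GOm k a b)} (e : simAut g = simAut h) :
    chi E g = chi E h := by
  have := chi_scalar E _ ((simAut_ker_iff E (h⁻¹ * g)).1 (by rw [map_mul, map_inv, e, inv_mul_cancel]))
  rwa [map_mul, map_inv, inv_mul_eq_one, eq_comm] at this

theorem gamma_injective (E : QExt a b ω) : Function.Injective (gamma k E) :=
  (injective_iff_map_eq_one _).2 fun τ h =>
    (simAut_gamma_eq_one E 1 τ (map_one _) (by rw [map_one, one_mul, h])).1

theorem gamma_mem_inndiag (E : QExt a b ω) (τ : K ≃+* K)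
    (h : gamma k E τ ∈ Cfsg.inndiagPOmegaMinus (k + 3) F a b) : τ = 1 := by
  rw [inndiagMinus_eq E] at h
  obtain ⟨g, hg, e⟩ := h
  exact (simAut_gamma_eq_one E g⁻¹ τ (by rw [map_inv, (MonoidHom.mem_ker).1 hg, inv_one])
    (by rw [map_inv, e, inv_mul_cancel])).1

set_option maxHeartbeats 1000000 in
theorem inndiagMinus_normal (E : QExt a b ω) :
    (Cfsg.inndiagPOmegaMinus (k + 3) F a b).Normal := by
  rw [inndiagMinus_eq E]
  refine ⟨?_⟩
  rintro _ ⟨e, he, rfl⟩ β
  obtain ⟨g, τ, -, rfl⟩ := exists_decomp_minus E β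
  refine ⟨g * gConj k E τ e * g⁻¹, ?_, ?_⟩
  · rw [SetLike.mem_coe, MonoidHom.mem_ker, map_mul, map_mul, map_inv, chi_gConj,
      (MonoidHom.mem_ker).1 he, mul_one, mul_inv_cancel]
  · rw [simAut_mul (g * gConj k E τ e) g⁻¹, simAut_mul g (gConj k E τ e), simAut_inv g,
      _root_.mul_inv_rev]
    calc simAut g * simAut (gConj k E τ e) * (simAut g)⁻¹
        = simAut g * (simAut (gConj k E τ e) * gamma k E τ) *
            ((gamma k E τ)⁻¹ * (simAut g)⁻¹) := by group
      _ = _ := by rw [← gamma_mul_simAut]; group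

end Cfsg.Agent.OutPO
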