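import Mathlib
import Cfsg.Prelude.Def_KGroupFacts
import Cfsg.Agent.OutPO.MinusBase
import Cfsg.Agent.OutPO.Abstract
import Cfsg.Agent.AutPSL.Classes
import Cfsg.Agent.ClassicalElem.OutPSL

/-!
The outer automorphism group of `PΩ⁻`.
-/

set_option autoImplicit false
set_option linter.unusedSectionVars false
set_option maxHeartbeats 1000000
set_option synthInstance.maxHeartbeats 400000

namespace Cfsg.Agent.OutPO

open Matrix QuadraticMap
open Cfsg.Agent.Classical (simAut minusCoord OrthCoord binQF)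

universe u

/-! ### Group theory -/

section Abstract

theorem dihedral_four_decide :
    ∀ A B : DihedralGroup 4, A ^ 4 = 1 → A ^ 2 ≠ 1 → B * B = 1 → B * A * B = A⁻¹ →
      ∀ (n : Fin 4) (T : Bool),
        let ev : DihedralGroup 4 → DihedralGroup 4 := fun x => match x with
          | .r i => A ^ i.val
          | .sr i => B * A ^ i.val
        let x : DihedralGroup 4 := if T then .r (n.val : ZMod 4) else .sr (n.val : ZMod 4)
        ev (ev (ev (ev x))) = x := by
  decide

/-- The fourth power of every automorphism of the dihedral group of order eight is trivial. -/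
theorem mulAut_dihedral_four_pow (α : MulAut (DihedralGroup 4)) : α ^ 4 = 1 := by
  set A := α (.r 1)
  set B := α (.sr 0)
  have h1 : A ^ 4 = 1 := by rw [← map_pow]; exact (congrArg α (by decide)).trans (map_one α)
  have h2 : A ^ 2 ≠ 1 := by
    rw [← map_pow, ne_eq, map_eq_one_iff _ α.injective]; decide
  have h3 : B * B = 1 := by rw [← map_mul]; exact (congrArg α (by decide)).trans (map_one α)
  have h4 : B * A * B = A⁻¹ := by rw [← map_mul, ← map_mul, ← map_inv]; exact congrArg α (by decide)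
  set ev : DihedralGroup 4 → DihedralGroup 4 := fun x => match x with
    | .r i => A ^ i.val
    | .sr i => B * A ^ i.val with hev
  have hα : ∀ x, α x = ev x := by
    intro x
    rcases x with i | i
    · show _ = A ^ i.val
      rw [← map_pow, DihedralGroup.r_one_pow, ZMod.natCast_zmod_val]
    · show _ = B * A ^ i.val
      rw [← map_pow, DihedralGroup.r_one_pow, ZMod.natCast_zmod_val, ← map_mul,
        DihedralGroup.sr_mul_r, zero_add]
  refine MulEquiv.ext fun x => ?_
  show α (α (α (α x))) = x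
  rw [hα, hα, hα, hα]
  rcases x with i | i
  · have := dihedral_four_decide A B h1 h2 h3 h4 ⟨i.val, i.val_lt⟩ true
    simpa using this
  · have := dihedral_four_decide A B h1 h2 h3 h4 ⟨i.val, i.val_lt⟩ false
    simpa using this

/-- A normal subgroup with dihedral quotient of order eight and an odd order complement. -/
theorem nonempty_quotient_equiv_dihedral {A Γ : Type*} [Group A] [Group Γ] (φ : Γ →* A)
    (P N : Subgroup A) [P.Normal] [N.Normal] (hNP : N ≤ P) (π : P →* DihedralGroup 4)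
    (hπ : Function.Surjective π) (hker : π.ker = N.subgroupOf P) {f : ℕ} (hf : Odd f)
    (hΓ : ∀ x : Γ, x ^ f = 1) (hex : ∀ a : A, ∃ d ∈ P, ∃ σ, a = d * φ σ)
    (huniq : ∀ σ, φ σ ∈ P → σ = 1) :
    Nonempty (A ⧸ N ≃* DihedralGroup 4 × Γ) := by
  set q := QuotientGroup.mk' N with hq
  have hle : π.ker ≤ (q.comp P.subtype).ker := fun d hd => by
    rw [hker, Subgroup.mem_subgroupOf] at hd
    exact (QuotientGroup.eq_one_iff _).2 hd
  let ε : DihedralGroup 4 →* A ⧸ N := π.liftOfSurjective hπ ⟨q.comp P.subtype, hle⟩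
  have hε : ∀ d : P, ε (π d) = q d.1 := fun d =>
    MonoidHom.liftOfRightInverse_comp_apply _ _ _ _ d
  have hεinj : Function.Injective ε := (injective_iff_map_eq_one ε).2 fun y hy => by
    obtain ⟨d, rfl⟩ := hπ y
    rw [hε] at hy
    rw [← MonoidHom.mem_ker, hker, Subgroup.mem_subgroupOf]
    exact (QuotientGroup.eq_one_iff _).1 hy
  have hrange : ε.range = P.map q := by
    refine le_antisymm ?_ ?_
    · rintro _ ⟨y, rfl⟩
      obtain ⟨d, rfl⟩ := hπ y
      exact ⟨d.1, d.2, (hε d).symm⟩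
    · rintro _ ⟨d, hd, rfl⟩
      exact ⟨π ⟨d, hd⟩, hε _⟩
  haveI : ε.range.Normal :=
    hrange ▸ Subgroup.Normal.map inferInstance q (QuotientGroup.mk'_surjective N)
  let θ : A ⧸ N →* MulAut (DihedralGroup 4) :=
    (MulAut.congr (MonoidHom.ofInjective hεinj).symm).toMonoidHom.comp MulAut.conjNormal
  have hθ : ∀ g y, ε (θ g y) = g * ε y * g⁻¹ := by
    intro g y
    show ε ((MonoidHom.ofInjective hεinj).symm
      (MulAut.conjNormal g (MonoidHom.ofInjective hεinj y))) = _
    have := Subtype.ext_iff.1 ((MonoidHom.ofInjective hεinj).apply_symm_apply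
      (MulAut.conjNormal g (MonoidHom.ofInjective hεinj y)))
    rw [MonoidHom.ofInjective_apply] at this
    rw [this, MulAut.conjNormal_apply, MonoidHom.ofInjective_apply]
  have hcomm : ∀ y x, Commute (ε y) (q (φ x)) := by
    intro y x
    have h1 : θ (q (φ x)) ^ f = 1 := by
      rw [← map_pow, ← map_pow, ← map_pow, hΓ, map_one, map_one, map_one]
    have h4 := mulAut_dihedral_four_pow (θ (q (φ x)))
    have h0 : θ (q (φ x)) = 1 := by
      have hcop : Nat.Coprime f 4 := by
        rw [show (4 : ℕ) = 2 ^ 2 by norm_num]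
        exact Nat.Coprime.pow_right _ (Nat.coprime_two_right.2 hf)
      have := pow_gcd_eq_one.2 ⟨h1, h4⟩
      rwa [hcop, pow_one] at this
    have h := hθ (q (φ x)) y
    rw [h0, MulAut.one_apply] at h
    exact eq_mul_inv_iff_mul_eq.1 h
  let ψ : DihedralGroup 4 × Γ →* A ⧸ N := MonoidHom.noncommCoprod ε (q.comp φ) hcomm
  refine ⟨(MulEquiv.ofBijective ψ ⟨(injective_iff_map_eq_one ψ).2 ?_, fun g => ?_⟩).symm⟩
  · rintro ⟨y, σ⟩ h
    change ε y * q (φ σ) = 1 at h
    obtain ⟨d, rfl⟩ := hπ y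
    rw [hε, ← map_mul, hq, QuotientGroup.mk'_apply, QuotientGroup.eq_one_iff] at h
    obtain rfl : σ = 1 := huniq σ ((P.mul_mem_cancel_left d.2).1 (hNP h))
    rw [map_one, mul_one] at h
    have : π d = 1 := by rw [← MonoidHom.mem_ker, hker, Subgroup.mem_subgroupOf]; exact h
    rw [this]
    rfl
  · obtain ⟨a, rfl⟩ := QuotientGroup.mk'_surjective N g
    obtain ⟨d, hd, σ, rfl⟩ := hex a
    exact ⟨(π ⟨d, hd⟩, σ), by show ε _ * q (φ σ) = _; rw [hε, map_mul]⟩

theorem relIndex_of_hom {A : Type*} [Group A] {X : Type*} [Group X] (P N : Subgroup A)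
    (φ : P →* X) (hφ : Function.Surjective φ) (hker : φ.ker = N.subgroupOf P) :
    N.relIndex P = Nat.card X := by
  rw [Subgroup.relIndex, ← hker, Subgroup.index_ker, MonoidHom.range_eq_top.2 hφ,
    Subgroup.card_top]

end Abstract

variable {F : Type u} [Field F] [Finite F] {k : ℕ} {a b : F} {K : Type u} [Field K] [Algebra F K]
  {ω : K}

/-- Conjugation by an element of `PΩ` is trivial only for the identity. -/
theorem conj_eq_one_minus (E : QExt a b ω)
    (x : Cfsg.POmega F (Cfsg.quadFormMinus (k + 3) F a b)) (hx : MulAut.conj x = 1) : x = 1 := by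
  obtain ⟨s, rfl⟩ := QuotientGroup.mk_surjective x
  have e : simAut (isoInc s.1) =
      MulAut.conj (QuotientGroup.mk s : Cfsg.POmega F (Cfsg.quadFormMinus (k + 3) F a b)) := by
    refine MulEquiv.ext fun y => ?_
    obtain ⟨t, rfl⟩ := QuotientGroup.mk_surjective y
    rw [Classical.simAut_mk, MulAut.conj_apply, ← QuotientGroup.mk_mul, ← QuotientGroup.mk_inv,
      ← QuotientGroup.mk_mul]
    congr 1
  obtain ⟨c, hc⟩ := (simAut_ker_iff E (isoInc s.1)).1 (e.trans hx)
  refine (QuotientGroup.eq_one_iff s).2 (Subgroup.mem_center_iff.2 fun t => ?_)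
  refine Subtype.ext (Subtype.ext ?_)
  show t.1.1 * s.1.1 = s.1.1 * t.1.1
  rw [show s.1.1 = (isoInc s.1 : ↥(GOm k a b)).1 from rfl, ← hc]
  apply Units.ext
  rw [Units.val_mul, Units.val_mul, Units.coe_map]
  show _ * scalar (MIx k) (c : F) = scalar (MIx k) (c : F) * _
  rw [scalar_apply, ← smul_one_eq_diagonal, Matrix.smul_mul, Matrix.mul_smul, one_mul, mul_one]

theorem card_inn_minus (E : QExt a b ω) :
    Nat.card (Cfsg.Inn (Cfsg.POmega F (Cfsg.quadFormMinus (k + 3) F a b))) =
      Nat.card (Cfsg.POmega F (Cfsg.quadFormMinus (k + 3) F a b)) :=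
  (Nat.card_congr (MonoidHom.ofInjective
    ((injective_iff_map_eq_one (MulAut.conj :
      Cfsg.POmega F (Cfsg.quadFormMinus (k + 3) F a b) →* _)).2
        (conj_eq_one_minus E))).toEquiv).symm

theorem chi_omega (E : QExt a b ω)
    {s : ↥(Cfsg.isometryGroup F (Cfsg.quadFormMinus (k + 3) F a b))}
    (hs : s ∈ Cfsg.Omega F (Cfsg.quadFormMinus (k + 3) F a b)) : chi E (isoInc s) = 1 :=
  Abelianization.commutator_subset_ker ((chi E).comp isoInc) hs

theorem inn_le_inndiagMinus (E : QExt a b ω) :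
    Cfsg.Inn (Cfsg.POmega F (Cfsg.quadFormMinus (k + 3) F a b)) ≤
      Cfsg.inndiagPOmegaMinus (k + 3) F a b := by
  rw [Classical.inn_eq, inndiagMinus_eq E]
  refine Subgroup.map_mono ?_
  rintro _ ⟨s, hs, rfl⟩
  exact chi_omega E hs

theorem iso_ker_chi_eq_omega [CharP F 2] (E : QExt a b ω) :
    ((chi E : ↥(GOm k a b) →* _).comp isoInc).ker =
      Cfsg.Omega F (Cfsg.quadFormMinus (k + 3) F a b) := by
  set D := minusCoord k E.aniso with hD
  symm
  refine Subgroup.eq_of_le_of_card_ge (fun s hs => chi_omega E hs) ?_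
  have hO : Nat.card ↥(Cfsg.isometryGroup F (Cfsg.quadFormMinus (k + 3) F a b)) =
      2 * Nat.card ↥(Cfsg.Omega F (Cfsg.quadFormMinus (k + 3) F a b)) := by
    rw [Nat.card_congr D.Θ.toEquiv, Classical.EQ_index_two D.nondeg D.pairs D.gen,
      ← D.map_omega, Subgroup.card_map_of_injective D.Θ.injective]
  have h2 := ((chi E : ↥(GOm k a b) →* _).comp isoInc).ker.card_mul_index
  have hx : Cfsg.quadFormMinus (k + 3) F a b (Classical.binVec ![1, 0]) ≠ 0 := by
    rw [Classical.minus_binVec]; simp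
  have hi : ((chi E : ↥(GOm k a b) →* _).comp isoInc).ker.index = 2 := by
    rw [Subgroup.index_ker, MonoidHom.range_eq_top.2, Subgroup.card_top]
    · simp
    · intro y
      have hy : y = 1 ∨ y = Multiplicative.ofAdd 1 := by revert y; decide
      rcases hy with rfl | rfl
      · exact ⟨1, map_one _⟩
      · exact ⟨_, chi_refl E _ hx⟩
  rw [hi, hO] at h2
  omega

theorem inndiag_eq_inn_char_two [CharP F 2] (E : QExt a b ω) :
    Cfsg.inndiagPOmegaMinus (k + 3) F a b =
      Cfsg.Inn (Cfsg.POmega F (Cfsg.quadFormMinus (k + 3) F a b)) := by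
  refine le_antisymm ?_ (inn_le_inndiagMinus E)
  rw [inndiagMinus_eq E, Classical.inn_eq]
  rintro _ ⟨g, hg, rfl⟩
  set D := minusCoord k E.aniso with hD
  haveI := Fintype.ofFinite F
  obtain ⟨t, ht⟩ := FiniteField.isSquare_of_char_two (ringChar.eq F 2) (D.mu g : F)
  have ht0 : t ≠ 0 := by rintro rfl; rw [mul_zero] at ht; exact (D.mu g).ne_zero ht
  set c : Fˣ := Units.mk0 t ht0
  have hmu : D.mu ((D.scal c)⁻¹ * g) = 1 := by
    rw [map_mul, map_inv, D.mu_scal, inv_mul_eq_one]
    exact Units.ext ht.symm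
  set o : ↥(Cfsg.isometryGroup F (Cfsg.quadFormMinus (k + 3) F a b)) :=
    ⟨_, D.mem_iso_of_mu _ hmu⟩
  have ho : isoInc o = (D.scal c)⁻¹ * g := rfl
  have hchi : chi E (isoInc o) = 1 := by
    rw [ho, map_mul, map_inv, chi_scalar E _ (D.scal_mem c), (MonoidHom.mem_ker).1 hg, inv_one,
      one_mul]
  have hmem : o ∈ Cfsg.Omega F (Cfsg.quadFormMinus (k + 3) F a b) := by
    rw [← iso_ker_chi_eq_omega E]; exact hchi
  refine ⟨isoInc o, ⟨o, hmem, rfl⟩, ?_⟩
  rw [ho, simAut_mul, simAut_inv, D.simAut_scal, inv_one, one_mul]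

/-- In characteristic two the outer automorphisms come from the quadratic extension. -/
theorem out_equiv_minus_two [CharP F 2] (E : QExt a b ω) :
    Nonempty (Cfsg.Out (Cfsg.POmega F (Cfsg.quadFormMinus (k + 3) F a b)) ≃* (K ≃+* K)) := by
  haveI := AutPSL.inn_normal (Cfsg.POmega F (Cfsg.quadFormMinus (k + 3) F a b))
  let ψ := (QuotientGroup.mk' (Cfsg.Inn (Cfsg.POmega F (Cfsg.quadFormMinus (k + 3) F a b)))).comp
    (gamma k E)
  refine ⟨(MulEquiv.ofBijective ψ ⟨(injective_iff_map_eq_one ψ).2 fun τ h => ?_, fun x => ?_⟩).symm⟩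
  · have h' := (QuotientGroup.eq_one_iff _).1 h
    rw [← inndiag_eq_inn_char_two E] at h'
    exact gamma_mem_inndiag E τ h'
  · obtain ⟨β, rfl⟩ := QuotientGroup.mk'_surjective _ x
    obtain ⟨g, τ, hg, rfl⟩ := exists_decomp_minus E β
    refine ⟨τ, ?_⟩
    have h1 : simAut g ∈ Cfsg.Inn (Cfsg.POmega F (Cfsg.quadFormMinus (k + 3) F a b)) := by
      rw [← inndiag_eq_inn_char_two E, inndiagMinus_eq E]
      exact ⟨g, hg, rfl⟩
    show QuotientGroup.mk' _ (gamma k E τ) = _
    rw [map_mul, show QuotientGroup.mk' (Cfsg.Inn (Cfsg.POmega F _)) (simAut g) = 1 from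
      (QuotientGroup.eq_one_iff _).2 h1, one_mul]

/-! ### Odd characteristic -/

theorem chi_eq_dClass (E : QExt a b ω) (hodd : Odd (Nat.card F)) :
    (chi E : ↥(GOm k a b) →* _) =
      (minusCoord k E.aniso).dClass (Classical.card_minus k) := by
  refine hom_ext_GOm E.aniso _ _ (fun x hx => ?_) fun c y hy => ?_
  · rw [chi_refl, OrthCoord.dClass]
    refine (Classical.toC2_of_not_mem _ _ fun h => ?_).symm
    rw [MonoidHom.mem_ker, isoInc, OrthCoord.dsign_refl] at h
    exact (minusCoord k E.aniso).neg_one_ne_one hodd h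
  · rw [chi_scale, OrthCoord.dClass, eq_comm, Classical.toC2_eq_one, MonoidHom.mem_ker]
    show GeneralLinearGroup.det _ * ((minusCoord k E.aniso).mu _ ^ (k + 4))⁻¹ = 1
    have hmu : (minusCoord k E.aniso).mu (Classical.minusScale (k + 3) a b c y hy) = c :=
      Units.ext ((minusCoord k E.aniso).mu_eq_of _ fun v => Classical.minus_scale _ hy v)
    rw [hmu, mul_inv_eq_one]
    refine Units.ext ?_
    rw [GeneralLinearGroup.val_det_apply, Classical.minusScale_val, Classical.det_minusScaleMat,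
      hy, Units.val_pow_eq_pow_val]
    exact (pow_succ _ _).symm

theorem ker_chi_eq_dsign (E : QExt a b ω) (hodd : Odd (Nat.card F)) :
    (chi E : ↥(GOm k a b) →* _).ker = ((minusCoord k E.aniso).dsign (k + 4)).ker :=
  Subgroup.ext fun g => by
    rw [MonoidHom.mem_ker, chi_eq_dClass E hodd]
    exact Classical.toC2_eq_one _ _ g

/-- The generic case in odd characteristic. -/
theorem out_equiv_minus_odd (E : QExt a b ω) (hodd : Odd (Nat.card F))
    (h : ¬ (Even (k + 3) ∧ Nat.card F % 4 = 3)) :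
    Nonempty (Cfsg.Out (Cfsg.POmega F (Cfsg.quadFormMinus (k + 3) F a b)) ≃*
      Multiplicative (ZMod 2) × (K ≃+* K)) := by
  haveI := AutPSL.inn_normal (Cfsg.POmega F (Cfsg.quadFormMinus (k + 3) F a b))
  haveI := inndiagMinus_normal (k := k) E
  obtain ⟨S⟩ := Classical.nonempty_genSim_minus k hodd E.aniso
  obtain ⟨φ, hφ, hker⟩ := (minusCoord k E.aniso).inndiag_mod_inn_two hodd (Classical.card_minus k)
    (by rw [Classical.theta_negI_minus k hodd E.aniso, if_neg h]) S.hs1 S.hs2
  have hidx := relIndex_of_hom _ _ φ hφ hker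
  rw [← Classical.inndiag_minus_eq k hodd E.aniso, Nat.card_congr Multiplicative.toAdd,
    Nat.card_zmod] at hidx
  refine nonempty_quotient_equiv_of_split (gamma k E) (Cfsg.inndiagPOmegaMinus (k + 3) F a b) _
    (inn_le_inndiagMinus E) hidx (fun β => ?_) (gamma_mem_inndiag E)
  obtain ⟨g, τ, hg, rfl⟩ := exists_decomp_minus E β
  exact ⟨simAut g, by rw [inndiagMinus_eq E]; exact ⟨g, hg, rfl⟩, τ, rfl⟩

theorem pgoAut_normal_minus (E : QExt a b ω) :
    (Cfsg.pgoAut F (Cfsg.quadFormMinus (k + 3) F a b)).Normal := by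
  rw [Classical.pgoAut_eq]
  refine ⟨?_⟩
  rintro _ ⟨e, rfl⟩ β
  obtain ⟨g, τ, -, rfl⟩ := exists_decomp_minus E β
  refine ⟨g * gConj k E τ e * g⁻¹, ?_⟩
  rw [simAut_mul (g * gConj k E τ e) g⁻¹, simAut_mul g, simAut_inv g, _root_.mul_inv_rev]
  calc simAut g * simAut (gConj k E τ e) * (simAut g)⁻¹
      = simAut g * (simAut (gConj k E τ e) * gamma k E τ) *
          ((gamma k E τ)⁻¹ * (simAut g)⁻¹) := by group
    _ = _ := by rw [← gamma_mul_simAut]; group

theorem gamma_mem_pgo_iff (E : QExt a b ω) (τ : K ≃+* K) :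
    gamma k E τ ∈ Cfsg.pgoAut F (Cfsg.quadFormMinus (k + 3) F a b) ↔ E.res τ = 1 := by
  rw [Classical.pgoAut_eq]
  constructor
  · rintro ⟨g, hg⟩
    by_cases h1 : chi E g = 1
    · obtain ⟨rfl, -⟩ := simAut_gamma_eq_one E g⁻¹ τ (by rw [map_inv, h1, inv_one])
        (by rw [simAut_inv, hg, inv_mul_cancel])
      exact map_one _
    · obtain ⟨r, hr, hrL⟩ := exists_conjRefl k E
      have e : simAut (r * g⁻¹ * r⁻¹ * r) * gamma k E τ = gamma k E E.conj := by
        rw [inv_mul_cancel_right, simAut_mul r g⁻¹, simAut_inv g, hg, inv_mul_cancel_right,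
          gamma_eq_simAut_of_L E _ r hrL]
      obtain ⟨h2, -⟩ := simAut_gamma_eq_one E (r * g⁻¹) (τ * E.conj) (by
          rw [map_mul, map_inv, hr]
          revert h1
          generalize chi E g = x
          revert x
          decide)
        (by rw [inv_mul_cancel_right] at e
            rw [map_mul (gamma k E), ← mul_assoc, e, ← map_mul, E.conj_mul_conj, map_one])
      rw [show τ = E.conj⁻¹ from eq_inv_of_mul_eq_one_left h2, map_inv, E.res_conj, inv_one]
  · intro h
    rcases E.res_eq_one h with rfl | rfl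
    · exact ⟨1, by rw [map_one, map_one]⟩
    · obtain ⟨r, -, hrL⟩ := exists_conjRefl k E
      exact ⟨r, (gamma_eq_simAut_of_L E _ r hrL).symm⟩

/-- The case in which minus one is a spinor norm. -/
theorem out_equiv_minus_dihedral (E : QExt a b ω) (hodd : Odd (Nat.card F))
    (h : Even (k + 3) ∧ Nat.card F % 4 = 3) {p f : ℕ} [Fact p.Prime] (hF : Nat.card F = p ^ f) :
    Nonempty (Cfsg.Out (Cfsg.POmega F (Cfsg.quadFormMinus (k + 3) F a b)) ≃*
      DihedralGroup 4 × Multiplicative (ZMod f)) := by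
  haveI := AutPSL.inn_normal (Cfsg.POmega F (Cfsg.quadFormMinus (k + 3) F a b))
  haveI := pgoAut_normal_minus (k := k) E
  have hfodd : Odd f := by
    by_contra hc
    obtain ⟨j, rfl⟩ := Nat.not_odd_iff_even.1 hc
    have h3 := h.2
    rw [hF, pow_add, Nat.mul_mod] at h3
    have := Nat.mod_lt (p ^ j) (show 4 > 0 by norm_num)
    interval_cases hq : p ^ j % 4 <;> omega
  haveI : NeZero f := ⟨hfodd.pos.ne'⟩
  haveI := E.finite
  obtain ⟨S⟩ := Classical.nonempty_genSim_minus k hodd E.aniso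
  obtain ⟨φ, hφ, hker⟩ := (minusCoord k E.aniso).conformal_mod_inn_dihedral hodd
    (Classical.card_minus k) (by rw [Classical.theta_negI_minus k hodd E.aniso, if_pos h]) S
  obtain ⟨eK⟩ := E.ringAut_equiv hF
  let two : ZMod f →+ ZMod (2 * f) :=
    ZMod.lift f ⟨zmultiplesHom (ZMod (2 * f)) 2, by
      rw [zmultiplesHom_apply, natCast_zsmul, nsmul_eq_mul, mul_comm (f : ZMod (2 * f)) 2]
      calc ((2 : ZMod (2 * f)) * (f : ZMod (2 * f))) = ((2 * f : ℕ) : ZMod (2 * f)) := by push_cast; rfl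
        _ = 0 := ZMod.natCast_self _⟩
  let ρ : Multiplicative (ZMod f) →* (K ≃+* K) :=
    eK.symm.toMonoidHom.comp two.toMultiplicative
  have htwo : ∀ n : ℕ, two (n : ZMod f) = (2 * n : ℕ) := fun n => by
    rw [← Int.cast_natCast (R := ZMod f) n]
    simp only [two, ZMod.lift_coe]
    rw [zmultiplesHom_apply, natCast_zsmul, nsmul_eq_mul]
    push_cast
    ring
  have hρinj : Function.Injective (E.res.comp ρ) := by
    refine (injective_iff_map_eq_one _).2 fun x hx => ?_
    have hpow : ρ x ^ f = 1 := by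
      rw [← map_pow]
      have : x ^ f = 1 := by
        have := pow_card_eq_one' (x := x)
        rwa [Nat.card_congr Multiplicative.toAdd, Nat.card_zmod] at this
      rw [this, map_one]
    rcases E.res_eq_one hx with h1 | h1
    · obtain ⟨n, hn⟩ : ∃ n : ℕ, x = Multiplicative.ofAdd (n : ZMod f) :=
        ⟨(Multiplicative.toAdd x).val, by rw [ZMod.natCast_zmod_val]; rfl⟩
      have h2 : two (n : ZMod f) = 0 := by
        have := eK.symm.injective (h1.trans (map_one eK.symm).symm)
        rw [hn] at this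
        exact Multiplicative.ofAdd.injective this
      rw [htwo, ZMod.natCast_eq_zero_iff] at h2
      rw [hn, (ZMod.natCast_eq_zero_iff n f).2 (Nat.dvd_of_mul_dvd_mul_left two_pos h2)]
      rfl
    · obtain ⟨j, hj⟩ := hfodd
      rw [h1, hj, pow_succ, pow_mul, pow_two, E.conj_mul_conj, one_pow, one_mul] at hpow
      exact absurd hpow E.conj_ne_one
  have hρsurj : Function.Surjective (E.res.comp ρ) := by
    haveI : Finite (F ≃+* F) := Finite.of_injective (fun e => (e : F → F)) DFunLike.coe_injective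
    obtain ⟨eF⟩ := ClassicalElem.exists_ringAut_equiv (F := F) p f hF
    exact ((Nat.bijective_iff_injective_and_card _).2 ⟨hρinj, Nat.card_congr eF.symm.toEquiv⟩).2
  refine nonempty_quotient_equiv_dihedral ((gamma k E).comp ρ)
    (Cfsg.pgoAut F (Cfsg.quadFormMinus (k + 3) F a b)) _
    ((inn_le_inndiagMinus E).trans ?_) φ hφ hker hfodd (fun x => ?_) (fun β => ?_) fun σ hσ => ?_
  · rw [inndiagMinus_eq E, Classical.pgoAut_eq]
    exact Subgroup.map_le_range _ _
  · have := pow_card_eq_one' (x := x)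
    rwa [Nat.card_congr Multiplicative.toAdd, Nat.card_zmod] at this
  · obtain ⟨g, τ, -, rfl⟩ := exists_decomp_minus E β
    obtain ⟨x, hx⟩ := hρsurj (E.res τ)
    refine ⟨simAut g * gamma k E (τ * (ρ x)⁻¹), mul_mem ?_ ?_, x, ?_⟩
    · rw [Classical.pgoAut_eq]; exact ⟨g, rfl⟩
    · rw [gamma_mem_pgo_iff, map_mul, map_inv, ← MonoidHom.comp_apply E.res ρ, hx, mul_inv_cancel]
    · show _ = simAut g * gamma k E (τ * (ρ x)⁻¹) * gamma k E (ρ x)
      rw [mul_assoc, ← map_mul (gamma k E), inv_mul_cancel_right]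
  · refine hρinj ?_
    rw [map_one]
    exact (gamma_mem_pgo_iff E _).1 hσ

end Cfsg.Agent.OutPO
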