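import Mathlib
import Cfsg.Agent.OutPO.MinusBase
import Cfsg.Agent.AutPSL.FieldCard
import Cfsg.Agent.Forms.FiniteQuadratic
import Cfsg.Agent.Forms.BaseChange

/-!
Rational models of semisimilarities of odd order of a minus-type form.
-/

set_option autoImplicit false
set_option linter.unusedSectionVars false

namespace Cfsg.Agent.OutPO

open Matrix QuadraticMap
open Cfsg.Agent.AutPO (Semi semiAutM good_minus minusFrame)
open Cfsg.Agent.AutPSL (twistNorm orderOf_dist orderOf_pos_field fixedField)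
open Cfsg.Agent.Classical (simAut minusQF minusQF_apply binQF binQF_apply minusCoord plusQF
  plusQF_apply BNondeg)

universe u v

/-! ### Iterates -/

section Iterate

variable {F : Type u} [Field F] {ι : Type} [Fintype ι] [DecidableEq ι]

/-- The iterates of a semisimilarity. -/
def semiPow {V : Type v} [AddCommGroup V] [Module F V] {R : QuadraticForm F V} (S : Semi R) :
    ℕ → Semi R
  | 0 =>
    { L := AddEquiv.refl V
      σ := RingEquiv.refl F
      μ := 1
      hμ := one_ne_zero
      smul := fun _ _ => rfl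
      form := fun x => (one_mul (R x)).symm }
  | n + 1 => semiComp S (semiPow S n)

theorem semiPow_L {V : Type v} [AddCommGroup V] [Module F V] {R : QuadraticForm F V} (S : Semi R)
    (n : ℕ) (x : V) : (semiPow S n).L x = S.L^[n] x := by
  induction n with
  | zero => rfl
  | succ n ih =>
    rw [Function.iterate_succ_apply', ← ih]
    rfl

theorem semiPow_σ {V : Type v} [AddCommGroup V] [Module F V] {R : QuadraticForm F V} (S : Semi R)
    (n : ℕ) : (semiPow S n).σ = S.σ ^ n := by
  induction n with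
  | zero => rfl
  | succ n ih =>
    rw [pow_succ', ← ih]
    rfl

theorem semiPow_μ {V : Type v} [AddCommGroup V] [Module F V] {R : QuadraticForm F V} (S : Semi R)
    (n : ℕ) : (semiPow S n).μ =
      ((twistNorm (Units.map S.σ.toRingHom.toMonoidHom) (Units.mk0 S.μ S.hμ) n : Fˣ) : F) := by
  induction n with
  | zero => rfl
  | succ n ih =>
    show S.μ * S.σ (semiPow S n).μ = _
    rw [ih]
    rfl

variable {f : (ι → F) → F} (Qf : QuadraticForm F (ι → F)) (hQ : ∀ v, Qf v = f v)

theorem semiAutM_semiPow (S : Semi Qf) (n : ℕ) :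
    semiAutM Qf hQ (semiPow S n) = semiAutM Qf hQ S ^ n := by
  induction n with
  | zero =>
    rw [pow_zero]
    exact semiAutM_scalar Qf hQ _ (c := 1) fun x => (one_smul F x).symm
  | succ n ih =>
    rw [pow_succ', ← ih, ← semiAutM_comp]
    rfl

theorem scalar_twistNorm_iterate (S : Semi Qf) (c : Fˣ) (n : ℕ) (x : ι → F) :
    (fun y => (c : F) • S.L y)^[n] x =
      ((twistNorm (Units.map S.σ.toRingHom.toMonoidHom) c n : Fˣ) : F) • S.L^[n] x := by
  induction n with
  | zero => exact (one_smul F x).symm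
  | succ n ih =>
    rw [Function.iterate_succ_apply', Function.iterate_succ_apply', ih, S.smul, smul_smul]
    rfl

theorem exists_hilbert90 [Finite F] (σ : F ≃+* F) {r : ℕ} (hσ : orderOf σ = r) (μ : Fˣ)
    (hN : twistNorm (Units.map σ.toRingHom.toMonoidHom) μ r = 1) :
    ∃ h : Fˣ, (μ : F) * σ (h : F) = h := by
  set D : Fˣ →* GL (Fin 1) F := GeneralLinearGroup.scalar (Fin 1) with hD
  have hDs : ∀ x, GeneralLinearGroup.map σ.toRingHom (D x) =
      D (Units.map σ.toRingHom.toMonoidHom x) := fun x => by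
    apply Units.ext
    ext i j
    fin_cases i; fin_cases j
    simp [hD]
  have hDN : ∀ n, twistNorm (GeneralLinearGroup.map σ.toRingHom) (D μ) n =
      D (twistNorm (Units.map σ.toRingHom.toMonoidHom) μ n) := by
    intro n
    induction n with
    | zero => simp [twistNorm]
    | succ n ih =>
      show D μ * GeneralLinearGroup.map σ.toRingHom _ = D (μ * Units.map σ.toRingHom.toMonoidHom _)
      rw [ih, hDs, map_mul]
  have hr : 0 < r := hσ ▸ orderOf_pos_field σ
  obtain ⟨h, hh⟩ := exists_descent_gen σ hr (hσ ▸ pow_orderOf_eq_one σ) (orderOf_dist σ hσ) (D μ)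
    (by rw [hDN, hN, map_one])
  refine ⟨GeneralLinearGroup.det h, ?_⟩
  have h2 := congrArg GeneralLinearGroup.det hh
  rw [map_mul, map_inv, eq_mul_inv_iff_mul_eq] at h2
  have h3 := congrArg Units.val h2
  rw [Units.val_mul] at h3
  have e1 : ((GeneralLinearGroup.det (D μ) : Fˣ) : F) = μ := by simp [hD]
  have e2 : ((GeneralLinearGroup.det (GeneralLinearGroup.map σ.toRingHom h) : Fˣ) : F) =
      σ ((GeneralLinearGroup.det h : Fˣ) : F) := by
    simp [← RingHom.map_det]
  rw [e1, e2] at h3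
  exact h3

theorem exists_semi_matrix (S : Semi Qf) :
    ∃ D : GL ι F, ∀ v, S.L v = (D : Matrix ι ι F) *ᵥ fun i => S.σ (v i) :=
  AutPO.exists_gl Qf S

theorem iterate_eq_matrix (S : Semi Qf) {D : GL ι F}
    (hD : ∀ v, S.L v = (D : Matrix ι ι F) *ᵥ fun i => S.σ (v i)) (n : ℕ) (v : ι → F) :
    S.L^[n] v = ((twistNorm (GeneralLinearGroup.map S.σ.toRingHom) D n : GL ι F) :
      Matrix ι ι F) *ᵥ fun i => (S.σ ^ n) (v i) := by
  induction n with
  | zero =>
    show v = ((1 : GL ι F) : Matrix ι ι F) *ᵥ fun i => (S.σ ^ 0) (v i)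
    rw [Units.val_one, one_mulVec, pow_zero]
    rfl
  | succ n ih =>
    rw [Function.iterate_succ_apply', ih, hD, ← map_mulVec_comp, Matrix.mulVec_mulVec,
      ← Units.val_mul]
    congr 1
    funext i
    exact (AutPSL.ringAut_pow_succ_apply S.σ n (v i)).symm

end Iterate

/-! ### Anisotropy -/

theorem aniso_ext {F : Type u} [Field F] {F₀ : Type v} [Field F₀] (e : F₀ →+* F) {σ : F ≃+* F}
    (he : ∀ a : F, σ a = a ↔ ∃ b, e b = a) (hodd : Odd (orderOf σ)) {a₀ b₀ : F₀}
    (h : Forms.BinaryAniso a₀ b₀) : (binQF (e a₀) (e b₀)).Anisotropic := by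
  intro z hz
  rw [binQF_apply] at hz
  by_cases h1 : z 1 = 0
  · rw [h1] at hz
    have : z 0 = 0 := by
      have : z 0 ^ 2 = 0 := by linear_combination hz
      exact pow_eq_zero_iff two_ne_zero |>.1 this
    funext i
    fin_cases i <;> assumption
  exfalso
  set x := z 0 / z 1
  have hx : x ^ 2 + e a₀ * x + e b₀ = 0 := by
    simp only [x]
    field_simp
    linear_combination hz
  have hσ2 : σ (σ x) = x := by
    have hr : ∀ y, y ^ 2 + e a₀ * y + e b₀ = 0 → y = x ∨ y = -e a₀ - x := fun y hy => by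
      rcases mul_eq_zero.1 (show (y - x) * (y - (-e a₀ - x)) = 0 by linear_combination hy - hx)
        with h | h
      · exact Or.inl (sub_eq_zero.1 h)
      · exact Or.inr (sub_eq_zero.1 h)
    have hmap : ∀ y, y ^ 2 + e a₀ * y + e b₀ = 0 → σ y ^ 2 + e a₀ * σ y + e b₀ = 0 := fun y hy => by
      have := congrArg σ hy
      rw [map_add, map_add, map_mul, map_pow, map_zero, (he _).2 ⟨a₀, rfl⟩, (he _).2 ⟨b₀, rfl⟩]
        at this
      exact this
    rcases hr _ (hmap x hx) with h | h
    · rw [h, h]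
    · rw [h, map_sub, map_neg, (he _).2 ⟨a₀, rfl⟩, h]; ring
  have hσx : σ x = x := by
    obtain ⟨j, hj⟩ := hodd
    have h3 : ∀ n, (σ ^ (2 * n)) x = x := fun n => by
      induction n with
      | zero => rfl
      | succ n ih =>
        rw [mul_add, mul_one, AutPSL.ringAut_pow_succ_apply, AutPSL.ringAut_pow_succ_apply, ih, hσ2]
    have h4 := pow_orderOf_eq_one σ
    rw [hj] at h4
    have h5 := DFunLike.congr_fun h4 x
    rw [AutPSL.ringAut_pow_succ_apply, h3] at h5
    exact h5
  obtain ⟨x₀, hx₀⟩ := (he x).1 hσx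
  have h6 : x₀ ^ 2 + a₀ * x₀ * 1 + b₀ * 1 ^ 2 = 0 := e.injective (by
    simp only [map_add, map_mul, map_pow, map_one, map_zero, hx₀]
    linear_combination hx)
  exact one_ne_zero (h x₀ 1 h6).2

variable {F : Type u} [Field F] [Finite F] {k : ℕ} {a b : F}

/-- The image of the standard form in new coordinates. -/
theorem minus_incV' {F₀ : Type v} [Field F₀] (e : F₀ →+* F) (a₀ b₀ : F₀) (w : MIx k → F₀) :
    Cfsg.quadFormMinus (k + 3) F (e a₀) (e b₀) (incV e w) =
      e (Cfsg.quadFormMinus (k + 3) F₀ a₀ b₀ w) := by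
  simp [Cfsg.quadFormMinus, incV, map_sum]

/-- A semisimilarity with trivial `r`-th power is a Galois map in suitable coordinates. -/
theorem exists_model (hA : (binQF a b).Anisotropic) (S : Semi (minusQF (k + 3) a b)) {r : ℕ}
    (hσ : orderOf S.σ = r) (hS : ∀ v, S.L^[r] v = v) {F₀ : Type v} [Field F₀] [Finite F₀]
    (e : F₀ →+* F) (he : ∀ x : F, S.σ x = x ↔ ∃ y, e y = x) :
    ∃ (a₀ b₀ : F₀) (M : GL (MIx k) F) (c : F), Forms.BinaryAniso a₀ b₀ ∧ c ≠ 0 ∧
      (∀ v, S.L ((M : Matrix (MIx k) (MIx k) F) *ᵥ v) =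
        (M : Matrix (MIx k) (MIx k) F) *ᵥ fun i => S.σ (v i)) ∧
      ∀ v, Cfsg.quadFormMinus (k + 3) F a b ((M : Matrix (MIx k) (MIx k) F) *ᵥ v) =
        c * Cfsg.quadFormMinus (k + 3) F (e a₀) (e b₀) v := by
  have hr : 0 < r := hσ ▸ orderOf_pos_field _
  have hσr : S.σ ^ r = 1 := hσ ▸ pow_orderOf_eq_one _
  obtain ⟨D, hD⟩ := exists_semi_matrix _ S
  have hN : twistNorm (GeneralLinearGroup.map S.σ.toRingHom) D r = 1 := gl_ext fun v => by
    have h := iterate_eq_matrix _ S hD r v
    rw [hS, hσr] at h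
    rw [Units.val_one, one_mulVec]
    exact h.symm
  obtain ⟨h, hh⟩ := exists_descent_gen S.σ hr hσr (orderOf_dist S.σ hσ) D hN
  -- the multiplier has norm one
  have hμN : twistNorm (Units.map S.σ.toRingHom.toMonoidHom) (Units.mk0 S.μ S.hμ) r = 1 := by
    have h1 := (semiPow S r).form (Classical.binVec ![1, 0])
    rw [semiPow_L, hS, semiPow_σ, hσr, semiPow_μ, minusQF_apply, Classical.minus_binVec] at h1
    simp at h1
    exact Units.ext h1.symm
  obtain ⟨ν, hν⟩ := exists_hilbert90 S.σ hσ _ hμN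
  rw [Units.val_mk0] at hν
  let R : QuadraticForm F (MIx k → F) :=
    ((ν : F)⁻¹) • (minusQF (k + 3) a b).comp (Matrix.toLin' (h : Matrix (MIx k) (MIx k) F))
  have hR : ∀ v, R v = (ν : F)⁻¹ *
      Cfsg.quadFormMinus (k + 3) F a b ((h : Matrix (MIx k) (MIx k) F) *ᵥ v) := fun v => by
    rw [QuadraticMap.smul_apply, QuadraticMap.comp_apply, Matrix.toLin'_apply, minusQF_apply,
      smul_eq_mul]
  have hL : ∀ v, S.L ((h : Matrix (MIx k) (MIx k) F) *ᵥ v) =
      (h : Matrix (MIx k) (MIx k) F) *ᵥ fun i => S.σ (v i) := fun v => by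
    rw [hD, ← map_mulVec_comp, Matrix.mulVec_mulVec, ← Units.val_mul, hh, inv_mul_cancel_right]
  have hRσ : ∀ v, R (fun i => S.σ (v i)) = S.σ (R v) := fun v => by
    rw [hR, hR, ← hL, ← minusQF_apply, S.form, map_mul, map_inv₀, minusQF_apply]
    have h1 := ν.ne_zero
    have h2 : S.σ (ν : F) ≠ 0 := (map_ne_zero _).2 h1
    field_simp
    linear_combination
      S.σ (Cfsg.quadFormMinus (k + 3) F a b ((h : Matrix (MIx k) (MIx k) F) *ᵥ v)) * hν
  obtain ⟨Q₀, hQ₀, hnd₀⟩ := exists_rational_form e he R hRσ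
  have hnd : BNondeg R := by
    have h1 := (minusCoord k hA).bNondeg_Qf
    intro x hx
    have h2 : (h : Matrix (MIx k) (MIx k) F) *ᵥ x = 0 := h1 _ fun y => by
      have h3 := hx (((h⁻¹ : GL (MIx k) F) : Matrix (MIx k) (MIx k) F) *ᵥ y)
      simp only [polar, hR, Matrix.mulVec_add, ← Matrix.mulVec_mulVec y, ← Units.val_mul,
        mul_inv_cancel, Units.val_one, one_mulVec, Matrix.mulVec_mulVec, ← mul_sub,
        mul_eq_zero, inv_eq_zero, Units.ne_zero, false_or] at h3
      show polar (⇑(minusQF (k + 3) a b)) _ _ = 0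
      simp only [polar, minusQF_apply]
      exact h3
    calc x = ((h⁻¹ : GL (MIx k) F) : Matrix (MIx k) (MIx k) F) *ᵥ
          ((h : Matrix (MIx k) (MIx k) F) *ᵥ x) := by
          rw [Matrix.mulVec_mulVec, ← Units.val_mul, inv_mul_cancel, Units.val_one, one_mulVec]
      _ = 0 := by rw [h2, Matrix.mulVec_zero]
  have hns : Forms.NonsingOn Q₀ ⊤ := fun x _ hx _ => hnd₀ hnd x fun y => hx y trivial
  obtain ⟨m', hcases⟩ := Forms.exists_finite_witt_decomposition Q₀ hns
  rw [Module.finrank_pi, show Fintype.card (MIx k) = 2 * (k + 4) from Classical.card_minus k]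
    at hcases
  have hfh : ∀ v, Cfsg.quadFormMinus (k + 3) F a b ((h : Matrix (MIx k) (MIx k) F) *ᵥ v) =
      (ν : F) * R v := fun v => by rw [hR, mul_inv_cancel_left₀ ν.ne_zero]
  rcases hcases with ⟨hd, E, hE⟩ | ⟨hd, -⟩ | ⟨hd, a₀, b₀, hA₀, E, hE⟩
  · -- a split rational form would give too large a totally singular subspace
    exfalso
    obtain rfl : m' = k + 4 := by omega
    let π : MIx k ≃ Fin (k + 4) ⊕ Fin (k + 4) := Fintype.equivOfCardEq (by simp; ring)
    let p : (Fin (k + 4) ⊕ Fin (k + 4) → F₀) ≃ₗ[F₀] (MIx k → F₀) :=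
      LinearEquiv.funCongrLeft F₀ F₀ π
    let pF : (Fin (k + 4) ⊕ Fin (k + 4) → F) ≃ₗ[F] (MIx k → F) :=
      LinearEquiv.funCongrLeft F F π
    let N : GL (MIx k) F₀ := glOf (p.symm.trans E.symm)
    let M : GL (MIx k) F := h * GeneralLinearGroup.map e N
    let P : QuadraticForm F (MIx k → F) := (plusQF (k + 4) F).comp pF.symm.toLinearMap
    have hMP : ∀ v, Cfsg.quadFormMinus (k + 3) F a b ((M : Matrix (MIx k) (MIx k) F) *ᵥ v) =
        (ν : F) * Cfsg.quadFormPlus (k + 4) F (pF.symm v) := by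
      have hc : (minusQF (k + 3) a b).comp (Matrix.toLin' (M : Matrix (MIx k) (MIx k) F)) =
          (ν : F) • P := qf_ext_rational e fun w => by
        rw [QuadraticMap.comp_apply, QuadraticMap.smul_apply, Matrix.toLin'_apply, minusQF_apply,
          smul_eq_mul, QuadraticMap.comp_apply, plusQF_apply, LinearEquiv.coe_coe]
        show Cfsg.quadFormMinus (k + 3) F a b ((h * GeneralLinearGroup.map e N : GL (MIx k) F).val
          *ᵥ incV e w) = _
        rw [Units.val_mul, ← Matrix.mulVec_mulVec, map_mulVec_inc, hfh, ← hQ₀, glOf_mulVec, hE]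
        congr 1
        rw [LinearEquiv.trans_apply, E.apply_symm_apply]
        simp [Cfsg.quadFormPlus, map_sum, p, pF, incV, LinearEquiv.funCongrLeft]
      intro v
      have := DFunLike.congr_fun hc v
      rw [QuadraticMap.comp_apply, QuadraticMap.smul_apply, Matrix.toLin'_apply, minusQF_apply,
        smul_eq_mul, QuadraticMap.comp_apply, plusQF_apply] at this
      exact this
    let ℓ : (Fin (k + 4) → F) →ₗ[F] (MIx k → F) := (linOf M).toLinearMap.comp (pF.toLinearMap.comp
      ((LinearEquiv.sumArrowLequivProdArrow (Fin (k + 4)) (Fin (k + 4)) F F).symm.toLinearMap.comp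
        (LinearMap.inl F (Fin (k + 4) → F) (Fin (k + 4) → F))))
    have hinj : Function.Injective ℓ := by
      simp only [ℓ, LinearMap.coe_comp, LinearEquiv.coe_coe]
      exact (linOf M).injective.comp (pF.injective.comp
        ((LinearEquiv.injective _).comp LinearMap.inl_injective))
    have h1 := (minusFrame (k + 3) hA).finrank_ts_le (U := LinearMap.range ℓ) (by
      rintro _ ⟨u, rfl⟩
      show minusQF (k + 3) a b (linOf M (pF _)) = 0
      rw [minusQF_apply, linOf_apply, hMP, LinearEquiv.symm_apply_apply]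
      simp [Cfsg.quadFormPlus])
    rw [LinearMap.finrank_range_of_inj hinj, Module.finrank_fintype_fun_eq_card,
      Fintype.card_fin] at h1
    omega
  · omega
  obtain rfl : m' = k + 3 := by omega
  let N : GL (MIx k) F₀ := glOf E.symm
  refine ⟨a₀, b₀, h * GeneralLinearGroup.map e N, ν, hA₀, ν.ne_zero, fun v => ?_, ?_⟩
  · rw [Units.val_mul, ← Matrix.mulVec_mulVec, ← Matrix.mulVec_mulVec, hL, ← map_mulVec_comp,
      map_map_of_fixed e he]
  · intro v
    have hc : (minusQF (k + 3) a b).comp (Matrix.toLin'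
        ((h * GeneralLinearGroup.map e N : GL (MIx k) F) : Matrix (MIx k) (MIx k) F)) =
        (ν : F) • minusQF (k + 3) (e a₀) (e b₀) := qf_ext_rational e fun w => by
      rw [QuadraticMap.comp_apply, QuadraticMap.smul_apply, Matrix.toLin'_apply, minusQF_apply,
        minusQF_apply, smul_eq_mul, Units.val_mul, ← Matrix.mulVec_mulVec, map_mulVec_inc, hfh,
        ← hQ₀, glOf_mulVec, hE, E.apply_symm_apply, minus_incV']
    have := DFunLike.congr_fun hc v
    rw [QuadraticMap.comp_apply, QuadraticMap.smul_apply, Matrix.toLin'_apply, minusQF_apply,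
      minusQF_apply, smul_eq_mul] at this
    exact this

/-- A semisimilarity whose action has order dividing `r` may be normalised. -/
theorem exists_normalised (hA : (binQF a b).Anisotropic) (S : Semi (minusQF (k + 3) a b)) {r : ℕ}
    (hσ : orderOf S.σ = r)
    (h : semiAutM (minusQF (k + 3) a b) (minusQF_apply (k + 3) a b) S ^ r = 1) :
    ∃ T : Semi (minusQF (k + 3) a b), T.σ = S.σ ∧ (∀ v, T.L^[r] v = v) ∧
      semiAutM (minusQF (k + 3) a b) (minusQF_apply (k + 3) a b) T =
        semiAutM (minusQF (k + 3) a b) (minusQF_apply (k + 3) a b) S := by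
  have hQ := minusQF_apply (F := F) (k + 3) a b
  rw [← semiAutM_semiPow] at h
  obtain ⟨-, lam, hlam0, hlam⟩ := semiAutM_eq_one (minusQF (k + 3) a b) hQ (good_minus hA (by omega)) _ h
  simp only [semiPow_L] at hlam
  set v₀ : MIx k → F := Classical.binVec ![1, 0] with hv₀
  have hfix : S.σ lam = lam := by
    have h1 : S.L (S.L^[r] v₀) = S.L^[r] (S.L v₀) := by
      rw [← Function.iterate_succ_apply, Function.iterate_succ_apply']
    rw [hlam, hlam, S.smul] at h1
    have hne : S.L v₀ ≠ 0 := by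
      rw [ne_eq, map_eq_zero_iff _ S.L.injective]
      intro h0
      have := congrFun h0 (.inr 0)
      simp [hv₀, Classical.binVec] at this
    exact smul_left_injective F hne h1
  obtain ⟨c, hc⟩ := AutPSL.exists_norm_eq S.σ (r := r) (hσ ▸ orderOf_pos_field _)
    (hσ ▸ pow_orderOf_eq_one _) (orderOf_dist S.σ hσ) (c := (Units.mk0 lam hlam0)⁻¹)
    (by rw [Units.val_inv_eq_inv_val, Units.val_mk0, map_inv₀, hfix])
  let Z : Semi (minusQF (k + 3) a b) :=
    { L := (LinearEquiv.smulOfUnit c : (MIx k → F) ≃ₗ[F] (MIx k → F)).toAddEquiv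
      σ := RingEquiv.refl F
      μ := (c : F) * c
      hμ := mul_ne_zero c.ne_zero c.ne_zero
      smul := fun t x => map_smul (LinearEquiv.smulOfUnit c) t x
      form := fun x => by
        show minusQF (k + 3) a b ((c : F) • x) = _
        rw [QuadraticMap.map_smul, smul_eq_mul]
        rfl }
  have hZ : ∀ x, (semiComp Z S).L x = (c : F) • S.L x := fun x => rfl
  refine ⟨semiComp Z S, RingEquiv.ext fun x => rfl, fun v => ?_, ?_⟩
  · rw [show ((semiComp Z S).L : (MIx k → F) → MIx k → F) = fun y => (c : F) • S.L y from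
      funext hZ, scalar_twistNorm_iterate (minusQF (k + 3) a b) S c r, hc, hlam, smul_smul, Units.val_inv_eq_inv_val,
      Units.val_mk0, inv_mul_cancel₀ hlam0, one_smul]
  · rw [semiAutM_comp, semiAutM_scalar (minusQF (k + 3) a b) _ Z (c := (c : F)) fun x => rfl, one_mul]

end Cfsg.Agent.OutPO
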