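import Mathlib
import Cfsg.Agent.OutPO.MinusModel

/-!
The similarity group of a rational minus-type form inside that of a form over a larger field.
-/

set_option autoImplicit false
set_option linter.unusedSectionVars false
set_option maxHeartbeats 1000000
set_option synthInstance.maxHeartbeats 400000

namespace Cfsg.Agent.OutPO

open Matrix QuadraticMap
open Cfsg.Agent.AutPO (Semi)
open Cfsg.Agent.Classical (simAut minusQF minusQF_apply binQF minusCoord minusScaleMat)
open Cfsg.Agent.Forms25 (TotSing)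

universe u v

theorem linPar_base {K : Type u} [Field K] {V : Type v} [AddCommGroup V] [Module K V]
    [FiniteDimensional K V] {Q : QuadraticForm K V} {n : ℕ} (h : Hyp Q n) {U W : Submodule K V}
    (hU : TotSing Q U) (hUn : Module.finrank K U = n) (hW : TotSing Q W)
    (hWn : Module.finrank K W = n) {L : V ≃ₗ[K] V} {μ : K} (hL : ∀ v, Q (L v) = μ * Q v) :
    linPar n U L = linPar n W L := by
  have hLU := totSing_map hL hU
  have hLW := totSing_map hL hW
  rw [linPar, linPar, ← relPar_add h hU hUn hW hWn hLU (by rw [LinearEquiv.finrank_map_eq, hUn]),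
    ← relPar_add h hW hWn hLW (by rw [LinearEquiv.finrank_map_eq, hWn]) hLU
      (by rw [LinearEquiv.finrank_map_eq, hUn]),
    relPar_map, relPar_comm n W U]
  generalize relPar n U W = x
  generalize relPar n W (W.map L.toLinearMap) = y
  revert x y
  decide

/-- Matrices agreeing on rational vectors are equal. -/
theorem gl_ext_rational {F : Type u} [Field F] {F₀ : Type v} [Field F₀] (e : F₀ →+* F) {ι : Type}
    [Fintype ι] [DecidableEq ι] {g h : GL ι F}
    (hgh : ∀ w : ι → F₀, (g : Matrix ι ι F) *ᵥ incV e w = (h : Matrix ι ι F) *ᵥ incV e w) :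
    g = h := by
  refine Units.ext (Matrix.ext fun i j => ?_)
  have := congrFun (hgh (Pi.single j 1)) i
  rw [incV_single] at this
  simpa using this

theorem minusScaleMat_map {F : Type u} [Field F] {F₀ : Type v} [Field F₀] (e : F₀ →+* F) (m : ℕ)
    (a₀ b₀ c : F₀) (y : Fin 2 → F₀) :
    (minusScaleMat m a₀ b₀ c y).map e = minusScaleMat m (e a₀) (e b₀) (e c) fun i => e (y i) := by
  rw [minusScaleMat, minusScaleMat, Matrix.fromBlocks_map]
  congr 1
  · rw [Matrix.diagonal_map (map_zero _)]
    congr 1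
    funext i
    rcases i with i | i <;> simp
  · exact Matrix.map_zero _ (map_zero _)
  · exact Matrix.map_zero _ (map_zero _)
  · ext i j
    fin_cases i <;> fin_cases j <;> simp

variable {F : Type u} [Field F] [Finite F] {k : ℕ} {a b : F} {F₀ : Type v} [Field F₀] [Finite F₀]

theorem incGL_mem (e : F₀ →+* F) {a₀ b₀ : F₀} (g : ↥(GOm k a₀ b₀)) :
    GeneralLinearGroup.map e g.1 ∈ GOm k (e a₀) (e b₀) := by
  obtain ⟨c, hc⟩ := g.2
  exact ⟨Units.map e.toMonoidHom c, sim_of_rational e (minusQF (k + 3) (e a₀) (e b₀))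
    (minusQF_apply _ _ _) (minus_incV' e a₀ b₀) fun w => by
      rw [map_mulVec_inc, minus_incV', hc, map_mul]
      rfl⟩

/-- Extension of scalars of similarities. -/
noncomputable def incGOm (k : ℕ) (e : F₀ →+* F) (a₀ b₀ : F₀) :
    ↥(GOm k a₀ b₀) →* ↥(GOm k (e a₀) (e b₀)) :=
  ((GeneralLinearGroup.map e).comp (GOm k a₀ b₀).subtype).codRestrict _ (incGL_mem e)

theorem incGOm_coe (e : F₀ →+* F) {a₀ b₀ : F₀} (g : ↥(GOm k a₀ b₀)) :
    (incGOm k e a₀ b₀ g).1 = GeneralLinearGroup.map e g.1 := rfl

theorem chi_incGOm (e : F₀ →+* F) {a₀ b₀ : F₀} {K : Type u} [Field K] [Algebra F K] {ω : K}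
    (E : QExt (e a₀) (e b₀) ω) {K₀ : Type v} [Field K₀] [Algebra F₀ K₀] {ω₀ : K₀}
    (E₀ : QExt a₀ b₀ ω₀) (g : ↥(GOm k a₀ b₀)) :
    chi E (incGOm k e a₀ b₀ g) = chi E₀ g := by
  refine DFunLike.congr_fun (hom_ext_GOm E₀.aniso ((chi E).comp (incGOm k e a₀ b₀)) (chi E₀)
    (fun x hx => ?_) fun c y hy => ?_) g
  · have hx' : Cfsg.quadFormMinus (k + 3) F (e a₀) (e b₀) (incV e x) ≠ 0 := by
      rw [minus_incV']; exact (map_ne_zero e).2 hx
    have h : incGOm k e a₀ b₀ (isoInc ((minusCoord k E₀.aniso).refl x hx)) =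
        isoInc ((minusCoord k E.aniso).refl (incV e x) hx') := by
      refine Subtype.ext (gl_ext_rational e fun w => ?_)
      rw [incGOm_coe, map_mulVec_inc]
      show incV e ((((minusCoord k E₀.aniso).refl x hx).1 : Matrix (MIx k) (MIx k) F₀) *ᵥ w) =
        (((minusCoord k E.aniso).refl (incV e x) hx').1 : Matrix (MIx k) (MIx k) F) *ᵥ incV e w
      rw [(minusCoord k E₀.aniso).refl_mulVec, (minusCoord k E.aniso).refl_mulVec]
      have hp : polar (Cfsg.quadFormMinus (k + 3) F (e a₀) (e b₀)) (incV e x) (incV e w) =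
          e (polar (Cfsg.quadFormMinus (k + 3) F₀ a₀ b₀) x w) := by
        simp only [polar, ← incV_add, minus_incV', map_sub]
      rw [hp, minus_incV']
      funext j
      simp [incV]
    rw [MonoidHom.comp_apply, h, chi_refl, chi_refl]
  · have hy' : binQF (e a₀) (e b₀) (fun i => e (y i)) =
        ((Units.map e.toMonoidHom c : Fˣ) : F) := by
      show _ = e (c : F₀)
      rw [← hy]
      simp [map_add, map_mul, map_pow]
    have h : incGOm k e a₀ b₀ (Classical.minusScale (k + 3) a₀ b₀ c y hy) =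
        Classical.minusScale (k + 3) (e a₀) (e b₀) (Units.map e.toMonoidHom c) _ hy' :=
      Subtype.ext (Units.ext (minusScaleMat_map e _ _ _ _ _))
    rw [MonoidHom.comp_apply, h, chi_scale, chi_scale]

/-- A change of coordinates does not change the class character. -/
theorem chi_transport {a' b' : F} {K : Type u} [Field K] [Algebra F K] {ω ω' : K}
    (E : QExt a b ω) (E' : QExt a' b' ω') (M : GL (MIx k) F) {c : F} (hc : c ≠ 0)
    (hM : ∀ v, Cfsg.quadFormMinus (k + 3) F a b ((M : Matrix (MIx k) (MIx k) F) *ᵥ v) =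
      c * Cfsg.quadFormMinus (k + 3) F a' b' v)
    (g : ↥(GOm k a b)) (g' : ↥(GOm k a' b')) (h : g.1 * M = M * g'.1) : chi E g = chi E' g' := by
  set ι' := algebraMap F K
  set Mk : (MIx k → K) ≃ₗ[K] (MIx k → K) := linOf (GeneralLinearGroup.map ι' M) with hMk
  have hMq : ∀ v, formK K k a b (Mk v) = ι' c * formK K k a' b' v := by
    intro v
    have hcomp : (formK K k a b).comp Mk.toLinearMap = ι' c • formK K k a' b' :=
      qf_ext_rational ι' fun w => by
        rw [QuadraticMap.comp_apply, QuadraticMap.smul_apply, smul_eq_mul, formK_incV]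
        show formK K k a b ((GeneralLinearGroup.map ι' M : GL (MIx k) K).val *ᵥ incV ι' w) = _
        rw [map_mulVec_inc, formK_incV, hM, map_mul]
    have := DFunLike.congr_fun hcomp v
    rw [QuadraticMap.comp_apply, QuadraticMap.smul_apply, smul_eq_mul] at this
    exact this
  have hU1 : TotSing (formK K k a b) ((baseU (k := k) E').map Mk.toLinearMap) := by
    rintro _ ⟨v, hv, rfl⟩
    show formK K k a b (Mk v) = 0
    rw [hMq, totSing_baseU E' v hv, mul_zero]
  obtain ⟨μ, -, hμ⟩ := mapK_form (K := K) g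
  have key : linPar (k + 4) (baseU E) (mapK K g) = linPar (k + 4) (baseU E') (mapK K g') := by
    rw [linPar_base (hyp_formK E) (totSing_baseU E) (finrank_baseU E) hU1
      (by rw [LinearEquiv.finrank_map_eq, finrank_baseU]) hμ]
    rw [linPar, linPar, ← relPar_map (L := Mk) (baseU E') ((baseU E').map (mapK K g').toLinearMap),
      ← Submodule.map_comp, ← Submodule.map_comp]
    congr 1
    congr 1
    refine LinearMap.ext fun v => ?_
    show mapK K g (Mk v) = Mk (mapK K g' v)
    rw [hMk, mapK, mapK, linOf_apply, linOf_apply, linOf_apply, linOf_apply, Matrix.mulVec_mulVec,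
      Matrix.mulVec_mulVec, ← Units.val_mul, ← Units.val_mul, ← map_mul, ← map_mul, h]
  show Multiplicative.ofAdd _ = Multiplicative.ofAdd _
  rw [key]

end Cfsg.Agent.OutPO
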