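import Mathlib
import Cfsg.Agent.OutPO.MinusTransport
import Cfsg.Agent.OutPO.MinusOut
import Cfsg.Agent.AutPSL.ClassSplit

/-!
Field automorphisms of `PΩ⁻`: cosets, centralizers and class splitting.
-/

set_option autoImplicit false
set_option linter.unusedSectionVars false
set_option maxHeartbeats 1000000
set_option synthInstance.maxHeartbeats 400000

namespace Cfsg.Agent.OutPO

open Matrix QuadraticMap
open Cfsg.Agent.AutPO (Semi semiAutM)
open Cfsg.Agent.AutPSL (twistNorm fixedField orderOf_pos_field orderOf_dist)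
open Cfsg.Agent.Classical (simAut minusQF minusQF_apply binQF binQF_apply minusCoord)

universe u v

section Abstract

variable {A : Type*} [Group A] (D N C : Subgroup A)

theorem le_sup_of_pow {X : Type*} [Group X] (φ : D →* X) (hker : φ.ker = N.subgroupOf D) {Y : A}
    (hYD : Y ∈ D) (hYC : Y ∈ C) {β : A} (hβ : β ∈ D) (j : ℕ)
    (hj : φ ⟨β, hβ⟩ = φ ⟨Y, hYD⟩ ^ j) : β ∈ N ⊔ C := by
  have h1 : (⟨β, hβ⟩ : ↥D) * (⟨Y, hYD⟩ ^ j)⁻¹ ∈ φ.ker := by
    rw [MonoidHom.mem_ker, map_mul, map_inv, map_pow, hj, mul_inv_cancel]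
  rw [hker, Subgroup.mem_subgroupOf] at h1
  simp only [Subgroup.coe_mul, Subgroup.coe_inv, Subgroup.coe_pow] at h1
  rw [← inv_mul_cancel_right β (Y ^ j)]
  exact mul_mem (Subgroup.mem_sup_left h1) (Subgroup.mem_sup_right (pow_mem hYC j))

theorem le_sup_of_two (φ : D →* Multiplicative (ZMod 2)) (hker : φ.ker = N.subgroupOf D) {Y : A}
    (hYD : Y ∈ D) (hYC : Y ∈ C) (hY : Y ∉ N) : D ≤ N ⊔ C := by
  intro β hβ
  have hy : φ ⟨Y, hYD⟩ ≠ 1 := fun h => hY (by
    rw [← MonoidHom.mem_ker, hker, Subgroup.mem_subgroupOf] at h; exact h)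
  have : ∀ y b : Multiplicative (ZMod 2), y ≠ 1 → ∃ j : Fin 2, b = y ^ j.val := by decide
  obtain ⟨j, hj⟩ := this _ (φ ⟨β, hβ⟩) hy
  exact le_sup_of_pow D N C φ hker hYD hYC hβ j hj

theorem le_sup_of_cyclic_four (φ : D →* Multiplicative (ZMod 4)) (hker : φ.ker = N.subgroupOf D)
    (P : Subgroup A) (hNP : N ≤ P) {Y : A} (hYD : Y ∈ D) (hYC : Y ∈ C) (hY : Y ∉ P) {p : A}
    (hpD : p ∈ D) (hp : p ∈ P) (hpN : p ∉ N) : D ≤ N ⊔ C := by
  intro β hβ
  have hmem : ∀ d : ↥D, φ d = 1 → d.1 ∈ N := fun d h => by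
    rw [← MonoidHom.mem_ker, hker, Subgroup.mem_subgroupOf] at h; exact h
  have h1 : φ ⟨p, hpD⟩ ≠ 1 := fun h => hpN (hmem _ h)
  have h2 : φ ⟨Y, hYD⟩ ≠ 1 := fun h => hY (hNP (hmem _ h))
  have h3 : φ ⟨Y, hYD⟩ * (φ ⟨p, hpD⟩)⁻¹ ≠ 1 := fun h => hY (by
    rw [← map_inv, ← map_mul] at h
    exact (Subgroup.mul_mem_cancel_right _ (inv_mem hp)).1 (hNP (hmem _ h)))
  have h4 : φ ⟨Y, hYD⟩ * φ ⟨p, hpD⟩ ^ 2 ≠ 1 := fun h => hY (by
    rw [← map_pow, ← map_mul] at h
    exact (Subgroup.mul_mem_cancel_right _ (pow_mem hp 2)).1 (hNP (hmem _ h)))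
  have : ∀ y q b : Multiplicative (ZMod 4), q ≠ 1 → y ≠ 1 → y * q⁻¹ ≠ 1 → y * q ^ 2 ≠ 1 →
      ∃ j : Fin 4, b = y ^ j.val := by decide
  obtain ⟨j, hj⟩ := this _ _ (φ ⟨β, hβ⟩) h1 h2 h3 h4
  exact le_sup_of_pow D N C φ hker hYD hYC hβ j hj

end Abstract

variable {F : Type u} [Field F] [Finite F] {k : ℕ} {a b : F} {F₀ : Type v} [Field F₀] [Finite F₀]

/-- Rational coordinates for a semisimilarity. -/
structure Model (S : Semi (minusQF (k + 3) a b)) (e : F₀ →+* F) where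
  a₀ : F₀
  b₀ : F₀
  M : GL (MIx k) F
  c : F
  hA₀ : Forms.BinaryAniso a₀ b₀
  hc : c ≠ 0
  hL : ∀ v, S.L ((M : Matrix (MIx k) (MIx k) F) *ᵥ v) =
    (M : Matrix (MIx k) (MIx k) F) *ᵥ fun i => S.σ (v i)
  hM : ∀ v, Cfsg.quadFormMinus (k + 3) F a b ((M : Matrix (MIx k) (MIx k) F) *ᵥ v) =
    c * Cfsg.quadFormMinus (k + 3) F (e a₀) (e b₀) v

theorem nonempty_model (hA : (binQF a b).Anisotropic) (S : Semi (minusQF (k + 3) a b)) {r : ℕ}
    (hσ : orderOf S.σ = r) (hS : ∀ v, S.L^[r] v = v) (e : F₀ →+* F)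
    (he : ∀ x : F, S.σ x = x ↔ ∃ y, e y = x) : Nonempty (Model S e) := by
  obtain ⟨a₀, b₀, M, c, h1, h2, h3, h4⟩ := exists_model hA S hσ hS e he
  exact ⟨⟨a₀, b₀, M, c, h1, h2, h3, h4⟩⟩

theorem mulVec_surjective (M : GL (MIx k) F) (v : MIx k → F) :
    ∃ w, (M : Matrix (MIx k) (MIx k) F) *ᵥ w = v :=
  ⟨((M⁻¹ : GL (MIx k) F) : Matrix (MIx k) (MIx k) F) *ᵥ v, by
    rw [Matrix.mulVec_mulVec, ← Units.val_mul, mul_inv_cancel, Units.val_one, one_mulVec]⟩

theorem conj_mem_GOm {a' b' : F} (M : GL (MIx k) F) {c : F}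
    (hM : ∀ v, Cfsg.quadFormMinus (k + 3) F a b ((M : Matrix (MIx k) (MIx k) F) *ᵥ v) =
      c * Cfsg.quadFormMinus (k + 3) F a' b' v) {g : GL (MIx k) F} (hg : g ∈ GOm k a' b') :
    M * g * M⁻¹ ∈ GOm k a b := by
  obtain ⟨μ, hμ⟩ := hg
  refine ⟨μ, fun v => ?_⟩
  obtain ⟨w, rfl⟩ := mulVec_surjective M v
  rw [Matrix.mulVec_mulVec, ← Units.val_mul, inv_mul_cancel_right, Units.val_mul,
    ← Matrix.mulVec_mulVec, hM, hM, hμ]
  ring

variable {S : Semi (minusQF (k + 3) a b)} {e : F₀ →+* F}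

/-- The rational similarities inside the similarity group. -/
noncomputable def Model.emb (X : Model S e) : ↥(GOm k X.a₀ X.b₀) →* ↥(GOm k a b) where
  toFun g := ⟨X.M * (incGOm k e X.a₀ X.b₀ g).1 * X.M⁻¹,
    conj_mem_GOm X.M X.hM (incGOm k e X.a₀ X.b₀ g).2⟩
  map_one' := Subtype.ext (by simp)
  map_mul' g h := Subtype.ext (by simp [mul_assoc])

theorem Model.emb_coe (X : Model S e) (g : ↥(GOm k X.a₀ X.b₀)) :
    (X.emb g).1 = X.M * GeneralLinearGroup.map e g.1 * X.M⁻¹ := rfl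

variable {K : Type u} [Field K] [Algebra F K] {ω : K}

theorem Model.chi_emb (X : Model S e) (E : QExt a b ω) (hA : (binQF (e X.a₀) (e X.b₀)).Anisotropic)
    {K₀ : Type v} [Field K₀] [Algebra F₀ K₀] {ω₀ : K₀} (E₀ : QExt X.a₀ X.b₀ ω₀)
    (g : ↥(GOm k X.a₀ X.b₀)) : chi E (X.emb g) = chi E₀ g := by
  obtain ⟨ω', E'⟩ := exists_qext_root (K := K) hA E.dim
  rw [chi_transport E E' X.M X.hc X.hM (X.emb g) (incGOm k e X.a₀ X.b₀ g)
    (by rw [X.emb_coe, inv_mul_cancel_right, incGOm_coe]), chi_incGOm e E' E₀]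

theorem Model.emb_fixed (X : Model S e) (he : ∀ x : F, S.σ x = x ↔ ∃ y, e y = x)
    (g : ↥(GOm k X.a₀ X.b₀)) :
    semiConj (minusQF (k + 3) a b) (minusQF_apply (k + 3) a b) S (X.emb g) = X.emb g := by
  refine semiConj_eq _ _ _ _ _ fun v => ?_
  obtain ⟨w, rfl⟩ := mulVec_surjective X.M v
  simp only [X.emb_coe]
  rw [X.hL, Matrix.mulVec_mulVec, Matrix.mulVec_mulVec, ← Units.val_mul, inv_mul_cancel_right,
    Units.val_mul, ← Matrix.mulVec_mulVec, ← Matrix.mulVec_mulVec, X.hL]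
  congr 1
  rw [← map_mulVec_comp, map_map_of_fixed e he]

theorem Model.exists_of_fixed (X : Model S e) (he : ∀ x : F, S.σ x = x ↔ ∃ y, e y = x)
    (d : ↥(GOm k a b))
    (hd : semiConj (minusQF (k + 3) a b) (minusQF_apply (k + 3) a b) S d = d) :
    ∃ g, X.emb g = d := by
  set g' : GL (MIx k) F := X.M⁻¹ * d.1 * X.M with hg'
  have hMg : X.M * g' = d.1 * X.M := by rw [hg', mul_assoc X.M⁻¹, mul_inv_cancel_left]
  have hfix : GeneralLinearGroup.map S.σ.toRingHom g' = g' := gl_ext fun v => by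
    obtain ⟨w, rfl⟩ : ∃ w : MIx k → F, (fun i => S.σ (w i)) = v :=
      ⟨fun i => S.σ.symm (v i), funext fun i => S.σ.apply_symm_apply _⟩
    rw [map_mulVec_comp]
    apply (linOf X.M).injective
    rw [linOf_apply, linOf_apply, ← X.hL, Matrix.mulVec_mulVec, Matrix.mulVec_mulVec,
      ← Units.val_mul, hMg, Units.val_mul, ← Matrix.mulVec_mulVec,
      ← Matrix.mulVec_mulVec, ← X.hL, ← semiConj_spec _ (minusQF_apply (k + 3) a b), hd]
  obtain ⟨g₀, hg₀⟩ := exists_rational_gl e he hfix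
  obtain ⟨μ, hμ⟩ := d.2
  have hrat : ∀ w, e (Cfsg.quadFormMinus (k + 3) F₀ X.a₀ X.b₀
      ((g₀ : Matrix (MIx k) (MIx k) F₀) *ᵥ w)) =
        μ * e (Cfsg.quadFormMinus (k + 3) F₀ X.a₀ X.b₀ w) := by
    intro w
    apply mul_left_cancel₀ X.hc
    rw [← minus_incV', ← X.hM, ← map_mulVec_inc, hg₀, Matrix.mulVec_mulVec, ← Units.val_mul, hMg,
      Units.val_mul, ← Matrix.mulVec_mulVec, hμ, X.hM, minus_incV']
    ring
  have h1 := hrat (Classical.binVec ![1, 0])
  rw [show Cfsg.quadFormMinus (k + 3) F₀ X.a₀ X.b₀ (Classical.binVec ![1, 0]) = 1 by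
    rw [Classical.minus_binVec]; simp, map_one, mul_one] at h1
  set μ₀ := Cfsg.quadFormMinus (k + 3) F₀ X.a₀ X.b₀
    ((g₀ : Matrix (MIx k) (MIx k) F₀) *ᵥ Classical.binVec ![1, 0])
  have hμ0 : μ₀ ≠ 0 := fun h => μ.ne_zero (by rw [← h1, h, map_zero])
  refine ⟨⟨g₀, Units.mk0 μ₀ hμ0, fun w => e.injective (by rw [hrat, map_mul, ← h1]; rfl)⟩,
    Subtype.ext ?_⟩
  rw [X.emb_coe, hg₀, hMg, mul_inv_cancel_right]

/-! ### Powers -/

theorem gSemi_iterate (E : QExt a b ω) (τ : K ≃+* K) (n : ℕ) (v : MIx k → F) :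
    (gSemi k E τ).L^[n] v = (gSemi k E (τ ^ n)).L v := by
  induction n with
  | zero => rw [pow_zero, gSemi_L_one]; rfl
  | succ n ih => rw [Function.iterate_succ_apply', ih, pow_succ', gSemi_L_mul]

theorem gSemi_σ (E : QExt a b ω) (τ : K ≃+* K) : (gSemi k E τ).σ = E.res τ := rfl

theorem gSemi_model (E : QExt a b ω) {τ : K ≃+* K} {r : ℕ} (hσ : orderOf (E.res τ) = r)
    (hτ : τ ^ r = 1) (e : F₀ →+* F) (he : ∀ x : F, E.res τ x = x ↔ ∃ y, e y = x) :
    Nonempty (Model (gSemi k E τ) e) :=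
  nonempty_model E.aniso _ hσ (fun v => by rw [gSemi_iterate, hτ, gSemi_L_one]) e he

set_option maxHeartbeats 4000000 in
/-- Elements of order `r` of the coset of a field automorphism are conjugate to it. -/
theorem coset_minus (E : QExt a b ω) {τ : K ≃+* K} {r : ℕ} (hσ : orderOf (E.res τ) = r)
    (hodd : Odd r) (hτ : τ ^ r = 1) (d : ↥(GOm k a b))
    (h : (simAut d * gamma k E τ) ^ r = 1) :
    ∃ g, chi E g = 1 ∧ simAut d * gamma k E τ = simAut g * gamma k E τ * (simAut g)⁻¹ := by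
  set S := semiComp (simSemi (minusQF (k + 3) a b) (minusQF_apply _ a b) d) (gSemi k E τ) with hS
  have hSaut : semiAutM (minusQF (k + 3) a b) (minusQF_apply _ a b) S =
      simAut d * gamma k E τ := by
    rw [hS, semiAutM_comp, simAut_eq_semi (minusQF (k + 3) a b) (minusQF_apply _ a b)]
    rfl
  have hSσ : S.σ = E.res τ := RingEquiv.ext fun x => rfl
  obtain ⟨T, hTσ, hT, hTaut⟩ := exists_normalised E.aniso S (r := r) (by rw [hSσ, hσ])
    (by rw [hSaut, h])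
  rw [hSσ] at hTσ
  let e : ↥(fixedField (E.res τ)) →+* F := (fixedField (E.res τ)).subtype
  have he : ∀ x : F, E.res τ x = x ↔ ∃ y, e y = x :=
    fun x => ⟨fun hx => ⟨⟨x, hx⟩, rfl⟩, by rintro ⟨y, rfl⟩; exact y.2⟩
  obtain ⟨X₁⟩ := gSemi_model (k := k) E hσ hτ e he
  obtain ⟨X₂⟩ := nonempty_model E.aniso T (hTσ ▸ hσ) hT e (fun x => by rw [hTσ]; exact he x)
  obtain ⟨N₀, hN₀⟩ := Forms.exists_quadFormMinus_equiv X₁.hA₀ X₂.hA₀ (k + 3)
  set N : GL (MIx k) F := GeneralLinearGroup.map e (glOf N₀) with hN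
  have hNq : ∀ v, Cfsg.quadFormMinus (k + 3) F (e X₂.a₀) (e X₂.b₀)
      ((N : Matrix (MIx k) (MIx k) F) *ᵥ v) =
        Cfsg.quadFormMinus (k + 3) F (e X₁.a₀) (e X₁.b₀) v := by
    have hc : (minusQF (k + 3) (e X₂.a₀) (e X₂.b₀)).comp
        (Matrix.toLin' (N : Matrix (MIx k) (MIx k) F)) = minusQF (k + 3) (e X₁.a₀) (e X₁.b₀) :=
      qf_ext_rational e fun w => by
        rw [QuadraticMap.comp_apply, Matrix.toLin'_apply, minusQF_apply, minusQF_apply, hN,
          map_mulVec_inc, minus_incV', minus_incV', glOf_mulVec, hN₀]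
    intro v
    have := DFunLike.congr_fun hc v
    rw [QuadraticMap.comp_apply, Matrix.toLin'_apply, minusQF_apply, minusQF_apply] at this
    exact this
  set G : GL (MIx k) F := X₂.M * N * X₁.M⁻¹ with hG
  have hGM : ∀ w, (G : Matrix (MIx k) (MIx k) F) *ᵥ ((X₁.M : Matrix (MIx k) (MIx k) F) *ᵥ w) =
      (X₂.M : Matrix (MIx k) (MIx k) F) *ᵥ ((N : Matrix (MIx k) (MIx k) F) *ᵥ w) := fun w => by
    rw [hG, Matrix.mulVec_mulVec, ← Units.val_mul, inv_mul_cancel_right, Units.val_mul,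
      ← Matrix.mulVec_mulVec]
  have hGmem : G ∈ GOm k a b := by
    refine ⟨Units.mk0 (X₂.c / X₁.c) (div_ne_zero X₂.hc X₁.hc), fun v => ?_⟩
    obtain ⟨w, rfl⟩ := mulVec_surjective X₁.M v
    rw [hGM, X₂.hM, hNq, X₁.hM, Units.val_mk0]
    have := X₁.hc
    field_simp
  set g : ↥(GOm k a b) := ⟨G, hGmem⟩ with hg
  have hcomm : semiAutM (minusQF (k + 3) a b) (minusQF_apply _ a b) T * simAut g =
      simAut g * gamma k E τ := by
    rw [simAut_eq_semi (minusQF (k + 3) a b) (minusQF_apply _ a b) g,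
      show gamma k E τ = semiAutM (minusQF (k + 3) a b) (minusQF_apply _ a b) (gSemi k E τ) from rfl,
      ← semiAutM_comp, ← semiAutM_comp]
    refine semiAutM_congr _ _ fun v => ?_
    obtain ⟨w, rfl⟩ := mulVec_surjective X₁.M v
    rw [semiComp_L, semiComp_L, simSemi_L, simSemi_L, X₁.hL]
    show T.L ((G : Matrix (MIx k) (MIx k) F) *ᵥ _) = (G : Matrix (MIx k) (MIx k) F) *ᵥ _
    rw [hGM, hGM, X₂.hL, hTσ, gSemi_σ, hN, ← map_mulVec_comp, map_map_of_fixed e he]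
  have hmain : simAut d * gamma k E τ = simAut g * gamma k E τ * (simAut g)⁻¹ := by
    rw [← hcomm, mul_inv_cancel_right, hTaut, hSaut]
  by_cases h1 : chi E g = 1
  · exact ⟨g, h1, hmain⟩
  have hA1 := aniso_ext e he (hσ ▸ hodd) X₁.hA₀
  obtain ⟨K₀, _, _, ω₀, E₀⟩ := exists_qext (F := ↥(fixedField (E.res τ)))
    (Classical.anisotropic_binQF X₁.hA₀)
  have hx : Cfsg.quadFormMinus (k + 3) ↥(fixedField (E.res τ)) X₁.a₀ X₁.b₀
      (Classical.binVec ![1, 0]) ≠ 0 := by rw [Classical.minus_binVec]; simp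
  set z := X₁.emb (isoInc ((minusCoord k E₀.aniso).refl _ hx)) with hz
  have hzchi : chi E z = Multiplicative.ofAdd 1 := by rw [hz, X₁.chi_emb E hA1 E₀, chi_refl]
  refine ⟨g * z, ?_, ?_⟩
  · rw [map_mul, hzchi]
    revert h1
    generalize chi E g = x
    revert x
    decide
  · have hc := gamma_mul_simAut (k := k) E τ z
    rw [show gConj k E τ z = z from X₁.emb_fixed he _] at hc
    rw [hmain, simAut_mul g z, _root_.mul_inv_rev]
    calc simAut g * gamma k E τ * (simAut g)⁻¹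
        = simAut g * (gamma k E τ * simAut z) * ((simAut z)⁻¹ * (simAut g)⁻¹) := by group
      _ = _ := by rw [hc]; group

/-! ### Centralizers -/

theorem scalar_mulVec_m (c : Fˣ) (v : MIx k → F) :
    ((GeneralLinearGroup.scalar (MIx k) c : GL (MIx k) F) : Matrix (MIx k) (MIx k) F) *ᵥ v =
      (c : F) • v := by
  show Matrix.scalar (MIx k) (c : F) *ᵥ v = _
  rw [Matrix.scalar_apply, ← smul_one_eq_diagonal, Matrix.smul_mulVec, one_mulVec]

theorem gConj_mul (E : QExt a b ω) (τ τ' : K ≃+* K) (g : ↥(GOm k a b)) :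
    gConj k E (τ * τ') g = gConj k E τ (gConj k E τ' g) := by
  rw [gConj, gConj, gConj, ← semiConj_comp]
  exact semiConj_congr _ _ (fun v => gSemi_L_mul E τ τ' v) g

theorem gConj_one (E : QExt a b ω) (g : ↥(GOm k a b)) : gConj k E 1 g = g :=
  semiConj_eq _ _ _ _ _ fun v => by rw [gSemi_L_one, gSemi_L_one]

theorem gConj_scal (E : QExt a b ω) (τ : K ≃+* K) (c : Fˣ) :
    gConj k E τ ((minusCoord k E.aniso).scal c) =
      (minusCoord k E.aniso).scal (Units.map (E.res τ).toRingHom.toMonoidHom c) := by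
  refine semiConj_eq _ _ _ _ _ fun v => ?_
  show ((GeneralLinearGroup.scalar (MIx k) _ : GL (MIx k) F) : Matrix (MIx k) (MIx k) F) *ᵥ _ =
    (gSemi k E τ).L (((GeneralLinearGroup.scalar (MIx k) c : GL (MIx k) F) :
      Matrix (MIx k) (MIx k) F) *ᵥ v)
  rw [scalar_mulVec_m, scalar_mulVec_m, (gSemi k E τ).smul]
  rfl

theorem scal_injective_m (E : QExt a b ω) :
    Function.Injective fun c => (minusCoord k E.aniso).scal c := fun c c' h => by
  have h1 := congrArg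
    (fun g : ↥(GOm k a b) => (g.1 : Matrix (MIx k) (MIx k) F) *ᵥ Classical.binVec ![1, 0]) h
  change ((GeneralLinearGroup.scalar (MIx k) c : GL (MIx k) F) : Matrix (MIx k) (MIx k) F) *ᵥ _ =
    ((GeneralLinearGroup.scalar (MIx k) c' : GL (MIx k) F) : Matrix (MIx k) (MIx k) F) *ᵥ _ at h1
  rw [scalar_mulVec_m, scalar_mulVec_m] at h1
  have := congrFun h1 (.inr 0)
  simp [Classical.binVec] at this
  exact Units.ext this

/-- A centralizing inner-diagonal automorphism comes from a fixed similarity. -/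
theorem exists_fixed_rep (E : QExt a b ω) {τ : K ≃+* K} {r : ℕ} (hσ : orderOf (E.res τ) = r)
    (hτ : τ ^ r = 1) (d : ↥(GOm k a b))
    (hd : simAut d * gamma k E τ = gamma k E τ * simAut d) :
    ∃ d', simAut d' = simAut d ∧ gConj k E τ d' = d' ∧ chi E d' = chi E d := by
  set D := minusCoord k E.aniso with hD
  rw [gamma_mul_simAut, mul_left_inj] at hd
  obtain ⟨lam, hlam⟩ := (D.simAut_eq_one_iff_scal (gConj k E τ d * d⁻¹)).1 (by
    rw [simAut_mul (gConj k E τ d) d⁻¹, simAut_inv d, ← hd, mul_inv_cancel])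
  have hlam' : gConj k E τ d = D.scal lam * d := by rw [hlam, inv_mul_cancel_right]
  have hscal : ∀ c c', D.scal c * D.scal c' = D.scal (c * c') := fun c c' =>
    Subtype.ext (map_mul (GeneralLinearGroup.scalar (MIx k)) c c').symm
  have key : ∀ n, gConj k E (τ ^ n) d =
      D.scal (twistNorm (Units.map (E.res τ).toRingHom.toMonoidHom) lam n) * d := by
    intro n
    induction n with
    | zero =>
      have : D.scal 1 = 1 := Subtype.ext (map_one _)
      rw [pow_zero, gConj_one, show twistNorm _ lam 0 = 1 from rfl, this, one_mul]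
    | succ n ih =>
      rw [pow_succ', gConj_mul, ih, map_mul, gConj_scal, hlam', ← mul_assoc, hscal,
        show twistNorm _ lam (n + 1) = lam * Units.map (E.res τ).toRingHom.toMonoidHom _ from rfl,
        mul_comm lam]
  have hN : twistNorm (Units.map (E.res τ).toRingHom.toMonoidHom) lam r = 1 := by
    have h1 := key r
    rw [hτ, gConj_one, eq_comm, mul_eq_right] at h1
    refine scal_injective_m (k := k) E ?_
    exact h1.trans (Subtype.ext (map_one _)).symm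
  obtain ⟨h, hh⟩ := exists_hilbert90 (E.res τ) hσ lam hN
  refine ⟨D.scal h * d, ?_, ?_, ?_⟩
  · rw [simAut_mul (D.scal h) d, D.simAut_scal, one_mul]
  · rw [map_mul, gConj_scal, hlam', ← mul_assoc, hscal]
    congr 2
    exact Units.ext (by rw [Units.val_mul, mul_comm]; exact hh)
  · rw [map_mul, chi_scalar E _ (D.scal_mem h), one_mul]

variable {τ : K ≃+* K}

/-- The rational inner-diagonal automorphisms. -/
noncomputable def Model.autHom (X : Model S e) {K₀ : Type v} [Field K₀] [Algebra F₀ K₀] {ω₀ : K₀}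
    (E₀ : QExt X.a₀ X.b₀ ω₀) :
    ↥(chi E₀ : ↥(GOm k X.a₀ X.b₀) →* _).ker →*
      MulAut (Cfsg.POmega F (Cfsg.quadFormMinus (k + 3) F a b)) :=
  simAut.comp (X.emb.comp (chi E₀ : ↥(GOm k X.a₀ X.b₀) →* _).ker.subtype)

theorem Model.range_autHom (E : QExt a b ω) {r : ℕ} (hσ : orderOf (E.res τ) = r) (hodd : Odd r)
    (hτ : τ ^ r = 1) (he : ∀ x : F, E.res τ x = x ↔ ∃ y, e y = x) (X : Model (gSemi k E τ) e)
    {K₀ : Type v} [Field K₀] [Algebra F₀ K₀] {ω₀ : K₀} (E₀ : QExt X.a₀ X.b₀ ω₀) :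
    (X.autHom E₀).range =
      Cfsg.inndiagPOmegaMinus (k + 3) F a b ⊓ Subgroup.centralizer {gamma k E τ} := by
  have hA1 := aniso_ext e he (hσ ▸ hodd) X.hA₀
  ext β
  rw [Subgroup.mem_inf, Subgroup.mem_centralizer_singleton_iff, inndiagMinus_eq E]
  constructor
  · rintro ⟨⟨g, hg⟩, rfl⟩
    show simAut (X.emb g) ∈ _ ∧ simAut (X.emb g) * _ = _ * simAut (X.emb g)
    refine ⟨⟨X.emb g, ?_, rfl⟩, ?_⟩
    · rw [SetLike.mem_coe, MonoidHom.mem_ker, X.chi_emb E hA1 E₀]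
      exact hg
    · rw [gamma_mul_simAut, show gConj k E τ (X.emb g) = X.emb g from X.emb_fixed he g]
  · rintro ⟨⟨d, hd, rfl⟩, hc⟩
    obtain ⟨d', h1, h2, h3⟩ := exists_fixed_rep E hσ hτ d hc
    obtain ⟨g, hg⟩ := X.exists_of_fixed he d' h2
    refine ⟨⟨g, ?_⟩, ?_⟩
    · rw [MonoidHom.mem_ker, ← X.chi_emb E hA1 E₀, hg, h3]
      exact hd
    · show simAut (X.emb g) = simAut d
      rw [hg, h1]

theorem Model.simAut_emb_eq_one (E : QExt a b ω) (X : Model S e)
    {K₀ : Type v} [Field K₀] [Algebra F₀ K₀] {ω₀ : K₀} (E₀ : QExt X.a₀ X.b₀ ω₀)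
    (g : ↥(GOm k X.a₀ X.b₀)) : simAut (X.emb g) = 1 ↔ simAut g = 1 := by
  rw [simAut_ker_iff E, simAut_ker_iff E₀]
  constructor
  · rintro ⟨c, hc⟩
    have hcc : ∀ v, ((GeneralLinearGroup.map e g.1 : GL (MIx k) F) :
        Matrix (MIx k) (MIx k) F) *ᵥ v = (c : F) • v := by
      intro v
      apply (linOf X.M).injective
      rw [map_smul, linOf_apply, linOf_apply, Matrix.mulVec_mulVec, ← Units.val_mul,
        show X.M * GeneralLinearGroup.map e g.1 = (X.emb g).1 * X.M by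
          rw [X.emb_coe, inv_mul_cancel_right], ← hc,
        Units.val_mul, ← Matrix.mulVec_mulVec]
      exact scalar_mulVec_m c _
    set c₀ := (g.1 : Matrix (MIx k) (MIx k) F₀) (.inr 0) (.inr 0) with hc₀
    have hce : e c₀ = c := by
      have := congrFun (hcc (Pi.single (.inr 0) 1)) (.inr 0)
      simpa [hc₀] using this
    have hc00 : c₀ ≠ 0 := fun h => c.ne_zero (by rw [← hce, h, map_zero])
    refine ⟨Units.mk0 c₀ hc00, gl_ext fun w => funext fun i => e.injective ?_⟩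
    refine (congrArg e (congrFun (scalar_mulVec_m _ w) i)).trans ?_
    have := congrFun (hcc (incV e w)) i
    rw [map_mulVec_inc] at this
    simp only [incV, Pi.smul_apply, smul_eq_mul] at this ⊢
    rw [this, map_mul, Units.val_mk0, hce]
  · rintro ⟨c, hc⟩
    refine ⟨Units.map e.toMonoidHom c, ?_⟩
    rw [X.emb_coe, ← hc]
    refine gl_ext fun v => ?_
    obtain ⟨w, rfl⟩ := mulVec_surjective X.M v
    refine (scalar_mulVec_m _ _).trans ?_
    rw [Matrix.mulVec_mulVec, ← Units.val_mul, inv_mul_cancel_right, Units.val_mul,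
      ← Matrix.mulVec_mulVec]
    have : GeneralLinearGroup.map e (GeneralLinearGroup.scalar (MIx k) c) =
        GeneralLinearGroup.scalar (MIx k) (Units.map e.toMonoidHom c) :=
      gl_ext_rational e fun u => by
        rw [map_mulVec_inc, scalar_mulVec_m, scalar_mulVec_m]
        funext i
        simp [incV]
    refine Eq.trans ?_ (congrArg (fun z => (X.M : Matrix (MIx k) (MIx k) F) *ᵥ z)
      ((congrArg (fun g : GL (MIx k) F => (g : Matrix (MIx k) (MIx k) F) *ᵥ w) this).trans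
        (scalar_mulVec_m _ _)).symm)
    exact (Matrix.mulVec_smul _ _ _).symm

theorem field_centralizer_minus (E : QExt a b ω) {r : ℕ} (hσ : orderOf (E.res τ) = r)
    (hodd : Odd r) (hτ : τ ^ r = 1) (he : ∀ x : F, E.res τ x = x ↔ ∃ y, e y = x)
    (X : Model (gSemi k E τ) e) :
    Nonempty (↥(Cfsg.inndiagPOmegaMinus (k + 3) F a b ⊓ Subgroup.centralizer {gamma k E τ}) ≃*
      ↥(Cfsg.inndiagPOmegaMinus (k + 3) F₀ X.a₀ X.b₀)) := by
  obtain ⟨K₀, _, _, ω₀, E₀⟩ := exists_qext (F := F₀) (Classical.anisotropic_binQF X.hA₀)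
  set P := (chi E₀ : ↥(GOm k X.a₀ X.b₀) →* _).ker with hP
  let ψ₀ : ↥P →* MulAut (Cfsg.POmega F₀ (Cfsg.quadFormMinus (k + 3) F₀ X.a₀ X.b₀)) :=
    simAut.comp P.subtype
  have hker : (X.autHom E₀).ker = ψ₀.ker := by
    ext g
    exact X.simAut_emb_eq_one E E₀ g.1
  have hrange : ψ₀.range = Cfsg.inndiagPOmegaMinus (k + 3) F₀ X.a₀ X.b₀ := by
    rw [inndiagMinus_eq E₀, MonoidHom.range_comp, Subgroup.range_subtype]
  exact ⟨((MulEquiv.subgroupCongr (X.range_autHom E hσ hodd hτ he E₀).symm).trans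
    (QuotientGroup.quotientKerEquivRange (X.autHom E₀)).symm).trans
    (((QuotientGroup.quotientMulEquivOfEq hker).trans
      (QuotientGroup.quotientKerEquivRange ψ₀)).trans (MulEquiv.subgroupCongr hrange))⟩

/-! ### Class splitting -/

theorem isSquare_of_rational (e : F₀ →+* F) {σ : F ≃+* F}
    (he : ∀ x : F, σ x = x ↔ ∃ y, e y = x) (hodd : Odd (orderOf σ)) (h2 : (2 : F) ≠ 0) {c : F₀}
    (h : IsSquare (e c)) : IsSquare c := by
  obtain ⟨x, hx⟩ := h
  rcases eq_or_ne x 0 with rfl | hx0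
  · exact ⟨0, e.injective (by rw [hx]; simp)⟩
  rcases mul_self_eq_mul_self_iff.1 (show σ x * σ x = x * x by
    rw [← map_mul, ← hx, (he _).2 ⟨c, rfl⟩]) with h1 | h1
  · obtain ⟨y, hy⟩ := (he x).1 h1
    exact ⟨y, e.injective (by rw [map_mul, hy, hx])⟩
  · exfalso
    have h3 : ∀ n, (σ ^ n) x = (-1) ^ n * x := fun n => by
      induction n with
      | zero => simp
      | succ n ih =>
        rw [AutPSL.ringAut_pow_succ_apply, ih, map_mul, map_pow, map_neg, map_one, h1, pow_succ]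
        ring
    have h4 := h3 (orderOf σ)
    rw [pow_orderOf_eq_one, hodd.neg_one_pow, RingAut.one_apply] at h4
    exact mul_ne_zero h2 hx0 (by linear_combination h4)

set_option maxHeartbeats 4000000 in
theorem inndiag_le_sup_centralizer (E : QExt a b ω) {r : ℕ} (hσ : orderOf (E.res τ) = r)
    (hodd : Odd r) (hτ : τ ^ r = 1) :
    Cfsg.inndiagPOmegaMinus (k + 3) F a b ≤
      Cfsg.Inn (Cfsg.POmega F (Cfsg.quadFormMinus (k + 3) F a b)) ⊔
        (Cfsg.inndiagPOmegaMinus (k + 3) F a b ⊓ Subgroup.centralizer {gamma k E τ}) := by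
  rcases (Classical.odd_or_charTwo (F := F)) with hF | hF
  swap
  · rw [inndiag_eq_inn_char_two E]
    exact le_sup_left
  let e : ↥(fixedField (E.res τ)) →+* F := (fixedField (E.res τ)).subtype
  have he : ∀ x : F, E.res τ x = x ↔ ∃ y, e y = x :=
    fun x => ⟨fun hx => ⟨⟨x, hx⟩, rfl⟩, by rintro ⟨y, rfl⟩; exact y.2⟩
  obtain ⟨X⟩ := gSemi_model (k := k) E hσ hτ e he
  obtain ⟨K₀, _, _, ω₀, E₀⟩ := exists_qext (F := ↥(fixedField (E.res τ)))
    (Classical.anisotropic_binQF X.hA₀)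
  have h2 := Classical.two_ne_zero_of_odd hF
  have h20 : (2 : ↥(fixedField (E.res τ))) ≠ 0 := fun h => h2 (congrArg Subtype.val h)
  obtain ⟨c, hc⟩ := FiniteField.exists_nonsquare (F := ↥(fixedField (E.res τ))) (fun h => h20 (by
    haveI : CharP ↥(fixedField (E.res τ)) 2 := h ▸ ringChar.charP _
    exact CharTwo.two_eq_zero))
  have hc0 : c ≠ 0 := by rintro rfl; exact hc ⟨0, by simp⟩
  obtain ⟨y, hy⟩ := exists_minus_norm E₀.aniso (Units.mk0 c hc0)
  set g₀ := Classical.minusScale (k + 3) X.a₀ X.b₀ (Units.mk0 c hc0) y hy with hg₀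
  set Y := X.autHom E₀ ⟨g₀, chi_scale E₀ _ _ hy⟩ with hY
  have hYC : Y ∈ Cfsg.inndiagPOmegaMinus (k + 3) F a b ⊓ Subgroup.centralizer {gamma k E τ} := by
    rw [← X.range_autHom E hσ hodd hτ he E₀]; exact ⟨_, rfl⟩
  set D := minusCoord k E.aniso with hD
  have hn := Classical.card_minus k
  have hYpso : Y ∉ Cfsg.psoAut F (Cfsg.quadFormMinus (k + 3) F a b) := by
    intro h
    obtain ⟨⟨t, ht⟩, -⟩ := (D.mem_P0_iff hn (X.emb g₀)).1 h
    have hmu : (D.mu (X.emb g₀) : F) = e c := D.mu_eq_of _ fun v => by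
      obtain ⟨w, rfl⟩ := mulVec_surjective X.M v
      rw [X.emb_coe, Matrix.mulVec_mulVec, ← Units.val_mul, inv_mul_cancel_right, Units.val_mul,
        ← Matrix.mulVec_mulVec, X.hM, X.hM]
      have := sim_of_rational e (minusQF (k + 3) (e X.a₀) (e X.b₀)) (minusQF_apply _ _ _)
        (minus_incV' e X.a₀ X.b₀) (g := GeneralLinearGroup.map e g₀.1) (c := e c) (fun w => by
          rw [map_mulVec_inc, minus_incV', ← map_mul]
          exact congrArg e (Classical.minus_scale _ hy w)) w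
      rw [this]
      ring
    exact hc (isSquare_of_rational e he (hσ ▸ hodd) h2 ⟨(t : F), by rw [← hmu, ht]; rfl⟩)
  have hle : Cfsg.psoAut F (Cfsg.quadFormMinus (k + 3) F a b) ≤
      Cfsg.inndiagPOmegaMinus (k + 3) F a b := by
    intro p hp
    obtain ⟨g, -, rfl⟩ := (Classical.psoAut_eq (f := Cfsg.quadFormMinus (k + 3) F a b)) ▸ hp
    rw [inndiagMinus_eq E, ker_chi_eq_dsign E hF]
    exact ⟨g, ((D.mem_P0_iff hn g).1 hp).2, rfl⟩
  have hinn := D.inn_le_pso hF hn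
  obtain ⟨S₁⟩ := Classical.nonempty_genSim_minus k hF E.aniso
  by_cases h : Even (k + 3) ∧ Nat.card F % 4 = 3
  · have hpos : D.theta D.negI = 1 := by rw [Classical.theta_negI_minus k hF E.aniso, if_pos h]
    obtain ⟨φ, -, hker⟩ : ∃ φ : ↥(Cfsg.inndiagPOmegaMinus (k + 3) F a b) →* Multiplicative (ZMod 4),
        Function.Surjective φ ∧ φ.ker =
          (Cfsg.Inn (Cfsg.POmega F (Cfsg.quadFormMinus (k + 3) F a b))).subgroupOf _ := by
      rw [Classical.inndiag_minus_eq k hF E.aniso]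
      refine (D.inndiag_mod_inn_four hF hn hpos S₁).1 ?_
      obtain ⟨j, hj⟩ := h.1
      exact ⟨j, by omega⟩
    -- some element of the special part is not inner
    obtain ⟨p, hp, hpN⟩ : ∃ p ∈ Cfsg.psoAut F (Cfsg.quadFormMinus (k + 3) F a b),
        p ∉ Cfsg.Inn (Cfsg.POmega F (Cfsg.quadFormMinus (k + 3) F a b)) := by
      by_contra hcon
      push Not at hcon
      have := (D.relIndex_pso hF hn).2 hpos
      rw [Subgroup.relIndex_eq_one.2 hcon] at this
      omega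
    exact le_sup_of_cyclic_four _ _ _ φ hker _ hinn hYC.1 hYC hYpso (hle hp) hp hpN
  · obtain ⟨φ, -, hker⟩ : ∃ φ : ↥(Cfsg.inndiagPOmegaMinus (k + 3) F a b) →* Multiplicative (ZMod 2),
        Function.Surjective φ ∧ φ.ker =
          (Cfsg.Inn (Cfsg.POmega F (Cfsg.quadFormMinus (k + 3) F a b))).subgroupOf _ := by
      rw [Classical.inndiag_minus_eq k hF E.aniso]
      exact D.inndiag_mod_inn_two hF hn (by rw [Classical.theta_negI_minus k hF E.aniso, if_neg h])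
        S₁.hs1 S₁.hs2
    exact le_sup_of_two _ _ _ φ hker hYC.1 hYC fun hY' => hYpso (hinn hY')

theorem field_split_minus (E : QExt a b ω) {r : ℕ} (hσ : orderOf (E.res τ) = r)
    (hodd : Odd r) (hτ : τ ^ r = 1) :
    Cfsg.splitClassCount (Cfsg.inndiagPOmegaMinus (k + 3) F a b)
      (Cfsg.Inn (Cfsg.POmega F (Cfsg.quadFormMinus (k + 3) F a b))) (gamma k E τ) = 1 := by
  haveI := AutPSL.inn_normal (Cfsg.POmega F (Cfsg.quadFormMinus (k + 3) F a b))
  let Φ := (simAut (f := Cfsg.quadFormMinus (k + 3) F a b)).comp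
    (chi E : ↥(GOm k a b) →* _).ker.subtype
  have hrange : Φ.range = Cfsg.inndiagPOmegaMinus (k + 3) F a b := by
    rw [inndiagMinus_eq E, MonoidHom.range_comp, Subgroup.range_subtype]
  set N := (Cfsg.Inn (Cfsg.POmega F (Cfsg.quadFormMinus (k + 3) F a b))).comap Φ with hN
  have hmap : N.map Φ = Cfsg.Inn (Cfsg.POmega F (Cfsg.quadFormMinus (k + 3) F a b)) := by
    rw [hN, Subgroup.map_comap_eq, inf_eq_right.2 (hrange ▸ inn_le_inndiagMinus E)]
  let C := (Subgroup.centralizer {gamma k E τ}).comap Φ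
  rw [← hrange, ← hmap, AutPSL.splitClassCount_eq_index Φ _ _ C
    (fun g => by rw [Subgroup.mem_comap, Subgroup.mem_centralizer_singleton_iff]),
    Subgroup.index_eq_one, eq_top_iff]
  intro g _
  have h : Φ g ∈ Cfsg.inndiagPOmegaMinus (k + 3) F a b := hrange ▸ ⟨g, rfl⟩
  obtain ⟨n, hn, c, hc, e'⟩ :=
    Subgroup.mem_sup_of_normal_left.1 (inndiag_le_sup_centralizer E hσ hodd hτ h)
  obtain ⟨c', rfl⟩ : c ∈ Φ.range := hrange ▸ hc.1
  rw [← inv_mul_cancel_right g c']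
  refine mul_mem (Subgroup.mem_sup_left ?_) (Subgroup.mem_sup_right hc.2)
  rw [hN, Subgroup.mem_comap]
  rw [map_mul, map_inv, ← e', mul_inv_cancel_right]
  exact hn

end Cfsg.Agent.OutPO
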