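import Mathlib
import Cfsg.Agent.OutPO.MinusField
import Cfsg.Agent.Forms.BaseChange

/-!
The class of field automorphisms of `PΩ⁻` in the sense of `IsFieldAutClassPOmegaMinus`.
-/

set_option autoImplicit false
set_option linter.unusedSectionVars false
set_option maxHeartbeats 1000000
set_option synthInstance.maxHeartbeats 400000

namespace Cfsg.Agent.OutPO

open Matrix QuadraticMap
open Cfsg.Agent.AutPO (Semi semiAutM)
open Cfsg.Agent.AutPSL (fixedField)
open Cfsg.Agent.Classical (simAut minusQF minusQF_apply binQF binQF_apply minusCoord)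

universe u v

variable {F : Type u} [Field F] [Finite F] {k : ℕ} {a b : F} {K : Type u} [Field K] [Algebra F K]
  {ω : K}

theorem compat_minus (σ : F ≃+* F) (ha : σ a = a) (hb : σ b = b) :
    Compat (Cfsg.quadFormMinus (k + 3) F a b) σ := fun v => by
  simp [Cfsg.quadFormMinus, map_sum, ha, hb]

/-- A field automorphism fixing the coefficients lifts to one fixing the root. -/
theorem exists_lift_fix_root (E : QExt a b ω) (σ : F ≃+* F) (ha : σ a = a) (hb : σ b = b) :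
    ∃ τ : K ≃+* K, E.res τ = σ ∧ τ ω = ω := by
  obtain ⟨τ, hτ⟩ := E.res_surjective σ
  have hroot := congrArg τ E.root
  rw [map_add, map_sub, map_mul, map_mul, map_zero, ← E.res_spec, ← E.res_spec, hτ, ha, hb] at hroot
  have hfac : (τ ω - ω) * (τ ω - (algebraMap F K a - ω)) = 0 := by
    linear_combination hroot - E.root
  rcases mul_eq_zero.1 hfac with h1 | h1 <;> rw [sub_eq_zero] at h1
  · exact ⟨τ, hτ, h1⟩
  · refine ⟨E.conj * τ, by rw [map_mul, E.res_conj, one_mul, hτ], ?_⟩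
    show E.conj (τ ω) = ω
    rw [h1, show algebraMap F K a - ω = E.conjExt.coord ![0, 1] by
      rw [E.conjExt.coord_apply]; simp, ← E.conj_coord,
      show E.conj (E.conj (E.coord ![0, 1])) = (E.conj * E.conj) (E.coord ![0, 1]) from rfl,
      E.conj_mul_conj, RingAut.one_apply, E.coord_apply]
    simp

theorem fieldAutOf_eq_gamma (E : QExt a b ω) {σ : F ≃+* F} {τ : K ≃+* K} (hτ : E.res τ = σ)
    (hω : τ ω = ω) (hσ : Compat (Cfsg.quadFormMinus (k + 3) F a b) σ) :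
    fieldAutOf (minusQF (k + 3) a b) (minusQF_apply _ a b) σ hσ = gamma k E τ := by
  refine semiAutM_congr _ _ fun v => funext fun i => ?_
  rw [fieldSemi_L]
  rcases i with i | i
  · rw [gSemi_L_inl, hτ]
  · show σ (v (.inr i)) = E.binTau τ (fun j => v (.inr j)) i
    have e : E.binTau τ (fun j => v (.inr j)) = fun j => σ (v (.inr j)) := by
      apply E.coord.injective
      rw [QExt.binTau, E.coord.apply_symm_apply, E.coord_apply, E.coord_apply, map_add, map_mul,
        hω, ← E.res_spec, ← E.res_spec, hτ]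
    rw [e]

/-- An inner-diagonal automorphism of odd order is inner. -/
theorem mem_inn_of_pow_eq_one (E : QExt a b ω) {r : ℕ} (hodd : Odd r)
    {y : MulAut (Cfsg.POmega F (Cfsg.quadFormMinus (k + 3) F a b))}
    (hy : y ∈ Cfsg.inndiagPOmegaMinus (k + 3) F a b) (hyr : y ^ r = 1) :
    y ∈ Cfsg.Inn (Cfsg.POmega F (Cfsg.quadFormMinus (k + 3) F a b)) := by
  rcases (Classical.odd_or_charTwo (F := F)) with hF | hF
  swap
  · rwa [inndiag_eq_inn_char_two E] at hy
  obtain ⟨S₁⟩ := Classical.nonempty_genSim_minus k hF E.aniso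
  have hn := Classical.card_minus k
  have fin : ∀ (X : Type) (_ : Group X), (∀ x : X, x ^ 4 = 1) →
      (∃ φ : ↥(Cfsg.inndiagPOmegaMinus (k + 3) F a b) →* X,
        φ.ker = (Cfsg.Inn (Cfsg.POmega F (Cfsg.quadFormMinus (k + 3) F a b))).subgroupOf _) →
      y ∈ Cfsg.Inn (Cfsg.POmega F (Cfsg.quadFormMinus (k + 3) F a b)) := by
    rintro X _ h4 ⟨φ, hφ⟩
    have hr : φ ⟨y, hy⟩ ^ r = 1 := by
      rw [← MonoidHom.map_pow φ, show (⟨y, hy⟩ : ↥(Cfsg.inndiagPOmegaMinus (k + 3) F a b)) ^ r = 1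
        from Subtype.ext hyr, MonoidHom.map_one]
    have hcop : Nat.Coprime r 4 := by
      rw [show (4 : ℕ) = 2 ^ 2 by norm_num]
      exact Nat.Coprime.pow_right _ (Nat.coprime_two_right.2 hodd)
    have h1 := pow_gcd_eq_one.2 ⟨hr, h4 (φ ⟨y, hy⟩)⟩
    rw [hcop, pow_one, ← MonoidHom.mem_ker, hφ, Subgroup.mem_subgroupOf] at h1
    exact h1
  by_cases h : Even (k + 3) ∧ Nat.card F % 4 = 3
  · refine fin (Multiplicative (ZMod 4)) inferInstance (by decide) ?_
    rw [Classical.inndiag_minus_eq k hF E.aniso]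
    obtain ⟨φ, -, hφ⟩ := ((minusCoord k E.aniso).inndiag_mod_inn_four hF hn
      (by rw [Classical.theta_negI_minus k hF E.aniso, if_pos h]) S₁).1 (by
        obtain ⟨j, hj⟩ := h.1
        exact ⟨j, by omega⟩)
    exact ⟨φ, hφ⟩
  · refine fin (Multiplicative (ZMod 2)) inferInstance (by decide) ?_
    rw [Classical.inndiag_minus_eq k hF E.aniso]
    obtain ⟨φ, -, hφ⟩ := (minusCoord k E.aniso).inndiag_mod_inn_two hF hn
      (by rw [Classical.theta_negI_minus k hF E.aniso, if_neg h]) S₁.hs1 S₁.hs2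
    exact ⟨φ, hφ⟩

set_option maxHeartbeats 4000000 in
/-- A field automorphism of prime order in standard position. -/
theorem field_std_minus (E : QExt a b ω)
    {x : MulAut (Cfsg.POmega F (Cfsg.quadFormMinus (k + 3) F a b))}
    (hx : Cfsg.IsFieldAutClassPOmegaMinus (k + 3) x) {r : ℕ} (hr : r.Prime) (hxr : orderOf x = r) :
    Odd r ∧ ∃ (d : ↥(GOm k a b)) (τ : K ≃+* K), chi E d = 1 ∧ τ ^ r = 1 ∧
      orderOf (E.res τ) = r ∧ x = simAut d * gamma k E τ := by
  haveI : Fact r.Prime := ⟨hr⟩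
  obtain ⟨a', b', ψ, σ, hab', hσ1, hσa, hσb, hfield⟩ := hx
  have hA' := Classical.anisotropic_binQF hab'
  obtain ⟨ω', E'⟩ := exists_qext_root (K := K) hA' E.dim
  obtain ⟨τ', hτ', hτω⟩ := exists_lift_fix_root E' σ hσa hσb
  have hc := compat_minus (k := k) σ hσa hσb
  have hy : MulAut.congr ψ x = gamma k E' τ' :=
    ((isFieldAutOf_iff (minusQF (k + 3) a' b') (minusQF_apply _ a' b') σ hc _).1 hfield).trans
      (fieldAutOf_eq_gamma E' hτ' hτω hc)
  have hord : orderOf τ' = r := by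
    rw [← orderOf_injective (gamma k E') (gamma_injective E'), ← hy, MulEquiv.orderOf_eq, hxr]
  have hσne : σ ≠ 1 := fun h => hσ1 (h.trans rfl)
  have hσr : σ ^ r = 1 := by rw [← hτ', ← map_pow, ← hord, pow_orderOf_eq_one, map_one]
  have hσo : orderOf σ = r := orderOf_eq_prime hσr hσne
  have hodd : Odd r := by
    refine hr.eq_two_or_odd'.resolve_left fun h2 => ?_
    -- an involution would give the binary part a zero
    haveI := Fintype.ofFinite F
    haveI := Fintype.ofFinite ↥(fixedField σ)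
    have hcard : Fintype.card F = Fintype.card ↥(fixedField σ) ^ 2 := by
      have := AutPSL.card_fixedField_pow σ
      rwa [hσo, h2, Nat.card_eq_fintype_card, Nat.card_eq_fintype_card] at this
    obtain ⟨t, ht⟩ := Forms.exists_root_quadratic_extension (F := ↥(fixedField σ)) (K := F) hcard
      rfl (⟨-a', by show σ (-a') = -a'; rw [map_neg, hσa]⟩ : ↥(fixedField σ))
      (⟨b', hσb⟩ : ↥(fixedField σ))
    change t ^ 2 + -a' * t + b' = 0 at ht
    have := congrFun (hA' ![t, -1] (by rw [binQF_apply]; simp; linear_combination ht)) 1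
    simp at this
  refine ⟨hodd, ?_⟩
  obtain ⟨d, τ, hd, rfl⟩ := exists_decomp_minus E x
  haveI := inndiagMinus_normal (k := k) E
  have hD : simAut d ∈ Cfsg.inndiagPOmegaMinus (k + 3) F a b := by
    rw [inndiagMinus_eq E]; exact ⟨d, hd, rfl⟩
  have hxpow : (simAut d * gamma k E τ) ^ r = 1 := by rw [← hxr]; exact pow_orderOf_eq_one _
  have hτr : τ ^ r = 1 := by
    refine gamma_mem_inndiag E _ ((QuotientGroup.eq_one_iff
      (N := Cfsg.inndiagPOmegaMinus (k + 3) F a b) _).1 ?_)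
    have h1 := congrArg (QuotientGroup.mk' (Cfsg.inndiagPOmegaMinus (k + 3) F a b)) hxpow
    rw [map_pow, map_mul,
      show QuotientGroup.mk' (Cfsg.inndiagPOmegaMinus (k + 3) F a b) (simAut d) = 1 from
        (QuotientGroup.eq_one_iff _).2 hD, one_mul, ← map_pow, ← map_pow, map_one] at h1
    exact h1
  have hτ1 : τ ≠ 1 := by
    rintro rfl
    rw [map_one, mul_one] at hxr hxpow hy
    obtain ⟨z, hz⟩ := mem_inn_of_pow_eq_one E hodd hD hxpow
    have h1 : MulAut.congr ψ (simAut d) = MulAut.conj (ψ z) := by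
      rw [← hz]
      refine MulEquiv.ext fun w => ?_
      show ψ (z * ψ.symm w * z⁻¹) = ψ z * w * (ψ z)⁻¹
      rw [map_mul, map_mul, map_inv, ψ.apply_symm_apply]
    have h2 : gamma k E' τ' ∈ Cfsg.inndiagPOmegaMinus (k + 3) F a' b' :=
      inn_le_inndiagMinus E' ⟨ψ z, by rw [← hy, h1]⟩
    rw [gamma_mem_inndiag E' τ' h2, map_one] at hτ'
    exact hσne hτ'.symm
  refine ⟨d, τ, hd, hτr, orderOf_eq_prime (by rw [← map_pow, hτr, map_one]) fun h => ?_, rfl⟩
  rcases E.res_eq_one h with h1 | h1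
  · exact hτ1 h1
  · obtain ⟨j, hj⟩ := hodd
    rw [h1, hj, pow_succ, pow_mul, pow_two, E.conj_mul_conj, one_pow, one_mul] at hτr
    exact E.conj_ne_one hτr

theorem order_iff_conj_minus (E : QExt a b ω)
    {x δ : MulAut (Cfsg.POmega F (Cfsg.quadFormMinus (k + 3) F a b))}
    (hx : Cfsg.IsFieldAutClassPOmegaMinus (k + 3) x) {r : ℕ} (hr : r.Prime) (hxr : orderOf x = r)
    (hδ : δ ∈ Cfsg.inndiagPOmegaMinus (k + 3) F a b) :
    orderOf (δ * x) = r ↔ Cfsg.IsConjUnder (Cfsg.inndiagPOmegaMinus (k + 3) F a b) x (δ * x) := by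
  refine ⟨fun h => ?_, ?_⟩
  swap
  · rintro ⟨h, -, e⟩
    rw [e, AutPSL.orderOf_conj_eq, hxr]
  obtain ⟨hodd, d, τ, hd, hτ, hσ, rfl⟩ := field_std_minus E hx hr hxr
  rw [inndiagMinus_eq E] at hδ
  obtain ⟨c, hc, rfl⟩ := hδ
  obtain ⟨g₁, hg₁, e₁⟩ := coset_minus E hσ hodd hτ d (by rw [← hxr]; exact pow_orderOf_eq_one _)
  have h' : simAut c * (simAut d * gamma k E τ) = simAut (c * d) * gamma k E τ := by
    rw [simAut_mul c d, mul_assoc]
  rw [h'] at h ⊢
  obtain ⟨g₂, hg₂, e₂⟩ := coset_minus E hσ hodd hτ (c * d) (by rw [← h]; exact pow_orderOf_eq_one _)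
  refine ⟨simAut (g₂ * g₁⁻¹), ?_, ?_⟩
  · rw [inndiagMinus_eq E]
    exact ⟨_, by rw [SetLike.mem_coe, MonoidHom.mem_ker, map_mul, map_inv, hg₁, hg₂, inv_one,
      one_mul], rfl⟩
  · rw [e₂, e₁, simAut_mul g₂ g₁⁻¹, simAut_inv g₁]
    group

theorem field_class_minus (E : QExt a b ω)
    {x : MulAut (Cfsg.POmega F (Cfsg.quadFormMinus (k + 3) F a b))}
    (hx : Cfsg.IsFieldAutClassPOmegaMinus (k + 3) x) {p f r : ℕ} [Fact p.Prime]
    (hF : Nat.card F = p ^ f) (hr : r.Prime) (hxr : orderOf x = r) (F₀ : Type v) [Field F₀]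
    [Finite F₀] (hF₀ : Nat.card F₀ = p ^ (f / r)) :
    Odd r ∧ r ∣ f ∧ (∃ a₀ b₀ : F₀, Forms.BinaryAniso a₀ b₀ ∧
      Nonempty (↥(Cfsg.inndiagPOmegaMinus (k + 3) F a b ⊓ Subgroup.centralizer {x}) ≃*
        ↥(Cfsg.inndiagPOmegaMinus (k + 3) F₀ a₀ b₀))) ∧
      Cfsg.splitClassCount (Cfsg.inndiagPOmegaMinus (k + 3) F a b)
        (Cfsg.Inn (Cfsg.POmega F (Cfsg.quadFormMinus (k + 3) F a b))) x = 1 := by
  haveI := inndiagMinus_normal (k := k) E
  haveI := AutPSL.inn_normal (Cfsg.POmega F (Cfsg.quadFormMinus (k + 3) F a b))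
  obtain ⟨hodd, d, τ, hd, hτ, hσ, rfl⟩ := field_std_minus E hx hr hxr
  obtain ⟨hrf, hcard⟩ := AutPSL.fixedField_exponent (E.res τ) hF hσ
  obtain ⟨e, he⟩ := AutPSL.exists_embedding (E.res τ) F₀ (hF₀.trans hcard.symm)
  obtain ⟨X⟩ := gSemi_model (k := k) E hσ hτ e he
  obtain ⟨iso⟩ := field_centralizer_minus E hσ hodd hτ he X
  obtain ⟨g, -, hg⟩ := coset_minus E hσ hodd hτ d (by rw [← hxr]; exact pow_orderOf_eq_one _)
  have hconj : (simAut g)⁻¹ * (simAut d * gamma k E τ) * ((simAut g)⁻¹)⁻¹ = gamma k E τ := by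
    rw [hg]; group
  refine ⟨hodd, hrf, ⟨X.a₀, X.b₀, X.hA₀, ⟨(AutPSL.centEquiv _ (simAut g)⁻¹ _).trans
    ((MulEquiv.subgroupCongr (by rw [hconj])).trans iso)⟩⟩, ?_⟩
  rw [← AutPSL.splitClassCount_conj _ _ (simAut g)⁻¹, hconj]
  exact field_split_minus E hσ hodd hτ

end Cfsg.Agent.OutPO
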