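import Mathlib
import Cfsg.Agent.LocalBal.OrthCore

/-!
Symmetric bilinear spaces over finite fields of odd characteristic, without coordinates: reflections,
plane rotations, odd normalised groups of similitudes, and semilinear maps fixing anisotropic lines.
-/

set_option autoImplicit false
set_option linter.unusedSectionVars false

namespace Cfsg.Agent.OutPO

open Matrix Module
open Cfsg.Agent.LocalBal (hB IsHerm hφ hφ_dot hφ_self rGL rMat_mulVec rGL_coe exists_binary)
open Cfsg.Agent.GraphForms (Sim mem_Sim_iff)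

universe u v

variable {L : Type u} [Field L] {W : Type v} [AddCommGroup W] [Module L W]

/-- A non-degenerate symmetric form, two invertible. -/
structure SymSp (β : W →ₗ[L] W →ₗ[L] L) : Prop where
  symm : ∀ x y, β x y = β y x
  nd : ∀ x, (∀ y, β x y = 0) → x = 0
  two : (2 : L) ≠ 0

variable {β : W →ₗ[L] W →ₗ[L] L}

/-- The reflection map in `x`. -/
def breflMap (β : W →ₗ[L] W →ₗ[L] L) (x : W) : W →ₗ[L] W :=
  LinearMap.id - ((2 * (β x x)⁻¹) • β x).smulRight x

theorem breflMap_apply (x v : W) : breflMap β x v = v - (2 * (β x x)⁻¹ * β x v) • x := rfl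

theorem breflMap_invol {x : W} (hx : β x x ≠ 0) (v : W) : breflMap β x (breflMap β x v) = v := by
  rw [breflMap_apply, breflMap_apply, map_sub, map_smul, smul_eq_mul]
  match_scalars
  · simp
  · field_simp; ring

/-- The reflection in an anisotropic vector. -/
def brefl (β : W →ₗ[L] W →ₗ[L] L) (x : W) (hx : β x x ≠ 0) : W ≃ₗ[L] W :=
  LinearEquiv.ofLinear (breflMap β x) (breflMap β x)
    (LinearMap.ext fun v => breflMap_invol hx v) (LinearMap.ext fun v => breflMap_invol hx v)

theorem brefl_apply (x : W) (hx : β x x ≠ 0) (v : W) :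
    brefl β x hx v = v - (2 * (β x x)⁻¹ * β x v) • x := rfl

theorem brefl_self (x : W) (hx : β x x ≠ 0) : brefl β x hx x = -x := by
  rw [brefl_apply, mul_assoc, inv_mul_cancel₀ hx, mul_one]
  module

theorem brefl_perp (x : W) (hx : β x x ≠ 0) {v : W} (hv : β x v = 0) : brefl β x hx v = v := by
  rw [brefl_apply, hv, mul_zero, zero_smul, sub_zero]

theorem brefl_invol (x : W) (hx : β x x ≠ 0) (v : W) : brefl β x hx (brefl β x hx v) = v :=
  breflMap_invol hx v

theorem SymSp.brefl_iso (h : SymSp β) (x : W) (hx : β x x ≠ 0) (u v : W) :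
    β (brefl β x hx u) (brefl β x hx v) = β u v := by
  simp only [brefl_apply, map_sub, map_smul, LinearMap.sub_apply, LinearMap.smul_apply, smul_eq_mul]
  rw [h.symm u x]
  field_simp
  ring

/-- The quarter turn of the plane of `x` and `y`. -/
def brotMap (β : W →ₗ[L] W →ₗ[L] L) (x y : W) : W →ₗ[L] W :=
  LinearMap.id + ((β x x)⁻¹ • β x).smulRight (y - x) + ((β x x)⁻¹ • β y).smulRight (-x - y)

theorem brotMap_apply (x y v : W) : brotMap β x y v =
    v + ((β x x)⁻¹ * β x v) • (y - x) + ((β x x)⁻¹ * β y v) • (-x - y) := rfl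

/-- `x` and `y` span a plane on which the form is a multiple of the identity. -/
structure EqPair (β : W →ₗ[L] W →ₗ[L] L) (x y : W) : Prop where
  aniso : β x x ≠ 0
  perp : β x y = 0
  eq : β y y = β x x

theorem EqPair.aniso' {x y : W} (p : EqPair β x y) : β y y ≠ 0 := p.eq ▸ p.aniso

theorem SymSp.brot_iso (h : SymSp β) {x y : W} (p : EqPair β x y) (u v : W) :
    β (brotMap β x y u) (brotMap β x y v) = β u v := by
  simp only [brotMap_apply, map_add, map_sub, map_neg, map_smul, LinearMap.add_apply,
    LinearMap.sub_apply, LinearMap.neg_apply, LinearMap.smul_apply, smul_eq_mul, p.eq,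
    h.symm y x, p.perp, h.symm u x, h.symm u y]
  have := p.aniso
  field_simp
  ring

theorem SymSp.brot_sq (h : SymSp β) {x y : W} (p : EqPair β x y) (v : W) :
    brotMap β x y (brotMap β x y v) = brefl β x p.aniso (brefl β y p.aniso' v) := by
  simp only [brotMap_apply, brefl_apply, map_add, map_sub, map_neg, map_smul, smul_eq_mul,
    h.symm y x, p.perp, p.eq]
  have := p.aniso
  match_scalars <;> field_simp <;> ring

theorem EqPair.plane_self {x y : W} (p : EqPair β x y) :
    brefl β x p.aniso (brefl β y p.aniso' x) = -x ∨ β y x ≠ 0 := by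
  by_cases h : β y x = 0
  · exact Or.inl (by rw [brefl_perp y _ h, brefl_self])
  · exact Or.inr h

variable [FiniteDimensional L W]

/-- Coordinates for a symmetric space. -/
theorem SymSp.exists_coords (h : SymSp β) :
    ∃ (e : W ≃ₗ[L] (Fin (finrank L W) → L)) (A : Matrix (Fin (finrank L W)) (Fin (finrank L W)) L),
      IsHerm (RingEquiv.refl L) A ∧ ∀ u v, hB (RingEquiv.refl L) A (e u) (e v) = β u v := by
  classical
  let b := Module.finBasis L W
  let A : Matrix (Fin (finrank L W)) (Fin (finrank L W)) L := LinearMap.toMatrix₂ b b β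
  have key : ∀ u v, hB (RingEquiv.refl L) A (b.equivFun u) (b.equivFun v) = β u v := fun u v => by
    show b.equivFun u ⬝ᵥ A *ᵥ b.equivFun v = _
    exact (apply_eq_dotProduct_toMatrix₂_mulVec b b β u v).symm
  refine ⟨b.equivFun, A, ⟨fun _ => rfl, fun i j => ?_, ?_, h.two⟩, key⟩
  · show A i j = A j i
    simp only [A, LinearMap.toMatrix₂_apply]
    exact h.symm _ _
  · intro hdet
    obtain ⟨w, hw0, hw⟩ := Matrix.exists_mulVec_eq_zero_iff.2 hdet
    refine hw0 (b.equivFun.symm.map_eq_zero_iff.1 (h.nd _ fun v => ?_))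
    rw [h.symm, ← key, b.equivFun.apply_symm_apply]
    show b.equivFun v ⬝ᵥ A *ᵥ w = 0
    rw [hw, dotProduct_zero]

/-- Values are taken orthogonally to few orthogonal vectors. -/
theorem SymSp.exists_perp_value [Finite L] (h : SymSp β) {k : ℕ} (hk : k + 2 ≤ finrank L W)
    (b : Fin k → W) (hb : ∀ i, β (b i) (b i) ≠ 0) (ho : ∀ i j, i ≠ j → β (b i) (b j) = 0) (c : L) :
    ∃ y, β y y = c ∧ ∀ i, β (b i) y = 0 := by
  obtain ⟨e, A, hA, key⟩ := h.exists_coords
  have key' : ∀ w v, hB (RingEquiv.refl L) A w (e v) = β (e.symm w) v := fun w v => by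
    rw [← key, e.apply_symm_apply]
  obtain ⟨p, hp, hpb⟩ := hA.exists_perp (k := k) (by omega) (fun i => e (b i))
    (fun i => by rw [key]; exact hb i) (fun i j hij => by rw [key]; exact ho i j hij)
  let b' : Fin (k + 1) → Fin (finrank L W) → L := Fin.cons p fun i => e (b i)
  obtain ⟨q, hq, hqb⟩ := hA.exists_perp (k := k + 1) (by omega) b'
    (fun i => Fin.cases hp (fun i => by simp only [b', Fin.cons_succ, key]; exact hb i) i)
    (fun i j => by
      refine Fin.cases ?_ (fun i => ?_) i <;> refine Fin.cases ?_ (fun j => ?_) j <;> intro hij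
      · exact absurd rfl hij
      · simpa [b'] using (hpb j).1
      · simpa [b'] using (hpb i).2
      · simp only [b', Fin.cons_succ, key]
        exact ho i j fun e' => hij (congrArg Fin.succ e'))
  obtain ⟨s, t, hst⟩ := exists_binary (t := c) h.two hp hq
  have hpp : β (e.symm p) (e.symm p) = hB (RingEquiv.refl L) A p p := by
    rw [← key, e.apply_symm_apply]
  have hqq : β (e.symm q) (e.symm q) = hB (RingEquiv.refl L) A q q := by
    rw [← key, e.apply_symm_apply]
  have hpq : β (e.symm q) (e.symm p) = 0 := by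
    rw [← key, e.apply_symm_apply, e.apply_symm_apply]
    simpa [b'] using (hqb 0).1
  have hpi : ∀ i, β (b i) (e.symm p) = 0 := fun i => by
    rw [h.symm, ← key', (hpb i).1]
  have hqi : ∀ i, β (b i) (e.symm q) = 0 := fun i => by
    rw [h.symm, ← key']
    simpa [b'] using (hqb i.succ).1
  refine ⟨s • e.symm p + t • e.symm q, ?_, fun i => by simp [hpi i, hqi i]⟩
  simp only [map_add, map_smul, LinearMap.add_apply, LinearMap.smul_apply, smul_eq_mul, hpp, hqq,
    hpq, h.symm (e.symm p) (e.symm q)]
  linear_combination hst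

theorem SymSp.exists_aniso [Finite L] (h : SymSp β) (hd : 2 ≤ finrank L W) :
    ∃ x, β x x ≠ 0 := by
  obtain ⟨y, hy, -⟩ := h.exists_perp_value (k := 0) (by omega) Fin.elim0 (fun i => i.elim0)
    (fun i => i.elim0) 1
  exact ⟨y, by rw [hy]; exact one_ne_zero⟩

theorem SymSp.exists_eqPair [Finite L] (h : SymSp β) (hd : 3 ≤ finrank L W) {x : W}
    (hx : β x x ≠ 0) : ∃ y, EqPair β x y := by
  obtain ⟨y, hy, hxy⟩ := h.exists_perp_value (k := 1) (by omega) ![x] (fun i => by simpa using hx)
    (fun i j hij => absurd (Subsingleton.elim i j) hij) (β x x)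
  exact ⟨y, hx, by simpa using hxy 0, hy⟩

/-- A group of similitudes of odd order modulo scalars, normalised by the reflections, is scalar. -/
theorem SymSp.core [Finite L] (h : SymSp β) (hd : 3 ≤ finrank L W) (S : Subgroup (W ≃ₗ[L] W))
    (hsim : ∀ k ∈ S, ∃ c : L, c ≠ 0 ∧ ∀ u v, β (k u) (k v) = c * β u v)
    (hnorm : ∀ x hx, ∀ k ∈ S, brefl β x hx * k * brefl β x hx ∈ S)
    (hodd : ∀ k ∈ S, ∃ j : ℕ, Odd j ∧ ∃ c : L, ∀ v, (k ^ j) v = c • v) :
    ∀ k ∈ S, ∃ c : L, ∀ v, k v = c • v := by
  obtain ⟨e, A, hA, key⟩ := h.exists_coords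
  let ψ : (W ≃ₗ[L] W) →* GL (Fin (finrank L W)) L :=
    { toFun := fun k => GeneralLinearGroup.toLin.symm
        (LinearMap.GeneralLinearGroup.ofLinearEquiv ((e.symm.trans k).trans e))
      map_one' := by
        apply GeneralLinearGroup.toLin.injective
        rw [MulEquiv.apply_symm_apply, map_one]
        refine Units.ext (LinearMap.ext fun v => ?_)
        simp
      map_mul' := fun k k' => by
        apply GeneralLinearGroup.toLin.injective
        rw [map_mul, MulEquiv.apply_symm_apply, MulEquiv.apply_symm_apply, MulEquiv.apply_symm_apply]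
        refine Units.ext (LinearMap.ext fun v => ?_)
        simp [LinearEquiv.mul_apply] }
  have hψ : ∀ k v, (ψ k : Matrix (Fin (finrank L W)) (Fin (finrank L W)) L) *ᵥ e v = e (k v) := by
    intro k v
    show LinearMap.toMatrix' ((e.symm.trans k).trans e).toLinearMap *ᵥ e v = _
    rw [LinearMap.toMatrix'_mulVec]
    simp only [LinearEquiv.coe_coe, LinearEquiv.trans_apply, LinearEquiv.symm_apply_apply]
  intro k hk
  suffices hcore : ∀ m ∈ S.map ψ, ∃ c : L, c ≠ 0 ∧
      (m : Matrix (Fin (finrank L W)) (Fin (finrank L W)) L) = c • 1 by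
    obtain ⟨c, -, hc⟩ := hcore (ψ k) ⟨k, hk, rfl⟩
    refine ⟨c, fun v => e.injective ?_⟩
    rw [← hψ, hc, Matrix.smul_mulVec, one_mulVec, map_smul]
  refine LocalBal.symm_core hA hd (S.map ψ) ?_ ?_ ?_
  · rintro _ ⟨k', hk', rfl⟩
    obtain ⟨μ, hμ, hk''⟩ := hsim k' hk'
    refine ⟨Units.mk0 μ hμ, fun u v => ?_⟩
    obtain ⟨u, rfl⟩ := e.surjective u
    obtain ⟨v, rfl⟩ := e.surjective v
    have h1 : (e (k' u)) ⬝ᵥ A *ᵥ (e (k' v)) = μ * ((e u) ⬝ᵥ A *ᵥ (e v)) :=
      (key (k' u) (k' v)).trans ((hk'' u v).trans (congrArg (μ * ·) (key u v).symm))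
    rw [← hψ, ← hψ] at h1
    exact h1
  · rintro x hx _ ⟨k', hk', rfl⟩
    obtain ⟨w, rfl⟩ := e.surjective x
    have hw : β w w ≠ 0 := by rw [← key]; exact hx
    refine ⟨brefl β w hw * k' * brefl β w hw, hnorm w hw k' hk', ?_⟩
    have e1 : ψ (brefl β w hw) = rGL (e w) (hφ (RingEquiv.refl L) A (e w)) (hφ_self hx) := by
      refine Units.ext (Matrix.ext_iff_mulVec.2 fun v => ?_)
      obtain ⟨v, rfl⟩ := e.surjective v
      rw [hψ, rGL_coe, rMat_mulVec, hφ_dot, key, key, brefl_apply, map_sub, map_smul, h.symm v w,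
        mul_assoc]
    rw [map_mul, map_mul, e1]
  · rintro _ ⟨k', hk', rfl⟩
    obtain ⟨j, hj, c, hc⟩ := hodd k' hk'
    refine ⟨j, hj, c, Matrix.ext_iff_mulVec.2 fun v => ?_⟩
    obtain ⟨v, rfl⟩ := e.surjective v
    rw [← map_pow, hψ, hc, Matrix.smul_mulVec, one_mulVec, map_smul]

/-- A semilinear map fixing every anisotropic line is a scalar. -/
theorem SymSp.scalar_of_lines [Finite L] (h : SymSp β) (hd : 3 ≤ finrank L W) (σ : L ≃+* L)
    (T : W → W) (hadd : ∀ u v, T (u + v) = T u + T v) (hsmul : ∀ c v, T (c • v) = σ c • T v)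
    (hinj : Function.Injective T) (hfix : ∀ x, β x x ≠ 0 → ∃ c : L, T x = c • x) :
    σ = 1 ∧ ∃ c : L, ∀ v, T v = c • v := by
  classical
  obtain ⟨x, hx⟩ := h.exists_aniso (by omega)
  obtain ⟨y, p⟩ := h.exists_eqPair hd hx
  have hli : ∀ s t : L, s • x + t • y = 0 → s = 0 ∧ t = 0 := fun s t e' => by
    have h1 := congrArg (β x) e'
    have h2 := congrArg (β y) e'
    simp [p.perp, hx, h.symm y x, p.eq] at h1 h2
    exact ⟨h1, h2⟩
  obtain ⟨a, ha⟩ := hfix x hx
  obtain ⟨b, hb⟩ := hfix y p.aniso'
  have ha0 : a ≠ 0 := by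
    rintro rfl
    rw [zero_smul] at ha
    have hT0 : T 0 = 0 := by simpa using hadd 0 0
    exact hx (by rw [hinj (ha.trans hT0.symm), map_zero])
  have hgood : ∀ t : L, t ^ 2 + 1 ≠ 0 → σ t * b = a * t := by
    intro t ht
    have hv : β (x + t • y) (x + t • y) ≠ 0 := by
      simp only [map_add, map_smul, LinearMap.add_apply, LinearMap.smul_apply, smul_eq_mul, p.perp,
        h.symm y x, p.eq]
      intro e'
      exact mul_ne_zero hx ht (by linear_combination e')
    obtain ⟨c, hc⟩ := hfix _ hv
    rw [hadd, hsmul, ha, hb, smul_add, smul_smul, smul_smul] at hc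
    obtain ⟨h1, h2⟩ := hli (a - c) (σ t * b - c * t) (by
      rw [sub_smul, sub_smul]
      linear_combination (norm := module) hc)
    rw [sub_eq_zero] at h1 h2
    rw [h2, h1]
  have hab : b = a := by
    have := hgood 1 (by rw [one_pow, one_add_one_eq_two]; exact h.two)
    rwa [map_one, one_mul, mul_one] at this
  have hσ0 : ∀ t : L, t ^ 2 + 1 ≠ 0 → σ t = t := fun t ht => by
    have := hgood t ht
    rw [hab, mul_comm (σ t)] at this
    exact mul_left_cancel₀ ha0 this
  have hσ : σ = 1 := RingEquiv.ext fun t => by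
    show σ t = t
    by_cases ht : t ^ 2 + 1 = 0
    · by_cases ht' : (t + 1) ^ 2 + 1 = 0
      · have h3 : t * (2 : L) = -1 := by linear_combination ht' - ht
        have h4 := congrArg σ h3
        rw [map_mul, map_neg, map_one, map_ofNat] at h4
        exact mul_right_cancel₀ h.two (h4.trans h3.symm)
      · have := hσ0 _ ht'
        rw [map_add, map_one] at this
        exact add_right_cancel this
    · exact hσ0 t ht
  refine ⟨hσ, a, ?_⟩
  -- the linear map has one eigenvalue on anisotropic vectors
  have hlin : ∀ c v, T (c • v) = c • T v := fun c v => by rw [hsmul, hσ]; rfl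
  have hall : ∀ z, β z z ≠ 0 → T z = a • z := by
    intro z hz
    obtain ⟨d, hd'⟩ := hfix z hz
    by_contra hne
    have hda : d ≠ a := fun e' => hne (e' ▸ hd')
    have key : ∀ w, β w w ≠ 0 → T w = a • w → β w z = 0 ∧ β w w = -β z z := by
      intro w hw hTw
      have hiso : ∀ t : L, t ≠ 0 → β (w + t • z) (w + t • z) = 0 := by
        intro t ht
        by_contra hv
        obtain ⟨c, hc⟩ := hfix _ hv
        rw [hadd, hlin, hTw, hd', smul_add, smul_smul, smul_smul] at hc
        have h1 : (a - c) • w = (t * (c - d)) • z := by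
          linear_combination (norm := module) hc
        by_cases hac : a - c = 0
        · rw [hac, zero_smul, eq_comm, smul_eq_zero] at h1
          rcases h1 with h1 | h1
          · exact hda ((sub_eq_zero.1 ((mul_eq_zero.1 h1).resolve_left ht)).symm.trans
              (sub_eq_zero.1 hac).symm)
          · exact hz (by rw [h1, map_zero])
        · have h2 : w = ((a - c)⁻¹ * (t * (c - d))) • z := by
            rw [← smul_smul, ← h1, smul_smul, inv_mul_cancel₀ hac, one_smul]
          rw [h2, hlin, hd', smul_smul, smul_smul] at hTw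
          have h3 := congrArg (β z) hTw
          simp only [map_smul, smul_eq_mul] at h3
          have h4 : (a - c)⁻¹ * (t * (c - d)) ≠ 0 := fun e' => hw (by
            rw [h2, e', zero_smul, map_zero])
          refine mul_ne_zero (mul_ne_zero h4 (sub_ne_zero.2 hda)) hz ?_
          linear_combination h3
      have e1 := hiso 1 one_ne_zero
      have e2 := hiso (-1) (neg_ne_zero.2 one_ne_zero)
      simp only [map_add, map_smul, LinearMap.add_apply, LinearMap.smul_apply, smul_eq_mul,
        h.symm z w] at e1 e2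
      have h22 : (2 : L) * 2 ≠ 0 := mul_ne_zero h.two h.two
      refine ⟨?_, ?_⟩
      · refine (mul_eq_zero.1 (show (2 * 2 : L) * β w z = 0 by linear_combination e1 - e2)).resolve_left
          h22
      · have h5 := (mul_eq_zero.1 (show (2 : L) * (β w w + β z z) = 0 by
          linear_combination e1 + e2)).resolve_left h.two
        linear_combination h5
    obtain ⟨-, k1⟩ := key x hx ha
    have hv : β (x + y) (x + y) ≠ 0 := by
      simp only [map_add, LinearMap.add_apply, p.perp, h.symm y x, p.eq]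
      intro e'
      exact mul_ne_zero h.two hx (by linear_combination e')
    obtain ⟨-, k2⟩ := key (x + y) hv (by rw [hadd, ha, hb, hab, smul_add])
    simp only [map_add, LinearMap.add_apply, p.perp, h.symm y x, p.eq] at k2
    exact hx (by linear_combination k2 - k1)
  intro v
  by_cases hv : β v v = 0
  · -- an isotropic vector is the difference of two anisotropic ones
    obtain ⟨w, hw, hvw⟩ : ∃ w, β w w ≠ 0 ∧ β (v + w) (v + w) ≠ 0 := by
      by_cases hxv : β (v + x) (v + x) = 0
      · refine ⟨-x, by simpa using hx, fun e' => ?_⟩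
        simp only [map_add, map_neg, LinearMap.add_apply, LinearMap.neg_apply, hv, h.symm x v]
          at hxv e'
        exact mul_ne_zero h.two hx (by linear_combination hxv + e')
      · exact ⟨x, hx, hxv⟩
    have := hall _ hvw
    rw [hadd, hall w hw, smul_add] at this
    exact add_right_cancel this
  · exact hall v hv

end Cfsg.Agent.OutPO
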