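import Mathlib
import Cfsg.Agent.OutPO.MinusOut
import Cfsg.Agent.OutPO.MinusField
import Cfsg.Agent.OutPO.SymSpace
import Cfsg.Agent.LocalBal.Core

/-!
`O(C(x))` is trivial for an involution `x` outside the inner-diagonal group of `PΩ⁻` in odd
characteristic: generalities and the two shapes of such involutions.
-/

set_option autoImplicit false
set_option linter.unusedSectionVars false
set_option maxHeartbeats 1000000
set_option synthInstance.maxHeartbeats 400000

namespace Cfsg.Agent.OutPO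

open Matrix QuadraticMap
open Cfsg.Agent.AutPO (Semi semiAutM)
open Cfsg.Agent.Classical (simAut minusQF minusQF_apply binQF minusCoord)
open Cfsg.Agent.Forms25 (TotSing)

universe u

variable {F : Type u} [Field F] {k : ℕ} {a b : F}

/-- The polar form of the minus-type form. -/
noncomputable def bilM (k : ℕ) (a b : F) : (MIx k → F) →ₗ[F] (MIx k → F) →ₗ[F] F :=
  QuadraticMap.polarBilin (minusQF (k + 3) a b)

theorem bilM_apply (u v : MIx k → F) :
    bilM k a b u v = polar (minusQF (k + 3) a b) u v := rfl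

theorem bilM_self (u : MIx k → F) :
    bilM k a b u u = 2 * Cfsg.quadFormMinus (k + 3) F a b u := by
  rw [bilM_apply, polar_self, minusQF_apply, two_smul, two_mul]

/-- A map preserving the polar form is an isometry. -/
noncomputable def isoOf (h2 : (2 : F) ≠ 0) (T : (MIx k → F) ≃ₗ[F] (MIx k → F))
    (hT : ∀ u v, bilM k a b (T u) (T v) = bilM k a b u v) :
    ↥(Cfsg.isometryGroup F (Cfsg.quadFormMinus (k + 3) F a b)) :=
  ⟨glOf T, Classical.mem_isoGroup.2 fun v => by
    have h := hT v v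
    rw [bilM_self, bilM_self] at h
    rw [glOf_mulVec]
    exact mul_left_cancel₀ h2 h⟩

theorem isoOf_mulVec (h2 : (2 : F) ≠ 0) (T : (MIx k → F) ≃ₗ[F] (MIx k → F))
    (hT : ∀ u v, bilM k a b (T u) (T v) = bilM k a b u v) (v : MIx k → F) :
    ((isoInc (isoOf h2 T hT)).1 : Matrix (MIx k) (MIx k) F) *ᵥ v = T v :=
  glOf_mulVec T v

variable [Finite F]

theorem symSp_bilM (hA : (binQF a b).Anisotropic) (h2 : (2 : F) ≠ 0) : SymSp (bilM k a b) where
  symm u v := polar_comm _ u v
  nd u hu := (minusCoord k hA).bNondeg_Qf u hu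
  two := h2

/-- A linear isometry squares into `Ω`. -/
theorem sq_mem_omega (hA : (binQF a b).Anisotropic) (hodd : Odd (Nat.card F))
    (o : ↥(Cfsg.isometryGroup F (Cfsg.quadFormMinus (k + 3) F a b))) :
    o * o ∈ Cfsg.Omega F (Cfsg.quadFormMinus (k + 3) F a b) := by
  refine ((minusCoord k hA).omega_iff hodd _).2 ⟨?_, ?_⟩
  · have hd := (minusCoord k hA).dsign_cases (Classical.card_minus k) (isoInc o)
    rw [show (minusCoord k hA).dsign (k + 4) (isoInc o) = GeneralLinearGroup.det o.1 from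
      (minusCoord k hA).dsign_inc o] at hd
    rw [Subgroup.coe_mul, map_mul]
    rcases hd with h | h <;> rw [h] <;> simp
  · rw [map_mul, Int.units_mul_self]

/-- The involutions of `Ω` fixing `g`. -/
def omInvol (g : ↥(GOm k a b)) : Set ↥(Cfsg.isometryGroup F (Cfsg.quadFormMinus (k + 3) F a b)) :=
  {t | t ∈ Cfsg.Omega F (Cfsg.quadFormMinus (k + 3) F a b) ∧ t * t = 1 ∧
    isoInc t * g = g * isoInc t}

/-- Odd groups of similarities commuting with `g` and normalised by the isometries commuting with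
`g` consist of scalars. -/
def CoreScalar (g : ↥(GOm k a b)) : Prop :=
  ∀ S : Subgroup ↥(GOm k a b), (∀ s ∈ S, s * g = g * s) →
    (∀ o, isoInc o * g = g * isoInc o → ∀ s ∈ S, isoInc o * s * (isoInc o)⁻¹ ∈ S) →
    (∀ s ∈ S, ∃ j : ℕ, Odd j ∧ (s ^ j).1 ∈ Cfsg.Geo.scalars (MIx k) F) →
    ∀ s ∈ S, s.1 ∈ Cfsg.Geo.scalars (MIx k) F

/-- A semisimilarity commuting with `g` up to a scalar and with the involutions of `Ω` fixing `g`
is a scalar or a multiple of `g`. -/
def Rigid (g : ↥(GOm k a b)) : Prop :=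
  ∀ T : Semi (minusQF (k + 3) a b),
    (∃ c : F, ∀ v, T.L ((g.1 : Matrix (MIx k) (MIx k) F) *ᵥ v) =
      c • ((g.1 : Matrix (MIx k) (MIx k) F) *ᵥ T.L v)) →
    (∀ t ∈ omInvol g, ∀ v, T.L (((isoInc t).1 : Matrix (MIx k) (MIx k) F) *ᵥ v) =
      ((isoInc t).1 : Matrix (MIx k) (MIx k) F) *ᵥ T.L v) →
    semiAutM (minusQF (k + 3) a b) (minusQF_apply _ a b) T = 1 ∨
      semiAutM (minusQF (k + 3) a b) (minusQF_apply _ a b) T = simAut g

variable {K : Type u} [Field K] [Algebra F K] {ω : K}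

theorem scalar_comm_GOm (g : ↥(GOm k a b)) {z : ↥(GOm k a b)}
    (hz : z.1 ∈ Cfsg.Geo.scalars (MIx k) F) : z * g = g * z := by
  obtain ⟨c, hc⟩ := hz
  refine Subtype.ext (gl_ext fun v => ?_)
  rw [Subgroup.coe_mul, Subgroup.coe_mul, Units.val_mul, Units.val_mul, ← Matrix.mulVec_mulVec,
    ← Matrix.mulVec_mulVec, ← hc]
  show Matrix.scalar (MIx k) (c : F) *ᵥ _ = _ *ᵥ (Matrix.scalar (MIx k) (c : F) *ᵥ v)
  rw [Matrix.scalar_apply, ← smul_one_eq_diagonal, Matrix.smul_mulVec, one_mulVec,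
    Matrix.smul_mulVec, one_mulVec, Matrix.mulVec_smul]

/-- Commuting in the automorphism group means commuting up to sign. -/
theorem comm_up_to_sign (E : QExt a b ω) {g : ↥(GOm k a b)} {lam : Fˣ}
    (hsq : g * g = (minusCoord k E.aniso).scal lam) {d : ↥(GOm k a b)}
    (h : simAut d * simAut g = simAut g * simAut d) :
    ∃ c : Fˣ, c * c = 1 ∧ d * g = (minusCoord k E.aniso).scal c * g * d := by
  set D := minusCoord k E.aniso with hD
  have h1 : simAut ((d * g) * (g * d)⁻¹) = 1 := by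
    rw [simAut_mul (d * g) (g * d)⁻¹, simAut_inv (g * d), simAut_mul d g, simAut_mul g d, h,
      mul_inv_cancel]
  obtain ⟨c, hc⟩ := (D.simAut_eq_one_iff_scal _).1 h1
  have hdg : d * g = D.scal c * (g * d) := by rw [hc, inv_mul_cancel_right]
  refine ⟨c, scal_injective_m (k := k) E ?_, by rw [hdg, mul_assoc]⟩
  show D.scal (c * c) = D.scal 1
  have hmul : ∀ x y, D.scal x * D.scal y = D.scal (x * y) := fun x y =>
    Subtype.ext (map_mul (GeneralLinearGroup.scalar (MIx k)) x y).symm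
  have hone : D.scal 1 = 1 := Subtype.ext (map_one _)
  have hcomm : ∀ x (y : ↥(GOm k a b)), D.scal x * y = y * D.scal x :=
    fun x y => scalar_comm_GOm y (D.scal_mem x)
  have h2 : d * (g * g) = D.scal (c * c) * (g * g) * d := by
    rw [← mul_assoc, hdg, mul_assoc, mul_assoc g d, hdg, ← mul_assoc g, ← hcomm c g, ← hmul]
    simp only [mul_assoc]
  rw [hsq, ← hcomm lam d, mul_assoc (D.scal (c * c))] at h2
  rw [hone]
  exact (right_eq_mul.1 h2)

theorem ne_scalar_of_chi (E : QExt a b ω) {g : ↥(GOm k a b)} (hg : chi E g ≠ 1) :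
    g.1 ∉ Cfsg.Geo.scalars (MIx k) F := fun h => hg (chi_scalar E g h)

/-- The multiplier of an involutory outer similarity equals its square. -/
theorem mu_eq_of_chi (E : QExt a b ω) (hodd : Odd (Nat.card F)) {g : ↥(GOm k a b)} {lam : Fˣ}
    (hsq : g * g = (minusCoord k E.aniso).scal lam) (hg : chi E g ≠ 1) :
    (minusCoord k E.aniso).mu g = lam := by
  set D := minusCoord k E.aniso with hD
  have h1 : D.mu g * D.mu g = lam * lam := by rw [← map_mul, hsq, D.mu_scal]
  rcases mul_self_eq_mul_self_iff.1 (congrArg Units.val h1) with h2 | h2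
  · exact Units.ext h2
  exfalso
  refine hg ((chi_eq_one_iff E g).2 ?_)
  haveI := E.finite
  haveI := Fintype.ofFinite F
  haveI := Fintype.ofFinite K
  have h2F := Classical.two_ne_zero_of_odd hodd
  have h2K : (2 : K) ≠ 0 := by
    rw [← map_ofNat (algebraMap F K) 2]; exact (map_ne_zero _).2 h2F
  obtain ⟨θ, hθ⟩ := Forms.exists_root_quadratic_extension (F := F) (K := K) (q := Fintype.card F)
    (by
      haveI : FiniteDimensional F K := Module.finite_of_finrank_eq_succ E.dim
      rw [Module.card_eq_pow_finrank (K := F), E.dim]) rfl 0 (-(lam : F))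
  rw [map_zero, zero_mul, add_zero, map_neg, ← sub_eq_add_neg, sub_eq_zero] at hθ
  have hθ0 : θ ≠ 0 := fun h => (map_ne_zero (algebraMap F K)).2 lam.ne_zero (by rw [← hθ, h]; simp)
  set G := mapK K g with hG
  have hGG : ∀ v, G (G v) = θ ^ 2 • v := fun v => by
    rw [hθ, hG, mapK_apply, mapK_apply, Matrix.mulVec_mulVec, ← Matrix.map_mul, ← Units.val_mul,
      ← Subgroup.coe_mul, hsq]
    show ((GeneralLinearGroup.scalar (MIx k) lam : GL (MIx k) F) :
      Matrix (MIx k) (MIx k) F).map (algebraMap F K) *ᵥ v = _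
    rw [show ((GeneralLinearGroup.scalar (MIx k) lam : GL (MIx k) F) : Matrix (MIx k) (MIx k) F) =
        Matrix.diagonal fun _ => (lam : F) from rfl, Matrix.diagonal_map (map_zero _)]
    funext i
    rw [Matrix.mulVec_diagonal]
    rfl
  have hq : ∀ v, formK K k a b (G v) = -(θ ^ 2) * formK K k a b v := by
    have hc : (formK K k a b).comp G.toLinearMap = (-(θ ^ 2)) • formK K k a b :=
      qf_ext_rational (algebraMap F K) fun w => by
        rw [QuadraticMap.comp_apply, QuadraticMap.smul_apply, LinearEquiv.coe_coe, hG, mapK_incV,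
          formK_incV, formK_incV, D.f_mulVec, map_mul, h2, map_neg, ← hθ, smul_eq_mul]
    intro v
    exact DFunLike.congr_fun hc v
  let U : K → Submodule K (MIx k → K) := fun t => LinearMap.ker (G.toLinearMap - t • LinearMap.id)
  have hmem : ∀ t v, v ∈ U t ↔ G v = t • v := fun t v => by
    simp [U, LinearMap.mem_ker, sub_eq_zero]
  have hts : ∀ t, t ^ 2 = θ ^ 2 → TotSing (formK K k a b) (U t) := by
    intro t ht v hv
    have h3 := hq v
    rw [(hmem t v).1 hv, QuadraticMap.map_smul, smul_eq_mul, ← pow_two, ht] at h3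
    have h4 : (2 * θ ^ 2) * formK K k a b v = 0 := by linear_combination h3
    exact (mul_eq_zero.1 h4).resolve_left (mul_ne_zero h2K (pow_ne_zero _ hθ0))
  have hsup : U θ ⊔ U (-θ) = ⊤ := by
    refine eq_top_iff.2 fun v _ => ?_
    have hv : v = (2 : K)⁻¹ • (v + θ⁻¹ • G v) + (2 : K)⁻¹ • (v - θ⁻¹ • G v) := by
      match_scalars <;> field_simp <;> ring
    rw [hv]
    refine Submodule.add_mem_sup (Submodule.smul_mem _ _ ((hmem θ _).2 ?_))
      (Submodule.smul_mem _ _ ((hmem (-θ) _).2 ?_))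
    · rw [map_add, map_smul, hGG]
      match_scalars <;> field_simp
    · rw [map_sub, map_smul, hGG]
      match_scalars <;> field_simp
  have hT := hts θ rfl
  have hdim : Module.finrank K ↥(U θ) = k + 4 := by
    have hH := hyp_formK (k := k) E
    have a1 := hT.two_mul_le hH.nd
    have a2 := (hts (-θ) (neg_sq θ)).two_mul_le hH.nd
    have a3 := Submodule.finrank_add_le_finrank_add_finrank (U θ) (U (-θ))
    have a4 := hH.dim
    rw [hsup, finrank_top] at a3
    omega
  obtain ⟨μ, -, hμ⟩ := mapK_form (K := K) g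
  rw [linPar_base (hyp_formK E) (totSing_baseU E) (finrank_baseU E) hT hdim hμ]
  refine linPar_of_fix hdim fun v hv => ?_
  rw [show mapK K g v = θ • v from (hmem θ v).1 hv]
  exact Submodule.smul_mem _ _ hv

theorem selfAdjoint (E : QExt a b ω) {g : ↥(GOm k a b)} {lam : Fˣ}
    (hsq : g * g = (minusCoord k E.aniso).scal lam) (hmu : (minusCoord k E.aniso).mu g = lam)
    (u v : MIx k → F) :
    bilM k a b ((g.1 : Matrix (MIx k) (MIx k) F) *ᵥ u) v =
      bilM k a b u ((g.1 : Matrix (MIx k) (MIx k) F) *ᵥ v) := by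
  set D := minusCoord k E.aniso
  have hsim : ∀ x y, bilM k a b ((g.1 : Matrix (MIx k) (MIx k) F) *ᵥ x)
      ((g.1 : Matrix (MIx k) (MIx k) F) *ᵥ y) = (lam : F) * bilM k a b x y := fun x y => by
    simp only [bilM_apply, polar, minusQF_apply, ← Matrix.mulVec_add, D.f_mulVec, hmu]
    ring
  have hgg : (g.1 : Matrix (MIx k) (MIx k) F) *ᵥ ((g.1 : Matrix (MIx k) (MIx k) F) *ᵥ v) =
      (lam : F) • v := by
    rw [Matrix.mulVec_mulVec, ← Units.val_mul, ← Subgroup.coe_mul, hsq]
    exact scalar_mulVec_m lam v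
  apply mul_left_cancel₀ lam.ne_zero
  rw [← hsim u, hgg, map_smul, smul_eq_mul]

theorem simAut_comm {s t : ↥(GOm k a b)} (h : s * t = t * s) : simAut s * simAut t = simAut t * simAut s :=
  (simAut_mul s t).symm.trans ((congrArg (simAut (f := Cfsg.quadFormMinus (k + 3) F a b)) h).trans
    (simAut_mul t s))

theorem simAut_isoInc_mem_inn {t : ↥(Cfsg.isometryGroup F (Cfsg.quadFormMinus (k + 3) F a b))}
    (ht : t ∈ Cfsg.Omega F (Cfsg.quadFormMinus (k + 3) F a b)) :
    simAut (isoInc t) ∈ Cfsg.Inn (Cfsg.POmega F (Cfsg.quadFormMinus (k + 3) F a b)) := by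
  rw [Classical.inn_eq]
  exact Subgroup.mem_map_of_mem _ (Subgroup.mem_map_of_mem _ ht)

set_option maxHeartbeats 4000000 in
/-- The assembly: core scalarity and rigidity give a trivial core. -/
theorem core_of_rigid (E : QExt a b ω) (hodd : Odd (Nat.card F)) {g : ↥(GOm k a b)} {lam : Fˣ}
    (hsq : g * g = (minusCoord k E.aniso).scal lam) (h1 : CoreScalar g) (h2 : Rigid g)
    (B : Subgroup (MulAut (Cfsg.POmega F (Cfsg.quadFormMinus (k + 3) F a b))))
    (hinn : Cfsg.Inn (Cfsg.POmega F (Cfsg.quadFormMinus (k + 3) F a b)) ≤ B) :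
    Cfsg.pPrimeCore 2 ↥(B ⊓ Subgroup.centralizer {simAut g}) = ⊥ := by
  classical
  haveI : Finite (Cfsg.POmega F (Cfsg.quadFormMinus (k + 3) F a b)) := inferInstance
  haveI := AutPSL.inn_normal (Cfsg.POmega F (Cfsg.quadFormMinus (k + 3) F a b))
  set D := minusCoord k E.aniso with hD
  set x : MulAut (Cfsg.POmega F (Cfsg.quadFormMinus (k + 3) F a b)) := simAut g with hx
  set C := Cfsg.Inn (Cfsg.POmega F (Cfsg.quadFormMinus (k + 3) F a b)) ⊓ Subgroup.centralizer {x}
    with hC
  set P : Subgroup (MulAut (Cfsg.POmega F (Cfsg.quadFormMinus (k + 3) F a b))) :=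
    (simAut (f := Cfsg.quadFormMinus (k + 3) F a b)).range ⊓ Subgroup.centralizer {x} with hP
  have hCP : C ≤ P := by
    refine inf_le_inf ?_ le_rfl
    rw [Classical.inn_eq]
    exact Subgroup.map_le_range _ _
  have hPC : ∀ d ∈ P, ∀ c ∈ C, d * c * d⁻¹ ∈ C := fun d hd c hc =>
    LocalBal.inn_cent_normalized x ⊤ ⟨Subgroup.mem_top _, hd.2⟩ hc
  have hPn : LocalBal.NoPPrime 2 P := by
    intro M hMP hMn hM
    have hMo : ∀ m ∈ M, Odd (orderOf m) := fun m hm => by
      rw [Nat.odd_iff]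
      by_contra hne
      refine hM ((show 2 ∣ orderOf m by omega).trans ?_)
      rw [← Nat.card_zpowers]
      exact Subgroup.card_dvd_of_le (Subgroup.zpowers_le.2 hm)
    let S : Subgroup ↥(GOm k a b) :=
      M.comap (simAut (f := Cfsg.quadFormMinus (k + 3) F a b))
    have hpow : ∀ s ∈ S, ∃ j : ℕ, Odd j ∧ (s ^ j).1 ∈ Cfsg.Geo.scalars (MIx k) F := fun s hs =>
      ⟨_, hMo _ hs, (simAut_ker_iff E _).1 (by
        rw [MonoidHom.map_pow, pow_orderOf_eq_one])⟩
    have hcomm : ∀ s ∈ S, s * g = g * s := by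
      intro s hs
      obtain ⟨c, hc2, hc0⟩ := comm_up_to_sign E hsq
        (Subgroup.mem_centralizer_singleton_iff.1 (hMP hs).2)
      have hc : s * g = D.scal c * g * s := hc0
      have hiter : ∀ j : ℕ, s ^ j * g = (D.scal c) ^ j * g * s ^ j := by
        intro j
        induction j with
        | zero => simp
        | succ j ih =>
          calc s ^ (j + 1) * g = s ^ j * (s * g) := by rw [pow_succ, mul_assoc]
            _ = s ^ j * D.scal c * g * s := by rw [hc]; simp only [mul_assoc]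
            _ = D.scal c * (s ^ j * g) * s := by
              rw [← scalar_comm_GOm (s ^ j) (D.scal_mem c)]; simp only [mul_assoc]
            _ = _ := by rw [ih, pow_succ' (D.scal c), pow_succ s]; simp only [mul_assoc]
      obtain ⟨j, hj, hsj⟩ := hpow s hs
      have h3 := hiter j
      rw [scalar_comm_GOm g hsj, eq_comm, mul_left_inj, mul_eq_right] at h3
      obtain ⟨i, rfl⟩ := hj
      have hone : D.scal 1 = 1 := Subtype.ext (map_one _)
      have hsc : D.scal c * D.scal c = 1 := by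
        rw [show D.scal c * D.scal c = D.scal (c * c) from
          Subtype.ext (map_mul (GeneralLinearGroup.scalar (MIx k)) c c).symm, hc2, hone]
      rw [pow_succ, pow_mul, pow_two, hsc, one_pow, one_mul] at h3
      rw [hc, h3, one_mul]
    have hS := h1 S hcomm (fun o ho s hs => ?_) hpow
    · refine (Subgroup.eq_bot_iff_forall _).2 fun m hm => ?_
      obtain ⟨s, rfl⟩ := (hMP hm).1
      exact Classical.simAut_eq_one_of_scalar _ (hS s hm)
    · show simAut _ ∈ M
      rw [simAut_mul (isoInc o * s) (isoInc o)⁻¹, simAut_mul (isoInc o) s, simAut_inv (isoInc o)]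
      refine hMn _ ⟨⟨_, rfl⟩, Subgroup.mem_centralizer_singleton_iff.2 ?_⟩ _ hs
      rw [hx, ← simAut_mul, ← simAut_mul, ho]
  refine LocalBal.core_eq_bot (C := C) (L := C) le_rfl (inf_le_inf hinn le_rfl)
    (fun h hh c hc => LocalBal.inn_cent_normalized x B hh hc)
    (fun c hc l hl => C.mul_mem (C.mul_mem hc hl) (C.inv_mem hc))
    (LocalBal.noPPrime_of_normal hCP hPC hPn) fun α hα hcomm hord => ?_
  -- rigidity
  obtain ⟨T, -, -, hT, -, -⟩ := AutPO.exists_induced (minusQF (k + 3) a b) (minusQF_apply _ a b)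
    (AutPO.good_minus E.aniso (by omega)) (AutPO.minusFrame _ E.aniso) (by omega) α
  have hTcomm : ∀ t : ↥(GOm k a b), Commute α (simAut t) → ∃ c : F,
      ∀ v, T.L ((t.1 : Matrix (MIx k) (MIx k) F) *ᵥ v) =
        c • ((t.1 : Matrix (MIx k) (MIx k) F) *ᵥ T.L v) := by
    intro t ht
    have h3 := semiAutM_mul_simAut (minusQF (k + 3) a b) (minusQF_apply _ a b) T t
    rw [← hT, ht.eq, mul_left_inj] at h3
    obtain ⟨c, hc⟩ := (D.simAut_eq_one_iff_scal
      (semiConj (minusQF (k + 3) a b) (minusQF_apply _ a b) T t * t⁻¹)).1 (by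
        rw [simAut_mul _ t⁻¹, simAut_inv t, ← h3, mul_inv_cancel])
    refine ⟨(c : F), fun v => ?_⟩
    rw [← semiConj_spec (minusQF (k + 3) a b) (minusQF_apply _ a b) T t,
      show semiConj (minusQF (k + 3) a b) (minusQF_apply _ a b) T t = D.scal c * t by
        rw [hc, inv_mul_cancel_right],
      Subgroup.coe_mul, Units.val_mul, ← Matrix.mulVec_mulVec]
    exact scalar_mulVec_m c _
  set T2 := semiComp T T with hT2
  have hT2aut : semiAutM (minusQF (k + 3) a b) (minusQF_apply _ a b) T2 = α * α := by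
    rw [hT2, semiAutM_comp, hT]
  obtain ⟨cg, hcg⟩ := hTcomm g (Subgroup.mem_centralizer_singleton_iff.1 hα.2)
  have hTt : ∀ t ∈ omInvol g, ∀ v, T2.L (((isoInc t).1 : Matrix (MIx k) (MIx k) F) *ᵥ v) =
      ((isoInc t).1 : Matrix (MIx k) (MIx k) F) *ᵥ T2.L v := by
    rintro t ⟨htΩ, ht2, htg⟩ v
    have ht3 : Commute α (simAut (isoInc t)) := hcomm _ (Subgroup.mem_inf.2
      ⟨simAut_isoInc_mem_inn htΩ, Subgroup.mem_centralizer_singleton_iff.2 (simAut_comm htg)⟩)
    obtain ⟨c, hc⟩ := hTcomm (isoInc t) ht3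
    have htt : ∀ w, ((isoInc t).1 : Matrix (MIx k) (MIx k) F) *ᵥ
        (((isoInc t).1 : Matrix (MIx k) (MIx k) F) *ᵥ w) = w := fun w => by
      rw [Matrix.mulVec_mulVec, ← Units.val_mul, ← Subgroup.coe_mul, ← map_mul, ht2, map_one,
        OneMemClass.coe_one, Units.val_one, one_mulVec]
    have hcc : c * c = 1 := by
      set e₀ : MIx k → F := Classical.binVec ![1, 0]
      have h4 := hc (((isoInc t).1 : Matrix (MIx k) (MIx k) F) *ᵥ e₀)
      rw [htt, hc, Matrix.mulVec_smul, smul_smul, htt] at h4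
      have hne : T.L e₀ ≠ 0 := by
        rw [ne_eq, map_eq_zero_iff _ T.L.injective]
        intro h0
        have := congrFun h0 (.inr 0)
        simp [e₀, Classical.binVec] at this
      have h5 : (c * c - 1) • T.L e₀ = 0 := by rw [sub_smul, one_smul, ← h4, sub_self]
      exact sub_eq_zero.1 ((smul_eq_zero.1 h5).resolve_right hne)
    have hσc : T.σ c * c = 1 := by
      rcases mul_self_eq_one_iff.1 hcc with rfl | rfl <;> simp
    show T.L (T.L _) = _ *ᵥ T.L (T.L v)
    rw [hc, T.smul, hc, smul_smul, hσc, one_smul]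
  have hT2g : ∀ v, T2.L ((g.1 : Matrix (MIx k) (MIx k) F) *ᵥ v) =
      (T.σ cg * cg) • ((g.1 : Matrix (MIx k) (MIx k) F) *ᵥ T2.L v) := fun v => by
    show T.L (T.L _) = _ • (_ *ᵥ T.L (T.L v))
    rw [hcg, T.smul, hcg, smul_smul]
  have hx2 : x * x = 1 := by
    rw [hx, ← simAut_mul, hsq, D.simAut_scal]
  have h4 : (α * α) * (α * α) = 1 := by
    rcases h2 T2 ⟨_, hT2g⟩ hTt with h | h <;> rw [hT2aut] at h <;> rw [h]
    · exact one_mul 1
    · exact hx2
  have h5 : orderOf α ∣ 4 := orderOf_dvd_of_pow_eq_one (by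
    rw [show (4 : ℕ) = 2 * 2 from rfl, pow_mul, pow_two, pow_two]; exact h4)
  have h6 : orderOf α ∣ 1 := by
    have hcop : Nat.Coprime (orderOf α) 4 := by
      rw [show (4 : ℕ) = 2 ^ 2 by norm_num]
      exact Nat.Coprime.pow_right _ ((Nat.prime_two.coprime_iff_not_dvd.2 hord).symm)
    rw [← hcop]
    exact Nat.dvd_gcd dvd_rfl h5
  exact orderOf_eq_one_iff.1 (Nat.dvd_one.1 h6)

end Cfsg.Agent.OutPO
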