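import Mathlib
import Cfsg.Agent.OutPO.MinusInvol

/-!
Outer involutions of `PΩ⁻` lifting to an involutory isometry: the two eigenspaces.
-/

set_option autoImplicit false
set_option linter.unusedSectionVars false
set_option maxHeartbeats 1000000
set_option synthInstance.maxHeartbeats 400000

namespace Cfsg.Agent.OutPO

open Matrix QuadraticMap Module
open Cfsg.Agent.AutPO (Semi semiAutM)
open Cfsg.Agent.Classical (simAut minusQF minusQF_apply binQF minusCoord)

universe u v

section Generic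

variable {L : Type u} [Field L] {V : Type v} [AddCommGroup V] [Module L V]
  {β : V →ₗ[L] V →ₗ[L] L}

/-- The restriction of a form to a subspace. -/
def rform (β : V →ₗ[L] V →ₗ[L] L) (W : Submodule L V) : ↥W →ₗ[L] ↥W →ₗ[L] L :=
  β.compl₁₂ W.subtype W.subtype

theorem rform_apply (W : Submodule L V) (x y : ↥W) : rform β W x y = β (x : V) (y : V) := rfl

/-- A self-adjoint involution. -/
structure SAInvol (β : V →ₗ[L] V →ₗ[L] L) (G : V →ₗ[L] V) : Prop where
  invol : ∀ v, G (G v) = v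
  adj : ∀ u v, β (G u) v = β u (G v)

/-- The eigenspace. -/
def eig (G : V →ₗ[L] V) (ε : L) : Submodule L V := LinearMap.ker (G - ε • LinearMap.id)

theorem mem_eig {G : V →ₗ[L] V} {ε : L} {v : V} : v ∈ eig G ε ↔ G v = ε • v := by
  simp [eig, LinearMap.mem_ker, sub_eq_zero]

variable {G : V →ₗ[L] V}

theorem SAInvol.orth (i : SAInvol β G) (h : SymSp β) {u w : V} (hu : u ∈ eig G 1)
    (hw : w ∈ eig G (-1)) : β u w = 0 := by
  have e := i.adj u w
  rw [mem_eig.1 hu, mem_eig.1 hw, one_smul, neg_one_smul, map_neg] at e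
  exact (mul_eq_zero.1 (show (2 : L) * β u w = 0 by linear_combination e)).resolve_left h.two

theorem SAInvol.parts (i : SAInvol β G) (h : SymSp β) (v : V) :
    ∃ u w, u ∈ eig G 1 ∧ w ∈ eig G (-1) ∧ v = u + w := by
  refine ⟨(2 : L)⁻¹ • (v + G v), (2 : L)⁻¹ • (v - G v), mem_eig.2 ?_, mem_eig.2 ?_, ?_⟩
  · rw [map_smul, map_add, i.invol, one_smul, add_comm]
  · rw [map_smul, map_sub, i.invol, neg_one_smul, ← smul_neg, neg_sub]
  · have := h.two
    match_scalars <;> field_simp <;> ring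

theorem SAInvol.isCompl (i : SAInvol β G) (h : SymSp β) : IsCompl (eig G 1) (eig G (-1)) := by
  refine IsCompl.of_eq (eq_bot_iff.2 fun v hv => ?_) (eq_top_iff.2 fun v _ => ?_)
  · have e := (mem_eig.1 hv.1).symm.trans (mem_eig.1 hv.2)
    rw [one_smul, neg_one_smul] at e
    have e' : (2 : L) • v = 0 := by
      rw [two_smul]
      nth_rewrite 2 [e]
      exact add_neg_cancel v
    exact (smul_eq_zero.1 e').resolve_left h.two
  · obtain ⟨u, w, hu, hw, rfl⟩ := i.parts h v
    exact Submodule.add_mem_sup hu hw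

theorem SAInvol.symSp (i : SAInvol β G) (h : SymSp β) {ε : L} (hε : ε = 1 ∨ ε = -1) :
    SymSp (rform β (eig G ε)) where
  symm x y := h.symm _ _
  two := h.two
  nd x hx := Subtype.ext (h.nd _ fun y => by
    obtain ⟨u, w, hu, hw, rfl⟩ := i.parts h y
    rw [map_add]
    rcases hε with rfl | rfl
    · rw [i.orth h x.2 hw, show β (x : V) u = 0 from hx ⟨u, hu⟩, add_zero]
    · rw [show β (x : V) u = 0 from (h.symm _ _).trans (i.orth h hu x.2),
        show β (x : V) w = 0 from hx ⟨w, hw⟩, add_zero])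

/-- A reflection in an eigenvector commutes with the involution. -/
theorem SAInvol.brefl_comm (i : SAInvol β G) {x : V} {ε : L} (hx : G x = ε • x)
    (hx0 : β x x ≠ 0) (v : V) : G (brefl β x hx0 v) = brefl β x hx0 (G v) := by
  rw [brefl_apply, brefl_apply, map_sub, map_smul, hx, ← i.adj, hx, map_smul,
    LinearMap.smul_apply, smul_eq_mul, smul_smul]
  congr 2
  ring

variable [FiniteDimensional L V]

theorem SAInvol.finrank_add (i : SAInvol β G) (h : SymSp β) :
    finrank L ↥(eig G 1) + finrank L ↥(eig G (-1)) = finrank L V :=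
  Submodule.finrank_add_eq_of_isCompl (i.isCompl h)

theorem SAInvol.det_eq (i : SAInvol β G) (h : SymSp β) :
    LinearMap.det G = (-1 : L) ^ finrank L ↥(eig G (-1)) := by
  set e := Submodule.prodEquivOfIsCompl _ _ (i.isCompl h)
  have hG : G = e.toLinearMap ∘ₗ (LinearMap.id.prodMap
      ((-1 : L) • (LinearMap.id : ↥(eig G (-1)) →ₗ[L] _))) ∘ₗ e.symm.toLinearMap := by
    refine LinearMap.ext fun v => ?_
    obtain ⟨⟨u, w⟩, rfl⟩ := e.surjective v
    simp only [LinearMap.comp_apply, LinearEquiv.coe_coe, LinearEquiv.symm_apply_apply,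
      LinearMap.prodMap_apply, LinearMap.id_apply, LinearMap.smul_apply]
    show G (e (u, w)) = e (u, (-1 : L) • w)
    simp only [e, Submodule.coe_prodEquivOfIsCompl', SetLike.val_smul, map_add]
    rw [mem_eig.1 u.2, mem_eig.1 w.2, one_smul]
  conv_lhs => rw [hG]
  rw [LinearMap.det_conj, LinearMap.det_prodMap, LinearMap.det_id, LinearMap.det_smul,
    LinearMap.det_id, one_mul, mul_one]

variable [Finite L]

theorem SymSp.exists_aniso_of_pos {W : Type v} [AddCommGroup W] [Module L W]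
    [FiniteDimensional L W] {β : W →ₗ[L] W →ₗ[L] L} (h : SymSp β) (hd : 0 < finrank L W) :
    ∃ x, β x x ≠ 0 := by
  by_contra! hall
  haveI : Nontrivial W := Module.finrank_pos_iff.1 hd
  obtain ⟨x, hx⟩ := exists_ne (0 : W)
  refine hx (h.nd x fun y => ?_)
  have e := hall (x + y)
  simp only [map_add, LinearMap.add_apply, hall x, hall y, h.symm y x] at e
  exact (mul_eq_zero.1 (show (2 : L) * β x y = 0 by linear_combination e)).resolve_left h.two

theorem scalar_of_finrank_one {W : Type v} [AddCommGroup W] [Module L W] (hd : finrank L W = 1)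
    (σ : L →+* L) (T : W → W) (hT : ∀ c v, T (c • v) = σ c • T v) (hσ : σ = RingHom.id L) :
    ∃ c : L, ∀ v, T v = c • v := by
  obtain ⟨x, hx, hall⟩ := finrank_eq_one_iff'.1 hd
  obtain ⟨c, hc⟩ := hall (T x)
  refine ⟨c, fun v => ?_⟩
  obtain ⟨d, rfl⟩ := hall v
  rw [hT, hσ, RingHom.id_apply, ← hc, smul_smul, smul_smul, mul_comm]

end Generic

variable {F : Type u} [Field F] [Finite F] {k : ℕ} {a b : F}
  {K : Type u} [Field K] [Algebra F K] {ω : K}

/-- The linear map of a similarity. -/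
noncomputable def mapF (g : ↥(GOm k a b)) : (MIx k → F) →ₗ[F] (MIx k → F) :=
  Matrix.mulVecLin (g.1 : Matrix (MIx k) (MIx k) F)

theorem mapF_apply (g : ↥(GOm k a b)) (v : MIx k → F) :
    mapF g v = (g.1 : Matrix (MIx k) (MIx k) F) *ᵥ v := rfl

theorem mapF_mul (g h : ↥(GOm k a b)) (v : MIx k → F) : mapF (g * h) v = mapF g (mapF h v) := by
  rw [mapF_apply, mapF_apply, mapF_apply, Subgroup.coe_mul, Units.val_mul, Matrix.mulVec_mulVec]

theorem mapF_one (v : MIx k → F) : mapF (1 : ↥(GOm k a b)) v = v := by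
  rw [mapF_apply, OneMemClass.coe_one, Units.val_one, one_mulVec]

theorem bilM_mapF (hA : (binQF a b).Anisotropic) (g : ↥(GOm k a b)) (u v : MIx k → F) :
    bilM k a b (mapF g u) (mapF g v) = ((minusCoord k hA).mu g : F) * bilM k a b u v := by
  simp only [bilM_apply, polar, minusQF_apply, mapF_apply, ← Matrix.mulVec_add,
    (minusCoord k hA).f_mulVec]
  ring

theorem saInvol (E : QExt a b ω) {g : ↥(GOm k a b)}
    (hsq : g * g = 1) (hmu : (minusCoord k E.aniso).mu g = 1) :
    SAInvol (bilM k a b) (mapF g) where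
  invol v := by rw [← mapF_mul, hsq, mapF_one]
  adj := selfAdjoint E (lam := 1) (by rw [hsq]; exact (Subtype.ext (map_one _)).symm) hmu

theorem odd_dims (E : QExt a b ω) (hodd : Odd (Nat.card F)) {g : ↥(GOm k a b)}
    (hsq : g * g = 1) (hmu : (minusCoord k E.aniso).mu g = 1) (hg : chi E g ≠ 1) :
    Odd (finrank F ↥(eig (mapF g) 1)) ∧ Odd (finrank F ↥(eig (mapF g) (-1))) ∧
      finrank F ↥(eig (mapF g) 1) + finrank F ↥(eig (mapF g) (-1)) = 2 * (k + 4) := by
  set D := minusCoord k E.aniso with hD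
  have h2 : (2 : F) ≠ 0 := by
    haveI := Fintype.ofFinite F
    exact Classical.two_ne_zero_of_odd hodd
  have hsp := symSp_bilM (k := k) E.aniso h2
  have i := saInvol E hsq hmu
  have hsum := i.finrank_add hsp
  rw [Module.finrank_fintype_fun_eq_card, Classical.card_minus k] at hsum
  have hne : D.dsign (k + 4) g ≠ 1 := by
    intro he
    refine hg ?_
    rw [← MonoidHom.mem_ker, ker_chi_eq_dsign E hodd]
    exact he
  have hd := congrArg Units.val ((D.dsign_cases (Classical.card_minus k) g).resolve_left hne)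
  rw [show D.dsign (k + 4) g = GeneralLinearGroup.det g.1 * (D.mu g ^ (k + 4))⁻¹ from rfl, hmu,
    one_pow, inv_one, mul_one, GeneralLinearGroup.val_det_apply, Units.val_neg, Units.val_one,
    ← LinearMap.det_toLin', Matrix.toLin'_apply', ← mapF, i.det_eq hsp] at hd
  have hodd' : Odd (finrank F ↥(eig (mapF g) (-1))) := by
    by_contra he
    rw [Nat.not_odd_iff_even] at he
    rw [he.neg_one_pow] at hd
    exact h2 (by linear_combination hd)
  refine ⟨?_, hodd', hsum⟩
  rw [Nat.odd_iff] at hodd' ⊢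
  omega

theorem not_scalar_split (E : QExt a b ω) {g : ↥(GOm k a b)} (hg : chi E g ≠ 1) (c : F)
    (h : ∀ v, mapF g v = c • v) : False := by
  have hc : c ≠ 0 := by
    rintro rfl
    have h0 : ∀ v : MIx k → F, v = 0 := fun v => by
      rw [← mapF_one (k := k) (a := a) (b := b) v, ← inv_mul_cancel g, mapF_mul, h, zero_smul, map_zero]
    exact one_ne_zero (congrFun (h0 fun _ => 1) (.inr 0))
  refine ne_scalar_of_chi E hg ((Cfsg.Geo.mem_scalars_iff _).2
    ⟨Units.mk0 c hc, Matrix.ext_iff_mulVec.2 fun v => ?_⟩)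
  rw [Matrix.smul_mulVec, one_mulVec]
  exact h v

/-- Two values on the eigenspaces. -/
theorem eq_on_parts (E : QExt a b ω) (h2 : (2 : F) ≠ 0) {g : ↥(GOm k a b)}
    (hsq : g * g = 1) (hmu : (minusCoord k E.aniso).mu g = 1) (T : (MIx k → F) → (MIx k → F))
    (hadd : ∀ u v, T (u + v) = T u + T v) {c d : F} (hc : ∀ v ∈ eig (mapF g) 1, T v = c • v)
    (hd : ∀ v ∈ eig (mapF g) (-1), T v = d • v) :
    (d = c → ∀ v, T v = c • v) ∧ (d = -c → ∀ v, T v = c • mapF g v) := by
  constructor <;> rintro rfl v <;>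
    obtain ⟨u, w, hu, hw, rfl⟩ := (saInvol E hsq hmu).parts (symSp_bilM E.aniso h2) v
  · rw [hadd, hc u hu, hd w hw, smul_add]
  · rw [hadd, hc u hu, hd w hw, map_add, mem_eig.1 hu, mem_eig.1 hw, one_smul, smul_add, smul_smul,
      mul_neg_one]

theorem coreScalar_split (E : QExt a b ω) (hodd : Odd (Nat.card F)) {g : ↥(GOm k a b)}
    (hsq : g * g = 1) (hmu : (minusCoord k E.aniso).mu g = 1) (hg : chi E g ≠ 1) :
    CoreScalar g := by
  have h2 : (2 : F) ≠ 0 := by
    haveI := Fintype.ofFinite F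
    exact Classical.two_ne_zero_of_odd hodd
  set D := minusCoord k E.aniso with hD
  have hsp := symSp_bilM (k := k) E.aniso h2
  have i := saInvol E hsq hmu
  obtain ⟨ho1, ho2, -⟩ := odd_dims E hodd hsq hmu hg
  intro S hcomm hnorm hpow s hs
  have hinv : ∀ t ∈ S, ∀ ε : F, ∀ w ∈ eig (mapF g) ε, mapF t w ∈ eig (mapF g) ε := by
    intro t ht ε w hw
    rw [mem_eig, ← mapF_mul, ← hcomm t ht, mapF_mul, mem_eig.1 hw, map_smul]
  -- each eigenspace carries a scalar
  have hscal : ∀ ε : F, ε = 1 ∨ ε = -1 → Odd (finrank F ↥(eig (mapF g) ε)) →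
      ∃ c : F, (∀ v ∈ eig (mapF g) ε, mapF s v = c • v) ∧ c * c = (D.mu s : F) := by
    intro ε hε hod
    have hW := i.symSp hsp hε
    obtain ⟨c, hc⟩ : ∃ c : F, ∀ v ∈ eig (mapF g) ε, mapF s v = c • v := by
      rcases Nat.lt_or_ge (finrank F ↥(eig (mapF g) ε)) 3 with hlt | hge
      · obtain ⟨c, hc⟩ := scalar_of_finrank_one (L := F) (W := ↥(eig (mapF g) ε))
          (by rw [Nat.odd_iff] at hod; omega) (RingHom.id F)
          (fun w => ⟨mapF s w, hinv s hs ε _ w.2⟩)
          (fun c v => Subtype.ext (map_smul (mapF s) c v.1)) rfl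
        exact ⟨c, fun v hv => congrArg Subtype.val (hc ⟨v, hv⟩)⟩
      let S' : Subgroup (↥(eig (mapF g) ε) ≃ₗ[F] ↥(eig (mapF g) ε)) :=
        { carrier := {l | ∃ t ∈ S, ∀ w, mapF t w.1 = (l w).1}
          one_mem' := ⟨1, S.one_mem, fun w => mapF_one _⟩
          mul_mem' := by
            rintro l l' ⟨t, ht, hl⟩ ⟨t', ht', hl'⟩
            exact ⟨t * t', S.mul_mem ht ht', fun w => by rw [mapF_mul, hl', hl]; rfl⟩
          inv_mem' := by
            rintro l ⟨t, ht, hl⟩
            refine ⟨t⁻¹, S.inv_mem ht, fun w => ?_⟩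
            have := hl (l⁻¹ w)
            rw [show l (l⁻¹ w) = w from LinearEquiv.apply_symm_apply l w] at this
            rw [← this, ← mapF_mul, inv_mul_cancel, mapF_one] }
      let ls : ↥(eig (mapF g) ε) ≃ₗ[F] ↥(eig (mapF g) ε) :=
        LinearEquiv.ofLinear
          ((mapF s).restrict (hinv s hs ε))
          ((mapF s⁻¹).restrict (hinv s⁻¹ (S.inv_mem hs) ε))
          (LinearMap.ext fun w => Subtype.ext (by
            show mapF s (mapF s⁻¹ w.1) = _; rw [← mapF_mul, mul_inv_cancel, mapF_one]; rfl))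
          (LinearMap.ext fun w => Subtype.ext (by
            show mapF s⁻¹ (mapF s w.1) = _; rw [← mapF_mul, inv_mul_cancel, mapF_one]; rfl))
      refine Exists.elim (hW.core hge S' (fun l hl => ?_) (fun x hx l hl => ?_) (fun l hl => ?_) ls
        ⟨s, hs, fun w => rfl⟩) fun c hc => ⟨c, fun v hv => congrArg Subtype.val (hc ⟨v, hv⟩)⟩
      · obtain ⟨t, -, hl⟩ := hl
        exact ⟨(D.mu t : F), (D.mu t).ne_zero, fun u v => by
          rw [rform_apply, rform_apply, ← hl, ← hl, bilM_mapF E.aniso]⟩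
      · obtain ⟨t, ht, hl⟩ := hl
        have hx' : bilM k a b x.1 x.1 ≠ 0 := hx
        set o := isoOf h2 (brefl (bilM k a b) x.1 hx') (hsp.brefl_iso x.1 hx') with ho
        have hov : ∀ v, mapF (isoInc o) v = brefl (bilM k a b) x.1 hx' v := fun v =>
          isoOf_mulVec h2 _ _ v
        have hog : isoInc o * g = g * isoInc o := Subtype.ext (gl_ext fun v => by
          rw [← mapF_apply, ← mapF_apply, mapF_mul, mapF_mul, hov, hov,
            i.brefl_comm (mem_eig.1 x.2)])
        have hoo : (isoInc o)⁻¹ = isoInc o := inv_eq_of_mul_eq_one_right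
          (Subtype.ext (gl_ext fun v => by
            rw [← mapF_apply, ← mapF_apply, mapF_mul, hov, hov, brefl_invol, mapF_one]))
        refine ⟨_, hnorm o hog t ht, fun w => ?_⟩
        have hw : ∀ w : ↥(eig (mapF g) ε),
            mapF (isoInc o) w.1 = (brefl (rform (bilM k a b) (eig (mapF g) ε)) x hx w).1 :=
          fun w => (hov w.1).trans rfl
        rw [hoo, mapF_mul, mapF_mul, hw, hl, hw]
        rfl
      · obtain ⟨t, ht, hl⟩ := hl
        obtain ⟨j, hj, hjs⟩ := hpow t ht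
        obtain ⟨c, hc⟩ := (Cfsg.Geo.mem_scalars_iff _).1 hjs
        have hiter : ∀ j : ℕ, ∀ w : ↥(eig (mapF g) ε), mapF (t ^ j) w.1 = ((l ^ j) w).1 := by
          intro j
          induction j with
          | zero => intro w; rw [pow_zero, pow_zero, mapF_one]; rfl
          | succ j ih =>
            intro w
            rw [pow_succ, pow_succ, mapF_mul, hl, ih]
            rfl
        refine ⟨j, hj, c, fun w => Subtype.ext ?_⟩
        rw [← hiter, mapF_apply, hc, Matrix.smul_mulVec, one_mulVec]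
        rfl
    obtain ⟨x, hx⟩ := hW.exists_aniso_of_pos hod.pos
    refine ⟨c, hc, mul_right_cancel₀ hx ?_⟩
    rw [rform_apply, ← bilM_mapF E.aniso, hc x.1 x.2, map_smul, map_smul, LinearMap.smul_apply,
      smul_eq_mul, smul_eq_mul, mul_assoc]
  obtain ⟨c, hc, hcc⟩ := hscal 1 (Or.inl rfl) ho1
  obtain ⟨d, hd, hdd⟩ := hscal (-1) (Or.inr rfl) ho2
  obtain ⟨e1, e2⟩ := eq_on_parts E h2 hsq hmu (mapF s) (map_add _) hc hd
  have hc0 : c ≠ 0 := by
    rintro rfl
    exact (D.mu s).ne_zero (by rw [← hcc, mul_zero])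
  rcases mul_self_eq_mul_self_iff.1 (hdd.trans hcc.symm) with hdc | hdc
  · refine (Cfsg.Geo.mem_scalars_iff _).2 ⟨Units.mk0 c hc0, Matrix.ext_iff_mulVec.2 fun v => ?_⟩
    rw [← mapF_apply, e1 hdc, Matrix.smul_mulVec, one_mulVec]
    rfl
  exfalso
  have e := e2 hdc
  have hiter : ∀ n v, mapF (s ^ (2 * n + 1)) v = c ^ (2 * n + 1) • mapF g v := by
    intro n
    induction n with
    | zero => intro v; rw [mul_zero, zero_add, pow_one, pow_one, e]
    | succ n ih =>
      intro v
      rw [show 2 * (n + 1) + 1 = 2 * n + 1 + 1 + 1 by ring, pow_succ, pow_succ, mapF_mul, mapF_mul,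
        e v, map_smul (mapF s), e, i.invol, map_smul, map_smul, ih, smul_smul, smul_smul]
      congr 1
      ring
  obtain ⟨j, ⟨n, rfl⟩, hj⟩ := hpow s hs
  obtain ⟨cc, hcc'⟩ := (Cfsg.Geo.mem_scalars_iff _).1 hj
  refine not_scalar_split E hg ((c ^ (2 * n + 1))⁻¹ * cc) fun v => ?_
  have := hiter n v
  rw [mapF_apply, hcc', Matrix.smul_mulVec, one_mulVec] at this
  rw [← smul_smul, this, smul_smul, inv_mul_cancel₀ (pow_ne_zero _ hc0), one_smul]

/-- The common fixed lines of two plane rotations. -/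
theorem line_of_planes {L : Type u} [Field L] {V : Type v} [AddCommGroup V] [Module L V]
    {β : V →ₗ[L] V →ₗ[L] L} (h : SymSp β) {x y z : V} (p : EqPair β x y) (q : EqPair β x z)
    (hyz : β y z = 0) {u : V}
    (hy : brefl β x p.aniso (brefl β y p.aniso' u) = -u)
    (hz : brefl β x q.aniso (brefl β z q.aniso' u) = -u) : ∃ c : L, u = c • x := by
  have hx0 := p.aniso
  have key : ∀ {y : V} (p : EqPair β x y), brefl β x p.aniso (brefl β y p.aniso' u) = -u →
      u = ((β x x)⁻¹ * β x u) • x + ((β x x)⁻¹ * β y u) • y := by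
    intro y p e
    have h3 := h.two
    rw [brefl_apply, brefl_apply, map_sub, map_smul, p.perp, smul_eq_mul, mul_zero, sub_zero,
      p.eq] at e
    have e' : (2 : L) • u = (2 : L) • (((β x x)⁻¹ * β x u) • x + ((β x x)⁻¹ * β y u) • y) := by
      linear_combination (norm := module) e
    exact smul_right_injective V h3 e'
  have e1 := key p hy
  have e2 := key q hz
  have e3 := congrArg (β y) e2
  simp only [map_add, map_smul, smul_eq_mul, h.symm y x, p.perp, hyz, mul_zero, add_zero] at e3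
  refine ⟨(β x x)⁻¹ * β x u, ?_⟩
  rwa [e3, mul_zero, zero_smul, add_zero] at e1

theorem pair_mem_omInvol (E : QExt a b ω) (hodd : Odd (Nat.card F)) (h2 : (2 : F) ≠ 0)
    {g : ↥(GOm k a b)}
    (hsa : ∀ u v, bilM k a b (mapF g u) v = bilM k a b u (mapF g v))
    {x y : MIx k → F} (p : EqPair (bilM k a b) x y)
    (hg : ∀ v, mapF g (brefl (bilM k a b) x p.aniso (brefl (bilM k a b) y p.aniso' v)) =
      brefl (bilM k a b) x p.aniso (brefl (bilM k a b) y p.aniso' (mapF g v))) :
    ∃ t ∈ omInvol g, ∀ v, mapF (isoInc t) v =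
      brefl (bilM k a b) x p.aniso (brefl (bilM k a b) y p.aniso' v) := by
  have hsp := symSp_bilM (k := k) E.aniso h2
  have hinj : Function.Injective (brotMap (bilM k a b) x y) := fun u v e => by
    rw [← sub_eq_zero]
    refine hsp.nd _ fun w => ?_
    rw [← hsp.brot_iso p (u - v) w, map_sub, e, sub_self, map_zero, LinearMap.zero_apply]
  set o := isoOf h2 (LinearEquiv.ofInjectiveEndo _ hinj)
    (fun u v => hsp.brot_iso p u v) with ho
  have hov : ∀ v, mapF (isoInc o) v = brotMap (bilM k a b) x y v := fun v => isoOf_mulVec h2 _ _ v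
  have htv : ∀ v, mapF (isoInc (o * o)) v =
      brefl (bilM k a b) x p.aniso (brefl (bilM k a b) y p.aniso' v) := fun v => by
    rw [map_mul, mapF_mul, hov, hov, hsp.brot_sq p]
  have hcomm : ∀ v, brefl (bilM k a b) y p.aniso' (brefl (bilM k a b) x p.aniso v) =
      brefl (bilM k a b) x p.aniso (brefl (bilM k a b) y p.aniso' v) := fun v => by
    simp only [brefl_apply, map_sub, map_smul, p.perp, hsp.symm y x, mul_zero]
    module
  refine ⟨o * o, ⟨sq_mem_omega E.aniso hodd o, ?_, ?_⟩, htv⟩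
  · refine Subtype.ext (gl_ext fun v => ?_)
    show mapF (isoInc (o * o * (o * o))) v = mapF (isoInc (1 : ↥(Cfsg.isometryGroup F (Cfsg.quadFormMinus (k + 3) F a b)))) v
    rw [map_mul, mapF_mul, htv, htv, map_one, mapF_one, hcomm (brefl (bilM k a b) y p.aniso' v),
      brefl_invol, brefl_invol]
  · refine Subtype.ext (gl_ext fun v => ?_)
    rw [← mapF_apply, ← mapF_apply, mapF_mul, mapF_mul, htv, htv, hg]

theorem rigid_split (E : QExt a b ω) (hodd : Odd (Nat.card F)) {g : ↥(GOm k a b)}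
    (hsq : g * g = 1) (hmu : (minusCoord k E.aniso).mu g = 1) (hg : chi E g ≠ 1) :
    Rigid g := by
  have h2 : (2 : F) ≠ 0 := by
    haveI := Fintype.ofFinite F
    exact Classical.two_ne_zero_of_odd hodd
  set D := minusCoord k E.aniso with hD
  have hsp := symSp_bilM (k := k) E.aniso h2
  have i := saInvol E hsq hmu
  obtain ⟨ho1, ho2, hsum⟩ := odd_dims E hodd hsq hmu hg
  intro T _ hT
  -- the eigenvector lines are fixed
  have hline : ∀ ε : F, ε = 1 ∨ ε = -1 → ∀ x ∈ eig (mapF g) ε, bilM k a b x x ≠ 0 →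
      ∃ c : F, T.L x = c • x := by
    intro ε hε x hxW hx
    obtain ⟨δ, η, y, z, p, q, hyz, hy, hz⟩ : ∃ (δ η : F) (y z : MIx k → F),
        EqPair (bilM k a b) x y ∧ EqPair (bilM k a b) x z ∧ bilM k a b y z = 0 ∧
          y ∈ eig (mapF g) δ ∧ z ∈ eig (mapF g) η := by
      have hW := i.symSp hsp hε
      by_cases hbig : 4 ≤ finrank F ↥(eig (mapF g) ε)
      · obtain ⟨y, p⟩ := hW.exists_eqPair (by omega) (x := ⟨x, hxW⟩) hx
        obtain ⟨z, hz, hzb⟩ := hW.exists_perp_value (k := 2) (by omega) ![⟨x, hxW⟩, y]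
          (fun j => by
            fin_cases j
            · exact hx
            · exact p.aniso')
          (fun j l hjl => by
            fin_cases j <;> fin_cases l
            · exact absurd rfl hjl
            · exact p.perp
            · exact (hW.symm _ _).trans p.perp
            · exact absurd rfl hjl) (bilM k a b x x)
        exact ⟨ε, ε, y.1, z.1, ⟨hx, p.perp, p.eq⟩, ⟨hx, hzb 0, hz⟩, hzb 1, y.2, z.2⟩
      · obtain ⟨δ, hδ, hd5, horth⟩ : ∃ δ : F, (δ = 1 ∨ δ = -1) ∧
            5 ≤ finrank F ↥(eig (mapF g) δ) ∧ ∀ w ∈ eig (mapF g) δ, bilM k a b x w = 0 := by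
          rcases hε with rfl | rfl
          · exact ⟨-1, Or.inr rfl, by omega, fun w hw => i.orth hsp hxW hw⟩
          · exact ⟨1, Or.inl rfl, by omega,
              fun w hw => (hsp.symm _ _).trans (i.orth hsp hw hxW)⟩
        have hW' := i.symSp hsp hδ
        obtain ⟨y, hy, -⟩ := hW'.exists_perp_value (k := 0) (by omega) Fin.elim0
          (fun j => j.elim0) (fun j => j.elim0) (bilM k a b x x)
        have hy0 : rform (bilM k a b) _ y y ≠ 0 := by rw [hy]; exact hx
        obtain ⟨z, hz, hzb⟩ := hW'.exists_perp_value (k := 1) (by omega) ![y]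
          (fun j => by simpa using hy0) (fun j l hjl => absurd (Subsingleton.elim j l) hjl)
          (bilM k a b x x)
        exact ⟨δ, δ, y.1, z.1, ⟨hx, horth _ y.2, hy⟩, ⟨hx, horth _ z.2, hz⟩, hzb 0, y.2, z.2⟩
    have hflip : ∀ {y : MIx k → F} {δ : F} (p : EqPair (bilM k a b) x y),
        y ∈ eig (mapF g) δ →
          brefl (bilM k a b) x p.aniso (brefl (bilM k a b) y p.aniso' (T.L x)) = -T.L x := by
      intro y δ p hy
      obtain ⟨t, ht, htv⟩ := pair_mem_omInvol E hodd h2 i.adj p fun v => by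
        rw [i.brefl_comm (mem_eig.1 hxW), i.brefl_comm (mem_eig.1 hy)]
      have h3 := hT t ht x
      rw [← mapF_apply, ← mapF_apply, htv, htv,
        brefl_perp y p.aniso' ((hsp.symm _ _).trans p.perp), brefl_self, map_neg] at h3
      exact h3.symm
    exact line_of_planes hsp p q hyz (hflip p hy) (hflip q hz)
  have hinv : ∀ ε : F, ε = 1 ∨ ε = -1 → Odd (finrank F ↥(eig (mapF g) ε)) →
      ∀ v ∈ eig (mapF g) ε, T.L v ∈ eig (mapF g) ε := by
    intro ε hε hod v hv
    have hfix : ∀ w ∈ eig (mapF g) ε, bilM k a b w w ≠ 0 → T.L w ∈ eig (mapF g) ε := fun w hw h => by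
      obtain ⟨c, hc⟩ := hline ε hε w hw h
      rw [hc]
      exact Submodule.smul_mem _ c hw
    by_cases hv0 : bilM k a b v v = 0
    · obtain ⟨x, hx⟩ := (i.symSp hsp hε).exists_aniso_of_pos hod.pos
      rw [rform_apply] at hx
      obtain ⟨w, hwW, hw, hvw⟩ : ∃ w, w ∈ eig (mapF g) ε ∧ bilM k a b w w ≠ 0 ∧
          bilM k a b (v + w) (v + w) ≠ 0 := by
        by_cases hxv : bilM k a b (v + x.1) (v + x.1) = 0
        · refine ⟨-x.1, Submodule.neg_mem _ x.2, by simpa using hx, fun e' => ?_⟩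
          simp only [map_add, map_neg, LinearMap.add_apply, LinearMap.neg_apply, hv0,
            hsp.symm x.1 v] at hxv e'
          exact mul_ne_zero h2 hx (by linear_combination hxv + e')
        · exact ⟨x.1, x.2, hx, hxv⟩
      rw [show T.L v = T.L (v + w) - T.L w by rw [map_add, add_sub_cancel_right]]
      exact Submodule.sub_mem _ (hfix _ (Submodule.add_mem _ hv hwW) hvw) (hfix _ hwW hw)
    · exact hfix v hv hv0
  have hbig : ∀ ε : F, ε = 1 ∨ ε = -1 → 3 ≤ finrank F ↥(eig (mapF g) ε) →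
      Odd (finrank F ↥(eig (mapF g) ε)) → T.σ = 1 := by
    intro ε hε hd hod
    refine ((i.symSp hsp hε).scalar_of_lines hd T.σ (fun w => ⟨T.L w.1, hinv ε hε hod _ w.2⟩)
      (fun u v => Subtype.ext (map_add T.L _ _)) (fun c v => Subtype.ext (T.smul c _))
      (fun u v e => Subtype.ext (T.L.injective (congrArg Subtype.val e))) fun w hw => ?_).1
    obtain ⟨c, hc⟩ := hline ε hε w.1 w.2 hw
    exact ⟨c, Subtype.ext hc⟩
  have hσ : T.σ = 1 := by
    rcases Nat.lt_or_ge (finrank F ↥(eig (mapF g) 1)) 3 with hlt | hge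
    · exact hbig (-1) (Or.inr rfl) (by omega) ho2
    · exact hbig 1 (Or.inl rfl) hge ho1
  have hscal : ∀ ε : F, ε = 1 ∨ ε = -1 → Odd (finrank F ↥(eig (mapF g) ε)) →
      ∃ c : F, (∀ v ∈ eig (mapF g) ε, T.L v = c • v) ∧ c * c = T.μ := by
    intro ε hε hod
    have hW := i.symSp hsp hε
    obtain ⟨c, hc⟩ : ∃ c : F, ∀ v ∈ eig (mapF g) ε, T.L v = c • v := by
      rcases Nat.lt_or_ge (finrank F ↥(eig (mapF g) ε)) 3 with hlt | hge
      · obtain ⟨c, hc⟩ := scalar_of_finrank_one (L := F) (W := ↥(eig (mapF g) ε))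
          (by rw [Nat.odd_iff] at hod; omega) (RingHom.id F)
          (fun w => ⟨T.L w.1, hinv ε hε hod _ w.2⟩)
          (fun c v => Subtype.ext ((T.smul c v.1).trans (by rw [hσ]; rfl))) rfl
        exact ⟨c, fun v hv => congrArg Subtype.val (hc ⟨v, hv⟩)⟩
      · obtain ⟨-, c, hc⟩ := hW.scalar_of_lines hge T.σ (fun w => ⟨T.L w.1, hinv ε hε hod _ w.2⟩)
          (fun u v => Subtype.ext (map_add T.L _ _)) (fun c v => Subtype.ext (T.smul c _))
          (fun u v e => Subtype.ext (T.L.injective (congrArg Subtype.val e))) fun w hw => by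
            obtain ⟨c, hc⟩ := hline ε hε w.1 w.2 hw
            exact ⟨c, Subtype.ext hc⟩
        exact ⟨c, fun v hv => congrArg Subtype.val (hc ⟨v, hv⟩)⟩
    obtain ⟨x, hx⟩ := hW.exists_aniso_of_pos hod.pos
    refine ⟨c, hc, mul_right_cancel₀ hx ?_⟩
    have h3 := T.form x.1
    rw [hc x.1 x.2, QuadraticMap.map_smul, hσ, RingAut.one_apply, smul_eq_mul] at h3
    rw [rform_apply, bilM_self, ← minusQF_apply]
    linear_combination 2 * h3
  obtain ⟨c, hc, hcc⟩ := hscal 1 (Or.inl rfl) ho1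
  obtain ⟨d, hd, hdd⟩ := hscal (-1) (Or.inr rfl) ho2
  obtain ⟨e1, e2⟩ := eq_on_parts E h2 hsq hmu T.L (map_add T.L) hc hd
  rcases mul_self_eq_mul_self_iff.1 (hdd.trans hcc.symm) with hdc | hdc
  · exact Or.inl (semiAutM_scalar _ _ _ (e1 hdc))
  refine Or.inr ?_
  have hc0 : c ≠ 0 := by rintro rfl; exact T.hμ (by rw [← hcc, mul_zero])
  rw [← one_mul (simAut g), ← D.simAut_scal (Units.mk0 c hc0)]
  refine Eq.trans ?_ (simAut_mul (D.scal (Units.mk0 c hc0)) g)
  rw [simAut_eq_semi (minusQF (k + 3) a b) (minusQF_apply _ a b)]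
  refine semiAutM_congr _ _ fun v => ?_
  rw [simSemi_L, e2 hdc, mapF_apply, Subgroup.coe_mul, Units.val_mul, ← Matrix.mulVec_mulVec]
  exact (scalar_mulVec_m (Units.mk0 c hc0) _).symm

end Cfsg.Agent.OutPO
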