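import Mathlib
import Cfsg.Agent.OutPO.MinusInvolSplit

/-!
Outer involutions of `PΩ⁻` lifting to a square root of a non-square scalar: the underlying space
over the quadratic extension.
-/

set_option autoImplicit false
set_option linter.unusedSectionVars false
set_option maxHeartbeats 1000000
set_option synthInstance.maxHeartbeats 400000

namespace Cfsg.Agent.OutPO

open Matrix QuadraticMap Module
open Cfsg.Agent.AutPO (Semi semiAutM)
open Cfsg.Agent.Classical (simAut minusQF minusQF_apply binQF binQF_apply minusCoord)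

universe u v

section Generic

variable {F : Type u} [Field F] {K : Type u} [Field K] [Algebra F K]
  {V : Type v} [AddCommGroup V] [Module F V] [Module K V] [IsScalarTower F K V]
  {lam : F} {θ : K} {β : V →ₗ[F] V →ₗ[F] F}

theorem theta_sq (E : QExt 0 (-lam) θ) : θ * θ = algebraMap F K lam := by
  have h := E.root
  simp only [map_zero, zero_mul, sub_zero, map_neg] at h
  linear_combination h

theorem lam_ne (E : QExt 0 (-lam) θ) : lam ≠ 0 := by
  intro h
  refine one_ne_zero (congrFun (E.aniso ![0, 1] ?_) 1)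
  rw [binQF_apply, h]
  simp

theorem coord_theta (E : QExt 0 (-lam) θ) : E.coord ![0, 1] = θ := by
  rw [E.coord_apply]; simp

theorem smul_coord (E : QExt 0 (-lam) θ) (y : Fin 2 → F) (v : V) :
    E.coord y • v = y 0 • v + y 1 • (θ • v) := by
  rw [E.coord_apply, add_smul, algebraMap_smul, mul_smul, algebraMap_smul]

theorem theta_theta (E : QExt 0 (-lam) θ) (v : V) : θ • θ • v = lam • v := by
  rw [smul_smul, theta_sq E, algebraMap_smul]

/-- The form over the quadratic extension. -/
structure KForm (E : QExt 0 (-lam) θ) (β : V →ₗ[F] V →ₗ[F] F) : Prop where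
  sp : SymSp β
  adj : ∀ u v : V, β (θ • u) v = β u (θ • v)

/-- The value of the extended form. -/
noncomputable def kVal (E : QExt 0 (-lam) θ) (β : V →ₗ[F] V →ₗ[F] F) (u v : V) : K :=
  E.coord ![β u v, lam⁻¹ * β (θ • u) v]

theorem kVal_zero (E : QExt 0 (-lam) θ) (u v : V) : E.coord.symm (kVal E β u v) 0 = β u v := by
  rw [kVal, E.coord.symm_apply_apply]; rfl

theorem kVal_smul_left (E : QExt 0 (-lam) θ) (z : K) (u v : V) :
    kVal E β (z • u) v = z * kVal E β u v := by
  obtain ⟨y, rfl⟩ := E.coord.surjective z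
  have hθ := theta_sq E
  have h0 := lam_ne E
  have hi : algebraMap F K lam * algebraMap F K lam⁻¹ = 1 := by
    rw [← map_mul, mul_inv_cancel₀ h0, map_one]
  rw [kVal, kVal, smul_coord E]
  simp only [smul_add, smul_comm θ (y 0), smul_comm θ (y 1), theta_theta E, map_add, map_smul, LinearMap.add_apply, LinearMap.smul_apply, smul_eq_mul, E.coord_apply,
    Matrix.cons_val_zero, Matrix.cons_val_one, map_mul]
  linear_combination (-(algebraMap F K (y 1) * algebraMap F K lam⁻¹ *
    algebraMap F K (β (θ • u) v))) * hθ + (algebraMap F K (y 1) * θ * algebraMap F K (β u v)) * hi -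
    (algebraMap F K (y 1) * algebraMap F K (β (θ • u) v)) * hi

theorem KForm.smul_adj {E : QExt 0 (-lam) θ} (h : KForm E β) (z : K) (u v : V) :
    β (z • u) v = β u (z • v) := by
  obtain ⟨y, rfl⟩ := E.coord.surjective z
  simp only [smul_coord E, map_add, map_smul, LinearMap.add_apply, LinearMap.smul_apply, h.adj]

theorem KForm.kVal_symm {E : QExt 0 (-lam) θ} (h : KForm E β) (u v : V) :
    kVal E β u v = kVal E β v u := by
  rw [kVal, kVal, h.sp.symm u v, h.adj u v, h.sp.symm u (θ • v)]

/-- The extended form. -/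
noncomputable def KForm.form {E : QExt 0 (-lam) θ} (h : KForm E β) : V →ₗ[K] V →ₗ[K] K :=
  LinearMap.mk₂ K (kVal E β)
    (fun u u' v => by
      simp only [kVal, smul_add, map_add, LinearMap.add_apply, mul_add, E.coord_apply,
        Matrix.cons_val_zero, Matrix.cons_val_one]
      ring)
    (fun c u v => kVal_smul_left E c u v)
    (fun u v v' => by
      simp only [kVal, map_add, mul_add, E.coord_apply, Matrix.cons_val_zero, Matrix.cons_val_one]
      ring)
    (fun c u v => by rw [h.kVal_symm, kVal_smul_left, h.kVal_symm v u, smul_eq_mul])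

theorem KForm.form_apply {E : QExt 0 (-lam) θ} (h : KForm E β) (u v : V) :
    h.form u v = kVal E β u v := rfl

theorem KForm.form_zero {E : QExt 0 (-lam) θ} (h : KForm E β) (u v : V) :
    E.coord.symm (h.form u v) 0 = β u v := kVal_zero E u v

theorem KForm.symSp {E : QExt 0 (-lam) θ} (h : KForm E β) : SymSp h.form where
  symm := h.kVal_symm
  nd x hx := h.sp.nd x fun y => by rw [← h.form_zero, hx y, map_zero]; rfl
  two := by rw [← map_ofNat (algebraMap F K) 2]; exact (map_ne_zero _).2 h.sp.two

theorem KForm.iso_down {E : QExt 0 (-lam) θ} (h : KForm E β) (T : V → V)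
    (hT : ∀ u v, h.form (T u) (T v) = h.form u v) (u v : V) : β (T u) (T v) = β u v := by
  rw [← h.form_zero, hT, h.form_zero]

/-- A similarity by an element of the extension. -/
theorem KForm.sim_elem {E : QExt 0 (-lam) θ} (h : KForm E β) [Nontrivial V] (y : Fin 2 → F)
    (μ : F) (hz : ∀ u v, β (E.coord y • u) (E.coord y • v) = μ * β u v) : y 1 = 0 ∨ y 0 = 0 := by
  obtain ⟨u, hu⟩ := exists_ne (0 : V)
  have h1 : (E.coord y * E.coord y - algebraMap F K μ) • u = 0 := h.sp.nd _ fun v => by
    rw [sub_smul, map_sub, LinearMap.sub_apply, ← smul_smul, h.smul_adj, hz, algebraMap_smul,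
      map_smul, LinearMap.smul_apply, smul_eq_mul, sub_self]
  have h2 := sub_eq_zero.1 ((smul_eq_zero.1 h1).resolve_right hu)
  rw [← E.coord_mul, ← E.coord_inc] at h2
  have h3 := congrFun (E.coord.injective h2) 1
  simp [Classical.binMul] at h3
  rcases mul_eq_zero.1 (show y 0 * y 1 = 0 from (mul_eq_zero.1
    (show (2 : F) * (y 0 * y 1) = 0 by linear_combination h3)).resolve_left h.sp.two) with e | e
  · exact Or.inr e
  · exact Or.inl e

end Generic

variable {F : Type u} [Field F] [Finite F] {k : ℕ} {a b : F}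
  {K : Type u} [Field K] [Algebra F K] {ω : K}

/-- The action of the extension through a square root of a scalar. -/
noncomputable def thetaEnd {lam : F} {θ : K} (E : QExt 0 (-lam) θ) {V : Type v} [AddCommGroup V]
    [Module F V] (G : V →ₗ[F] V) (hG : ∀ v, G (G v) = lam • v) : K →+* Module.End F V where
  toFun z := E.coord.symm z 0 • (1 : Module.End F V) + E.coord.symm z 1 • G
  map_one' := by
    have : E.coord.symm 1 = ![1, 0] := E.coord.injective (by
      rw [E.coord.apply_symm_apply, E.coord_inc, map_one])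
    rw [this]
    simp
  map_zero' := by simp
  map_add' x y := by
    simp only [map_add, Pi.add_apply, add_smul]
    abel
  map_mul' x y := by
    obtain ⟨x, rfl⟩ := E.coord.surjective x
    obtain ⟨y, rfl⟩ := E.coord.surjective y
    rw [← E.coord_mul, E.coord.symm_apply_apply, E.coord.symm_apply_apply, E.coord.symm_apply_apply]
    refine LinearMap.ext fun v => ?_
    simp [Classical.binMul, Module.End.mul_apply, hG]
    match_scalars <;> ring

/-- The hypotheses on `g` in the non-split case. -/
structure NonSplit (g : ↥(GOm k a b)) {lam : F} {θ : K} (E₂ : QExt 0 (-lam) θ)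
    [Module K (MIx k → F)] [IsScalarTower F K (MIx k → F)] : Prop where
  form : KForm E₂ (bilM k a b)
  act : ∀ v, mapF g v = θ • v

section Inner

variable {lam : F} {θ : K} {E₂ : QExt 0 (-lam) θ} [Module K (MIx k → F)]
  [IsScalarTower F K (MIx k → F)] {g : ↥(GOm k a b)}

theorem NonSplit.klin (n : NonSplit g E₂) (T : (MIx k → F) →ₗ[F] (MIx k → F))
    (hT : ∀ v, T (mapF g v) = mapF g (T v)) (z : K) (v : MIx k → F) : T (z • v) = z • T v := by
  obtain ⟨y, rfl⟩ := E₂.coord.surjective z
  rw [smul_coord E₂, smul_coord E₂, map_add, map_smul, map_smul, ← n.act, hT, n.act]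

theorem NonSplit.finrank (n : NonSplit g E₂) :
    haveI : FiniteDimensional F K := Module.finite_of_finrank_eq_succ E₂.dim
    Module.finrank K (MIx k → F) = k + 4 := by
  haveI : FiniteDimensional F K := Module.finite_of_finrank_eq_succ E₂.dim
  haveI : Module.Finite K (MIx k → F) := Module.Finite.of_restrictScalars_finite F K _
  have h := Module.finrank_mul_finrank F K (MIx k → F)
  rw [E₂.dim, Module.finrank_fintype_fun_eq_card, Classical.card_minus k] at h
  omega

/-- A linear isometry over the extension gives an isometry commuting with `g`. -/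
theorem NonSplit.exists_iso (n : NonSplit g E₂) (T : (MIx k → F) ≃ₗ[K] (MIx k → F))
    (hT : ∀ u v, n.form.form (T u) (T v) = n.form.form u v) :
    ∃ o, isoInc o * g = g * isoInc o ∧ ∀ v, mapF (isoInc o) v = T v := by
  refine ⟨isoOf n.form.sp.two (T.restrictScalars F) (n.form.iso_down T hT), ?_,
    fun v => isoOf_mulVec n.form.sp.two _ _ v⟩
  refine Subtype.ext (gl_ext fun v => ?_)
  rw [← mapF_apply, ← mapF_apply, mapF_mul, mapF_mul]
  exact (isoOf_mulVec n.form.sp.two _ _ _).trans ((congrArg T (n.act v)).trans ((map_smul T θ v).trans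
    ((congrArg (θ • ·) (isoOf_mulVec n.form.sp.two (T.restrictScalars F) (n.form.iso_down T hT) v).symm).trans
      (n.act _).symm)))

theorem coreScalar_nonsplit (hA : (binQF a b).Anisotropic) (n : NonSplit g E₂) : CoreScalar g := by
  haveI : FiniteDimensional F K := Module.finite_of_finrank_eq_succ E₂.dim
  haveI : Module.Finite K (MIx k → F) := Module.Finite.of_restrictScalars_finite F K _
  haveI := E₂.finite
  set D := minusCoord k hA with hD
  intro S hcomm hnorm hpow s hs
  have hlin : ∀ t ∈ S, ∀ (z : K) v, mapF t (z • v) = z • mapF t v := fun t ht z v =>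
    n.klin (mapF t) (fun v => by rw [← mapF_mul, hcomm t ht, mapF_mul]) z v
  let S' : Subgroup ((MIx k → F) ≃ₗ[K] (MIx k → F)) :=
    { carrier := {l | ∃ t ∈ S, ∀ v, mapF t v = l v}
      one_mem' := ⟨1, S.one_mem, fun v => mapF_one _⟩
      mul_mem' := by
        rintro l l' ⟨t, ht, hl⟩ ⟨t', ht', hl'⟩
        exact ⟨t * t', S.mul_mem ht ht', fun v => by rw [mapF_mul, hl', hl]; rfl⟩
      inv_mem' := by
        rintro l ⟨t, ht, hl⟩
        refine ⟨t⁻¹, S.inv_mem ht, fun v => ?_⟩
        have := hl (l⁻¹ v)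
        rw [show l (l⁻¹ v) = v from LinearEquiv.apply_symm_apply l v] at this
        conv_lhs => rw [← this, ← mapF_mul, inv_mul_cancel, mapF_one] }
  let ls : (MIx k → F) ≃ₗ[K] (MIx k → F) :=
    { toFun := mapF s
      map_add' := map_add _
      map_smul' := hlin s hs
      invFun := mapF s⁻¹
      left_inv := fun v => by rw [← mapF_mul, inv_mul_cancel, mapF_one]
      right_inv := fun v => by rw [← mapF_mul, mul_inv_cancel, mapF_one] }
  have hcore : ∀ l ∈ S', ∃ c : K, ∀ v, l v = c • v := by
    refine n.form.symSp.core (by rw [n.finrank]; omega) S' (fun l hl => ?_) (fun x hx l hl => ?_)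
      (fun l hl => ?_)
    · obtain ⟨t, ht, hl⟩ := hl
      refine ⟨algebraMap F K (D.mu t : F), (map_ne_zero _).2 (D.mu t).ne_zero, fun u v => ?_⟩
      rw [n.form.form_apply, n.form.form_apply, kVal, kVal, ← hl, ← hl, ← hlin t ht,
        bilM_mapF hA, bilM_mapF hA, ← Algebra.smul_def, ← map_smul]
      congr 1
      ext i
      fin_cases i <;> simp [hD] <;> ring
    · obtain ⟨t, ht, hl⟩ := hl
      obtain ⟨o, hog, hov⟩ := n.exists_iso (brefl n.form.form x hx) (n.form.symSp.brefl_iso x hx)
      have hoo : (isoInc o)⁻¹ = isoInc o := inv_eq_of_mul_eq_one_right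
        (Subtype.ext (gl_ext fun v => by
          rw [← mapF_apply, ← mapF_apply, mapF_mul, hov, hov, brefl_invol, mapF_one]))
      refine ⟨_, hnorm o hog t ht, fun v => ?_⟩
      rw [hoo, mapF_mul, mapF_mul, hov, hl, hov]
      rfl
    · obtain ⟨t, ht, hl⟩ := hl
      obtain ⟨j, hj, hjs⟩ := hpow t ht
      obtain ⟨c, hc⟩ := (Cfsg.Geo.mem_scalars_iff _).1 hjs
      have hiter : ∀ j : ℕ, ∀ v, mapF (t ^ j) v = (l ^ j) v := by
        intro j
        induction j with
        | zero => intro v; rw [pow_zero, pow_zero, mapF_one]; rfl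
        | succ j ih => intro v; rw [pow_succ, pow_succ, mapF_mul, hl, ih]; rfl
      refine ⟨j, hj, algebraMap F K (c : F), fun v => ?_⟩
      rw [← hiter, mapF_apply, hc, Matrix.smul_mulVec, one_mulVec, algebraMap_smul]
  obtain ⟨z, hz⟩ := hcore ls ⟨s, hs, fun v => rfl⟩
  have hz' : ∀ v, mapF s v = z • v := hz
  obtain ⟨y, rfl⟩ := E₂.coord.surjective z
  have hne : (fun _ => 1 : MIx k → F) ≠ 0 := fun h => one_ne_zero (congrFun h (.inr 0))
  haveI : Nontrivial (MIx k → F) := ⟨⟨_, _, hne⟩⟩
  rcases n.form.sim_elem y (D.mu s : F) (fun u v => by rw [← hz', ← hz', bilM_mapF hA]) with h | h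
  · have hy0 : y 0 ≠ 0 := by
      intro h0
      have h2 := mapF_mul s⁻¹ s (fun _ => (1 : F))
      rw [inv_mul_cancel, mapF_one, hz', smul_coord E₂, h, h0, zero_smul, zero_smul, zero_add,
        map_zero] at h2
      exact hne h2
    refine (Cfsg.Geo.mem_scalars_iff _).2 ⟨Units.mk0 _ hy0, Matrix.ext_iff_mulVec.2 fun v => ?_⟩
    rw [← mapF_apply, hz', smul_coord E₂, h, zero_smul, add_zero, Matrix.smul_mulVec, one_mulVec]
    rfl
  exfalso
  have hiter : ∀ (j : ℕ) v, mapF (s ^ j) v = E₂.coord y ^ j • v := by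
    intro j
    induction j with
    | zero => intro v; rw [pow_zero, pow_zero, mapF_one, one_smul]
    | succ j ih => intro v; rw [pow_succ, pow_succ', mapF_mul, hz', ih, mul_smul, smul_comm]
  obtain ⟨j, ⟨m, rfl⟩, hj⟩ := hpow s hs
  obtain ⟨cc, hcc⟩ := (Cfsg.Geo.mem_scalars_iff _).1 hj
  have h5 := hiter (2 * m + 1) (fun _ => 1)
  rw [mapF_apply, hcc, Matrix.smul_mulVec, one_mulVec, ← algebraMap_smul K (cc : F) (fun _ => (1 : F)),
    ← sub_eq_zero, ← sub_smul, smul_eq_zero] at h5
  have h6 := sub_eq_zero.1 (h5.resolve_right hne)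
  rw [E₂.coord_apply, h, map_zero, zero_add, mul_pow, pow_succ θ, pow_mul, pow_two, theta_sq E₂,
    ← map_pow, ← map_pow, ← mul_assoc, ← map_mul] at h6
  have h7 : y 1 ^ (2 * m + 1) * lam ^ m ≠ 0 := fun h0 => by
    rw [h0, map_zero, zero_mul] at h6
    exact cc.ne_zero ((map_eq_zero _).1 h6)
  refine E₂.not_mem ((y 1 ^ (2 * m + 1) * lam ^ m)⁻¹ * cc) ?_
  rw [map_mul, h6, ← mul_assoc, ← map_mul, inv_mul_cancel₀ h7, map_one, one_mul]

theorem rigid_nonsplit (hA : (binQF a b).Anisotropic) (hodd : Odd (Nat.card F))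
    (n : NonSplit g E₂) : Rigid g := by
  haveI : FiniteDimensional F K := Module.finite_of_finrank_eq_succ E₂.dim
  haveI : Module.Finite K (MIx k → F) := Module.Finite.of_restrictScalars_finite F K _
  haveI := E₂.finite
  have hne : (fun _ => 1 : MIx k → F) ≠ 0 := fun h => one_ne_zero (congrFun h (.inr 0))
  haveI : Nontrivial (MIx k → F) := ⟨⟨_, _, hne⟩⟩
  rintro T ⟨c, hc⟩ hT
  simp only [← mapF_apply, n.act] at hc
  have hc2 : c * c * lam = T.σ lam := by
    have h1 := congrArg T.L (theta_theta E₂ (fun _ => (1 : F)))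
    rw [hc, hc, T.smul, smul_comm θ c, theta_theta E₂, smul_smul, smul_smul] at h1
    have h2 : (c * c * lam - T.σ lam) • T.L (fun _ => (1 : F)) = 0 := by
      rw [sub_smul, ← h1, mul_assoc, sub_self]
    exact sub_eq_zero.1 ((smul_eq_zero.1 h2).resolve_right
      (fun e => hne (T.L.map_eq_zero_iff.1 e)))
  obtain ⟨τ, hτ, hτθ⟩ : ∃ τ : K ≃+* K, E₂.res τ = T.σ ∧ τ θ = algebraMap F K c * θ := by
    obtain ⟨τ, hτ⟩ := E₂.res_surjective T.σ
    have h1 : τ θ * τ θ = (algebraMap F K c * θ) * (algebraMap F K c * θ) := by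
      rw [← map_mul, theta_sq E₂, ← E₂.res_spec, hτ, ← hc2, map_mul, map_mul, mul_mul_mul_comm,
        theta_sq E₂]
    rcases mul_self_eq_mul_self_iff.1 h1 with h2 | h2
    · exact ⟨τ, hτ, h2⟩
    refine ⟨τ * E₂.conj, by rw [map_mul, E₂.res_conj, mul_one, hτ], ?_⟩
    have h3 : E₂.conj θ = -θ := by
      have h4 := E₂.conj_coord ![0, 1]
      rw [coord_theta E₂, E₂.conjExt.coord_apply] at h4
      rw [h4]
      simp
    rw [RingAut.mul_apply, h3, map_neg, h2, neg_neg]
  have hsemi : ∀ (z : K) v, T.L (z • v) = τ z • T.L v := by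
    intro z v
    obtain ⟨y, rfl⟩ := E₂.coord.surjective z
    rw [smul_coord E₂, map_add, T.smul, T.smul, hc, E₂.coord_apply, map_add, map_mul, hτθ,
      ← E₂.res_spec, ← E₂.res_spec, hτ, add_smul, mul_smul, mul_smul, algebraMap_smul,
      algebraMap_smul, algebraMap_smul]
  have hsp := n.form.symSp
  have hd : 4 ≤ Module.finrank K (MIx k → F) := by rw [n.finrank]; omega
  have hline : ∀ x, n.form.form x x ≠ 0 → ∃ c : K, T.L x = c • x := by
    intro x hx
    obtain ⟨y, p⟩ := hsp.exists_eqPair (by omega) hx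
    obtain ⟨z, hz, hzb⟩ := hsp.exists_perp_value (k := 2) (by omega) ![x, y]
      (fun j => by
        fin_cases j
        · exact hx
        · exact p.aniso')
      (fun j l hjl => by
        fin_cases j <;> fin_cases l
        · exact absurd rfl hjl
        · exact p.perp
        · exact (hsp.symm _ _).trans p.perp
        · exact absurd rfl hjl) (n.form.form x x)
    have q : EqPair n.form.form x z := ⟨hx, hzb 0, hz⟩
    have hflip : ∀ {y : MIx k → F} (p : EqPair n.form.form x y),
        brefl n.form.form x p.aniso (brefl n.form.form y p.aniso' (T.L x)) = -T.L x := by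
      intro y p
      have hinj : Function.Injective (brotMap n.form.form x y) := fun u v e => by
        rw [← sub_eq_zero]
        refine hsp.nd _ fun w => ?_
        rw [← hsp.brot_iso p (u - v) w, map_sub, e, sub_self, map_zero, LinearMap.zero_apply]
      obtain ⟨o, hog, hov⟩ := n.exists_iso (LinearEquiv.ofInjectiveEndo _ hinj) (hsp.brot_iso p)
      have htv : ∀ v, mapF (isoInc (o * o)) v =
          brefl n.form.form x p.aniso (brefl n.form.form y p.aniso' v) := fun v => by
        rw [map_mul, mapF_mul, hov, hov]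
        exact hsp.brot_sq p v
      have hcomm : ∀ v, brefl n.form.form y p.aniso' (brefl n.form.form x p.aniso v) =
          brefl n.form.form x p.aniso (brefl n.form.form y p.aniso' v) := fun v => by
        simp only [brefl_apply, map_sub, map_smul, p.perp, hsp.symm y x, mul_zero]
        module
      have ht : o * o ∈ omInvol g := by
        refine ⟨sq_mem_omega hA hodd o, Subtype.ext (gl_ext fun v => ?_), ?_⟩
        · show mapF (isoInc (o * o * (o * o))) v =
            mapF (isoInc (1 : ↥(Cfsg.isometryGroup F (Cfsg.quadFormMinus (k + 3) F a b)))) v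
          rw [map_mul, mapF_mul, htv, htv, map_one, mapF_one,
            hcomm (brefl n.form.form y p.aniso' v), brefl_invol, brefl_invol]
        · rw [map_mul, mul_assoc, hog, ← mul_assoc, hog, mul_assoc]
      have h3 := hT _ ht x
      rw [← mapF_apply, ← mapF_apply, htv, htv,
        brefl_perp y p.aniso' ((hsp.symm _ _).trans p.perp), brefl_self, map_neg] at h3
      exact h3.symm
    exact line_of_planes hsp p q (hzb 1) (hflip p) (hflip q)
  obtain ⟨hτ1, z, hz⟩ := hsp.scalar_of_lines (by omega) τ T.L (map_add T.L) hsemi T.L.injective hline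
  have hσ : T.σ = 1 := by rw [← hτ, hτ1, map_one]
  obtain ⟨y, rfl⟩ := E₂.coord.surjective z
  have hform : ∀ u v, bilM k a b (T.L u) (T.L v) = T.μ * bilM k a b u v := fun u v => by
    simp only [bilM_apply, polar, ← map_add, T.form, hσ, RingAut.one_apply]
    ring
  rcases n.form.sim_elem y T.μ (fun u v => by rw [← hz, ← hz, hform]) with h | h
  · refine Or.inl (semiAutM_scalar _ _ _ (c := y 0) fun v => ?_)
    rw [hz, smul_coord E₂, h, zero_smul, add_zero]
  refine Or.inr ?_
  have hy1 : y 1 ≠ 0 := by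
    intro h1
    refine hne (T.L.map_eq_zero_iff.1 ?_)
    rw [hz, smul_coord E₂, h, h1, zero_smul, zero_smul, add_zero]
  set D := minusCoord k hA with hD
  rw [← one_mul (simAut g), ← D.simAut_scal (Units.mk0 _ hy1)]
  refine Eq.trans ?_ (simAut_mul (D.scal (Units.mk0 _ hy1)) g)
  rw [simAut_eq_semi (minusQF (k + 3) a b) (minusQF_apply _ a b)]
  refine semiAutM_congr _ _ fun v => ?_
  rw [simSemi_L, hz, smul_coord E₂, h, zero_smul, zero_add, ← n.act, mapF_apply, Subgroup.coe_mul,
    Units.val_mul, ← Matrix.mulVec_mulVec]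
  exact (scalar_mulVec_m (Units.mk0 _ hy1) _).symm

end Inner

/-- The non-split case. -/
theorem invol_nonsplit (E : QExt a b ω) (hodd : Odd (Nat.card F)) {g : ↥(GOm k a b)} {lam : Fˣ}
    (hsq : g * g = (minusCoord k E.aniso).scal lam) (hlam : ¬ IsSquare (lam : F))
    (hmu : (minusCoord k E.aniso).mu g = lam) : CoreScalar g ∧ Rigid g := by
  have hA₂ : (binQF 0 (-(lam : F))).Anisotropic := by
    intro z hz
    rw [binQF_apply, zero_mul, zero_mul, add_zero] at hz
    have h1 : z 1 = 0 := by
      by_contra h1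
      refine hlam ⟨z 0 / z 1, ?_⟩
      field_simp
      linear_combination -hz
    have h0 : z 0 = 0 := by
      rw [h1] at hz
      exact pow_eq_zero_iff two_ne_zero |>.1 (by linear_combination hz)
    funext i
    fin_cases i <;> assumption
  obtain ⟨θ, E₂⟩ := exists_qext_root hA₂ E.dim
  have hgg : ∀ v, mapF g (mapF g v) = (lam : F) • v := fun v => by
    rw [← mapF_mul, mapF_apply, hsq]
    exact scalar_mulVec_m lam v
  letI : Module K (MIx k → F) := Module.compHom _ (thetaEnd E₂ (mapF g) hgg)
  haveI : IsScalarTower F K (MIx k → F) := ⟨fun c z v => by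
    show thetaEnd E₂ (mapF g) hgg (c • z) v = c • thetaEnd E₂ (mapF g) hgg z v
    simp [thetaEnd, smul_smul]⟩
  have hact : ∀ v, mapF g v = θ • v := fun v => by
    show _ = E₂.coord.symm θ 0 • v + E₂.coord.symm θ 1 • mapF g v
    rw [show E₂.coord.symm θ = ![0, 1] from
      (LinearEquiv.symm_apply_eq _).2 (coord_theta E₂).symm]
    simp
  have h2 : (2 : F) ≠ 0 := by
    haveI := Fintype.ofFinite F
    exact Classical.two_ne_zero_of_odd hodd
  have n : NonSplit g E₂ := ⟨⟨symSp_bilM E.aniso h2, fun u v => by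
    rw [← hact, ← hact]
    exact selfAdjoint E hsq hmu u v⟩, hact⟩
  exact ⟨coreScalar_nonsplit E.aniso n, rigid_nonsplit E.aniso hodd n⟩

end Cfsg.Agent.OutPO
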