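import Mathlib
import Cfsg.Agent.OutPO.MinusClass
import Cfsg.Agent.OutPO.MinusInvolNonsplit

/-!
`O_{p'}` of centralizers of outer automorphisms of `PΩ⁻_{2m+2}(F)`.
-/

set_option autoImplicit false
set_option linter.unusedSectionVars false
set_option maxHeartbeats 1000000
set_option synthInstance.maxHeartbeats 400000

namespace Cfsg.Agent.OutPO

open Matrix QuadraticMap
open Cfsg.Agent.AutPO (Semi semiAutM exists_induced good_minus minusFrame isInduced_iff_semi)
open Cfsg.Agent.AutPSL (fixedField)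
open Cfsg.Agent.Classical (simAut simAut_mk minusQF minusQF_apply binQF minusCoord)

universe u v

variable {F : Type u} [Field F] [Finite F] {k : ℕ} {a b : F} {K : Type u} [Field K] [Algebra F K]
  {ω : K}

theorem simAut_isoInc (t : ↥(Cfsg.Omega F (Cfsg.quadFormMinus (k + 3) F a b))) :
    simAut (isoInc t.1) =
      MulAut.conj (QuotientGroup.mk t : Cfsg.POmega F (Cfsg.quadFormMinus (k + 3) F a b)) := by
  refine MulEquiv.ext fun x => ?_
  obtain ⟨s, rfl⟩ := QuotientGroup.mk_surjective x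
  rw [simAut_mk, MulAut.conj_apply, ← QuotientGroup.mk_mul, ← QuotientGroup.mk_inv,
    ← QuotientGroup.mk_mul]
  congr 1

/-- A similitude between two minus-type forms identifies their `PΩ`. -/
theorem exists_pomega_iso {a' b' : F} (M : GL (MIx k) F) {c : F} (hc : c ≠ 0)
    (hM : ∀ v, Cfsg.quadFormMinus (k + 3) F a b ((M : Matrix (MIx k) (MIx k) F) *ᵥ v) =
      c * Cfsg.quadFormMinus (k + 3) F a' b' v) :
    ∃ ψ : Cfsg.POmega F (Cfsg.quadFormMinus (k + 3) F a' b') ≃*
        Cfsg.POmega F (Cfsg.quadFormMinus (k + 3) F a b),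
      ∀ s, ∃ t : ↥(Cfsg.Omega F (Cfsg.quadFormMinus (k + 3) F a b)),
        t.1.1 = M * s.1.1 * M⁻¹ ∧ ψ (QuotientGroup.mk s) = QuotientGroup.mk t := by
  let Φ : ↥(Cfsg.isometryGroup F (Cfsg.quadFormMinus (k + 3) F a' b')) ≃*
      ↥(Cfsg.isometryGroup F (Cfsg.quadFormMinus (k + 3) F a b)) :=
    { toFun := fun g => ⟨M * g.1 * M⁻¹, Classical.mem_isoGroup.2 fun v => by
        obtain ⟨w, rfl⟩ := mulVec_surjective M v
        rw [Matrix.mulVec_mulVec, ← Units.val_mul, inv_mul_cancel_right, Units.val_mul,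
          ← Matrix.mulVec_mulVec, hM, hM, Classical.mem_isoGroup.1 g.2]⟩
      invFun := fun g => ⟨M⁻¹ * g.1 * M, Classical.mem_isoGroup.2 fun v => by
        apply mul_left_cancel₀ hc
        rw [← hM, ← hM, Matrix.mulVec_mulVec, ← Units.val_mul, ← mul_assoc, mul_inv_cancel_left,
          Units.val_mul, ← Matrix.mulVec_mulVec, Classical.mem_isoGroup.1 g.2]⟩
      left_inv := fun g => Subtype.ext (by
        show M⁻¹ * (M * g.1 * M⁻¹) * M = g.1
        group)
      right_inv := fun g => Subtype.ext (by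
        show M * (M⁻¹ * g.1 * M) * M⁻¹ = g.1
        group)
      map_mul' := fun g h => Subtype.ext (by
        show M * (g.1 * h.1) * M⁻¹ = M * g.1 * M⁻¹ * (M * h.1 * M⁻¹)
        group) }
  let e₀ := (Φ.subgroupMap (Cfsg.Omega F (Cfsg.quadFormMinus (k + 3) F a' b'))).trans
    (MulEquiv.subgroupCongr (show _ = Cfsg.Omega F (Cfsg.quadFormMinus (k + 3) F a b) from
      Classical.map_commutator_top_of_equiv Φ))
  exact ⟨Classical.centerQuotientEquiv e₀, fun s => ⟨e₀ s, rfl, rfl⟩⟩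

set_option maxHeartbeats 4000000 in
/-- A conjugate of a standard field automorphism is in the field class. -/
theorem fieldClass_of_conj (E : QExt a b ω) {τ : K ≃+* K} {p : ℕ} (hσ : orderOf (E.res τ) = p)
    (hp1 : p ≠ 1) (hodd : Odd p) (hτ : τ ^ p = 1)
    {x α : MulAut (Cfsg.POmega F (Cfsg.quadFormMinus (k + 3) F a b))}
    (hα : α * x * α⁻¹ = gamma k E τ) : Cfsg.IsFieldAutClassPOmegaMinus (k + 3) x := by
  let e : ↥(fixedField (E.res τ)) →+* F := (fixedField (E.res τ)).subtype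
  have he : ∀ y : F, E.res τ y = y ↔ ∃ z, e z = y :=
    fun y => ⟨fun hy => ⟨⟨y, hy⟩, rfl⟩, by rintro ⟨z, rfl⟩; exact z.2⟩
  obtain ⟨X⟩ := gSemi_model (k := k) E hσ hτ e he
  have hA1 := aniso_ext e he (hσ ▸ hodd) X.hA₀
  obtain ⟨ψ₀, hψ₀⟩ := exists_pomega_iso (a := a) (b := b) X.M X.hc X.hM
  refine ⟨e X.a₀, e X.b₀, MulEquiv.trans α ψ₀.symm, E.res τ, fun z₁ z₂ h => ?_,
    fun h => hp1 (by rw [← hσ]; exact orderOf_eq_one_iff.2 h), X.a₀.2, X.b₀.2, fun s s' hs => ?_⟩
  · have h0 := hA1 ![z₁, z₂] (by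
      rw [Classical.binQF_apply]
      simpa using h)
    exact ⟨congrFun h0 0, congrFun h0 1⟩
  show ψ₀.symm (α (x (α⁻¹ (ψ₀ (QuotientGroup.mk s))))) = _
  rw [show α (x (α⁻¹ (ψ₀ (QuotientGroup.mk s)))) = gamma k E τ (ψ₀ (QuotientGroup.mk s)) by
    rw [← hα]; rfl, MulEquiv.symm_apply_eq]
  obtain ⟨t, ht, e1⟩ := hψ₀ s
  obtain ⟨t', ht', e2⟩ := hψ₀ s'
  rw [e1, e2]
  set G : GL (MIx k) F := X.M * (GeneralLinearGroup.map (E.res τ).toRingHom X.M)⁻¹ with hG
  have hind := (isInduced_iff_semi (minusQF (k + 3) a b) (minusQF_apply _ a b) (g := G)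
    (gSemi k E τ) (fun v => ?_) (gamma k E τ)).2 rfl
  · refine hind t t' ?_
    have hs' : s'.1.1 = GeneralLinearGroup.map (E.res τ).toRingHom s.1.1 := Units.ext hs
    have h3 : t'.1.1 = G * GeneralLinearGroup.map (E.res τ).toRingHom t.1.1 * G⁻¹ := by
      rw [ht, ht', hs', hG, map_mul, map_mul, map_inv]
      group
    exact congrArg Units.val h3
  · obtain ⟨w, rfl⟩ := mulVec_surjective X.M v
    rw [X.hL, gSemi_σ, ← map_mulVec_comp, Matrix.mulVec_mulVec, hG, ← Units.val_mul,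
      inv_mul_cancel_right]

theorem ringAut_eq_pow {σ : F ≃+* F} {p : ℕ} [Fact p.Prime] (hσ : orderOf σ = p) {ρ : F ≃+* F}
    (hρ : ∀ y, σ y = y → ρ y = y) : ∃ j : ℕ, ρ = σ ^ j := by
  let F₀ := ↥(fixedField σ)
  haveI : Algebra.IsAlgebraic F₀ F := Algebra.IsAlgebraic.of_finite _ _
  have hcard : Nat.card (F ≃ₐ[F₀] F) = p := by
    rw [IsGalois.card_aut_eq_finrank]
    have h : Nat.card F = Nat.card F₀ ^ Module.finrank F₀ F := Module.natCard_eq_pow_finrank
    rw [AutPSL.card_fixedField_pow σ, hσ] at h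
    exact (Nat.pow_right_injective (Finite.one_lt_card (α := F₀)) h).symm
  let σ' : F ≃ₐ[F₀] F := AlgEquiv.ofRingEquiv (f := σ) fun y => y.2
  let ρ' : F ≃ₐ[F₀] F := AlgEquiv.ofRingEquiv (f := ρ) fun y => hρ _ y.2
  have hne : σ' ≠ 1 := fun h => by
    have h1 : σ = 1 := RingEquiv.ext fun y => DFunLike.congr_fun h y
    rw [h1, orderOf_one] at hσ
    exact (Fact.out : p.Prime).one_lt.ne hσ
  have hmem : ρ' ∈ Subgroup.zpowers σ' := mem_zpowers_of_prime_card hcard hne
  obtain ⟨j, hj⟩ := mem_powers_iff_mem_zpowers.2 hmem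
  refine ⟨j, RingEquiv.ext fun y => ?_⟩
  have key : ∀ n : ℕ, ∀ y, (σ ^ n) y = (σ' ^ n) y := by
    intro n
    induction n with
    | zero => intro y; rfl
    | succ n ih =>
      intro y
      rw [AutPSL.ringAut_pow_succ_apply, ih, pow_succ']
      rfl
  rw [key, show σ' ^ j = ρ' from hj]
  rfl

variable {E : QExt a b ω} {τ : K ≃+* K} {F₀ : Type v} [Field F₀] [Finite F₀] {e : F₀ →+* F}

theorem Model.gSemi_fix (E : QExt a b ω) (he : ∀ x : F, E.res τ x = x ↔ ∃ y, e y = x)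
    (X : Model (gSemi k E τ) e) (v : MIx k → F) :
    (gSemi k E τ).L v = v ↔ ∃ w : MIx k → F₀, (X.M : Matrix (MIx k) (MIx k) F) *ᵥ incV e w = v := by
  constructor
  · intro h
    obtain ⟨u, rfl⟩ := mulVec_surjective X.M v
    rw [X.hL, gSemi_σ] at h
    have h1 := (linOf X.M).injective h
    choose w hw using fun i => (he (u i)).1 (congrFun h1 i)
    exact ⟨w, by rw [show incV e w = u from funext hw]⟩
  · rintro ⟨w, rfl⟩
    rw [X.hL, gSemi_σ]
    congr 1
    funext i
    exact (he _).2 ⟨w i, rfl⟩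

theorem Model.rational_inj (E : QExt a b ω) (X : Model (gSemi k E τ) e) {w w' : MIx k → F₀}
    (h : (X.M : Matrix (MIx k) (MIx k) F) *ᵥ incV e w = (X.M : Matrix (MIx k) (MIx k) F) *ᵥ incV e w') :
    w = w' := by
  have h1 := (linOf X.M).injective h
  exact funext fun i => e.injective (congrFun h1 i)

theorem Model.emb_rational (E : QExt a b ω) (X : Model (gSemi k E τ) e)
    (g : ↥(GOm k X.a₀ X.b₀)) (w : MIx k → F₀) :
    ((X.emb g).1 : Matrix (MIx k) (MIx k) F) *ᵥ ((X.M : Matrix (MIx k) (MIx k) F) *ᵥ incV e w) =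
      (X.M : Matrix (MIx k) (MIx k) F) *ᵥ incV e ((g.1 : Matrix (MIx k) (MIx k) F₀) *ᵥ w) := by
  rw [← map_mulVec_inc, Matrix.mulVec_mulVec, Matrix.mulVec_mulVec, ← Units.val_mul, X.emb_coe,
    inv_mul_cancel_right, Units.val_mul]

theorem Model.semilinear_ext (E : QExt a b ω) (X : Model (gSemi k E τ) e) {σ' : F ≃+* F}
    {S T : (MIx k → F) → (MIx k → F)} (hSa : ∀ u v, S (u + v) = S u + S v)
    (hSs : ∀ c v, S (c • v) = σ' c • S v) (hTa : ∀ u v, T (u + v) = T u + T v)
    (hTs : ∀ c v, T (c • v) = σ' c • T v)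
    (h : ∀ w, S ((X.M : Matrix (MIx k) (MIx k) F) *ᵥ incV e w) =
      T ((X.M : Matrix (MIx k) (MIx k) F) *ᵥ incV e w)) (v : MIx k → F) : S v = T v := by
  classical
  obtain ⟨u, rfl⟩ := mulVec_surjective X.M v
  let S' : (MIx k → F) →+ (MIx k → F) := AddMonoidHom.mk' S hSa
  let T' : (MIx k → F) →+ (MIx k → F) := AddMonoidHom.mk' T hTa
  show S' _ = T' _
  rw [pi_eq_sum_univ' u, Matrix.mulVec_sum, map_sum, map_sum]
  refine Finset.sum_congr rfl fun i _ => ?_
  show S ((X.M : Matrix (MIx k) (MIx k) F) *ᵥ (u i • Pi.single i 1)) =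
    T ((X.M : Matrix (MIx k) (MIx k) F) *ᵥ (u i • Pi.single i 1))
  rw [Matrix.mulVec_smul, hSs, hTs, ← incV_single e, h]

theorem restrict_fixed (he : ∀ x : F, E.res τ x = x ↔ ∃ y, e y = x) (ρ : F ≃+* F) :
    ∃ ρ₀ : F₀ ≃+* F₀, ∀ y, e (ρ₀ y) = ρ (e y) := by
  have hmem : ∀ (σ : F ≃+* F) y, ∃ z, e z = σ (e y) := fun σ y => (he _).1 (by
    have := DFunLike.congr_fun (ringAut_commute (E.res τ) σ) (e y)
    change E.res τ (σ (e y)) = σ (E.res τ (e y)) at this
    rw [this, (he _).2 ⟨y, rfl⟩])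
  choose f hf using hmem
  exact ⟨{ toFun := f ρ
           invFun := f ρ.symm
           left_inv := fun y => e.injective (by rw [hf, hf, ρ.symm_apply_apply])
           right_inv := fun y => e.injective (by rw [hf, hf, ρ.apply_symm_apply])
           map_mul' := fun x y => e.injective (by rw [map_mul, hf, hf, hf, map_mul, map_mul])
           map_add' := fun x y => e.injective (by rw [map_add, hf, hf, hf, map_add, map_add]) },
    fun y => hf ρ y⟩

set_option maxHeartbeats 4000000 in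
/-- A semisimilarity commuting with the field semisimilarity descends. -/
theorem Model.exists_descend (E : QExt a b ω) (he : ∀ x : F, E.res τ x = x ↔ ∃ y, e y = x)
    (X : Model (gSemi k E τ) e) (S : Semi (minusQF (k + 3) a b))
    (hS : ∀ v, S.L ((gSemi k E τ).L v) = (gSemi k E τ).L (S.L v)) :
    ∃ R : Semi (minusQF (k + 3) X.a₀ X.b₀), (∀ y, e (R.σ y) = S.σ (e y)) ∧
      ∀ w, S.L ((X.M : Matrix (MIx k) (MIx k) F) *ᵥ incV e w) =
        (X.M : Matrix (MIx k) (MIx k) F) *ᵥ incV e (R.L w) := by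
  obtain ⟨ρ₀, hρ⟩ := restrict_fixed (E := E) he S.σ
  have hex : ∀ w, ∃ w', (X.M : Matrix (MIx k) (MIx k) F) *ᵥ incV e w' =
      S.L ((X.M : Matrix (MIx k) (MIx k) F) *ᵥ incV e w) := fun w =>
    (X.gSemi_fix E he _).1 (by rw [← hS, (X.gSemi_fix E he _).2 ⟨w, rfl⟩])
  choose R hR using hex
  have hadd : ∀ u v, R (u + v) = R u + R v := fun u v => X.rational_inj E (by
    have e1 : ∀ p q : MIx k → F₀, incV e (p + q) = incV e p + incV e q := fun p q =>
      funext fun i => map_add e _ _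
    rw [hR, e1, e1, Matrix.mulVec_add, Matrix.mulVec_add, map_add, hR, hR])
  have e2 : ∀ (c : F₀) (p : MIx k → F₀), incV e (c • p) = e c • incV e p := fun c p =>
    funext fun i => map_mul e _ _
  have hinj : Function.Injective R := fun u v h => X.rational_inj E (S.L.injective (by
    rw [← hR, ← hR, h]))
  let R' : (MIx k → F₀) →+ (MIx k → F₀) := AddMonoidHom.mk' R hadd
  have hq : ∀ w, e (Cfsg.quadFormMinus (k + 3) F₀ X.a₀ X.b₀ (R w)) =
      S.μ * S.σ X.c / X.c * e (ρ₀ (Cfsg.quadFormMinus (k + 3) F₀ X.a₀ X.b₀ w)) := by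
    intro w
    have h := S.form ((X.M : Matrix (MIx k) (MIx k) F) *ᵥ incV e w)
    rw [← hR, minusQF_apply, minusQF_apply, X.hM, X.hM, minus_incV', minus_incV', map_mul,
      ← hρ] at h
    have hc := X.hc
    field_simp
    linear_combination h
  have h1 := hq (Classical.binVec ![1, 0])
  rw [show Cfsg.quadFormMinus (k + 3) F₀ X.a₀ X.b₀ (Classical.binVec ![1, 0]) = 1 by
    rw [Classical.minus_binVec]; simp, map_one, map_one, mul_one] at h1
  set μ₀ := Cfsg.quadFormMinus (k + 3) F₀ X.a₀ X.b₀ (R (Classical.binVec ![1, 0]))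
  refine ⟨{ L := AddEquiv.ofBijective R' (Finite.injective_iff_bijective.1 hinj)
            σ := ρ₀
            μ := μ₀
            hμ := fun h => by
              rw [h, map_zero, eq_comm, div_eq_zero_iff, mul_eq_zero, map_eq_zero] at h1
              rcases h1 with (h1 | h1) | h1
              · exact S.hμ h1
              · exact X.hc h1
              · exact X.hc h1
            smul := fun c w => X.rational_inj E (by
              show _ *ᵥ incV e (R (c • w)) = _ *ᵥ incV e (ρ₀ c • R w)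
              rw [hR, e2, e2, Matrix.mulVec_smul, Matrix.mulVec_smul, S.smul, ← hR, hρ])
            form := fun w => e.injective (by
              show e (minusQF (k + 3) X.a₀ X.b₀ (R w)) = _
              rw [minusQF_apply, minusQF_apply, hq, map_mul, h1]) }, hρ, fun w => (hR w).symm⟩

/-- The image of the rational `Ω`. -/
noncomputable def Model.omHom (X : Model (gSemi k E τ) e) :
    ↥(Cfsg.Omega F₀ (Cfsg.quadFormMinus (k + 3) F₀ X.a₀ X.b₀)) →*
      MulAut (Cfsg.POmega F (Cfsg.quadFormMinus (k + 3) F a b)) :=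
  simAut.comp (X.emb.comp (isoInc.comp
    (Cfsg.Omega F₀ (Cfsg.quadFormMinus (k + 3) F₀ X.a₀ X.b₀)).subtype))

theorem Model.omHom_apply (X : Model (gSemi k E τ) e)
    (t : ↥(Cfsg.Omega F₀ (Cfsg.quadFormMinus (k + 3) F₀ X.a₀ X.b₀))) :
    X.omHom t = simAut (X.emb (isoInc t.1)) := rfl

theorem Model.emb_iso (X : Model (gSemi k E τ) e)
    (o : ↥(Cfsg.isometryGroup F₀ (Cfsg.quadFormMinus (k + 3) F₀ X.a₀ X.b₀))) :
    (X.emb (isoInc o)).1 ∈ Cfsg.isometryGroup F (Cfsg.quadFormMinus (k + 3) F a b) := by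
  refine Classical.mem_isoGroup.2 fun v => ?_
  have := sim_of_rational e (minusQF (k + 3) (e X.a₀) (e X.b₀)) (minusQF_apply _ _ _)
    (minus_incV' e X.a₀ X.b₀) (g := GeneralLinearGroup.map e o.1) (c := 1) fun w => by
      rw [map_mulVec_inc, minus_incV', Classical.mem_isoGroup.1 o.2, one_mul]
  obtain ⟨u, rfl⟩ := mulVec_surjective X.M v
  rw [Matrix.mulVec_mulVec, ← Units.val_mul, X.emb_coe, inv_mul_cancel_right, Units.val_mul,
    ← Matrix.mulVec_mulVec, X.hM, X.hM]
  rw [show (isoInc o).1 = o.1 from rfl, this, one_mul]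

/-- The rational isometries inside the isometry group. -/
noncomputable def Model.embIso (X : Model (gSemi k E τ) e) :
    ↥(Cfsg.isometryGroup F₀ (Cfsg.quadFormMinus (k + 3) F₀ X.a₀ X.b₀)) →*
      ↥(Cfsg.isometryGroup F (Cfsg.quadFormMinus (k + 3) F a b)) :=
  (((GOm k a b).subtype.comp X.emb).comp isoInc).codRestrict _ X.emb_iso

theorem Model.embIso_coe (X : Model (gSemi k E τ) e)
    (o : ↥(Cfsg.isometryGroup F₀ (Cfsg.quadFormMinus (k + 3) F₀ X.a₀ X.b₀))) :
    isoInc (X.embIso o) = X.emb (isoInc o) := Subtype.ext rfl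

theorem Model.emb_mem_inn (X : Model (gSemi k E τ) e)
    {t : ↥(Cfsg.isometryGroup F₀ (Cfsg.quadFormMinus (k + 3) F₀ X.a₀ X.b₀))}
    (ht : t ∈ Cfsg.Omega F₀ (Cfsg.quadFormMinus (k + 3) F₀ X.a₀ X.b₀)) :
    simAut (X.emb (isoInc t)) ∈ Cfsg.Inn (Cfsg.POmega F (Cfsg.quadFormMinus (k + 3) F a b)) := by
  have hm := Subgroup.mem_map_of_mem X.embIso ht
  rw [Cfsg.Omega, commutator_def, Subgroup.map_commutator] at hm
  have h : X.embIso t ∈ Cfsg.Omega F (Cfsg.quadFormMinus (k + 3) F a b) := by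
    rw [Cfsg.Omega, commutator_def]
    exact Subgroup.commutator_mono le_top le_top hm
  rw [← X.embIso_coe]
  exact simAut_isoInc_mem_inn h

set_option maxHeartbeats 4000000 in
/-- An automorphism centralising a field automorphism and the rational `Ω` is a power of it. -/
theorem Model.centralizer_trivial (E : QExt a b ω) {p : ℕ} [Fact p.Prime]
    (hσ : orderOf (E.res τ) = p) (hodd : Odd p) (hτ : τ ^ p = 1)
    (he : ∀ x : F, E.res τ x = x ↔ ∃ y, e y = x) (X : Model (gSemi k E τ) e)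
    {x : MulAut (Cfsg.POmega F (Cfsg.quadFormMinus (k + 3) F a b))}
    (hxγ : x * gamma k E τ = gamma k E τ * x)
    (hL : ∀ t, Commute x (X.omHom t)) (hord : ¬ p ∣ orderOf x) : x = 1 := by
  obtain ⟨d, ρ, hd, rfl⟩ := exists_decomp_minus E x
  have hρτ : ρ * τ = τ * ρ := by
    haveI := E.finite
    exact ringAut_commute ρ τ
  have hd2 : simAut d * gamma k E τ = gamma k E τ * simAut d := by
    have h1 := hxγ
    rw [mul_assoc, ← map_mul, hρτ, map_mul, ← mul_assoc, ← mul_assoc] at h1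
    exact mul_right_cancel h1
  obtain ⟨d', hd', hfix, -⟩ := exists_fixed_rep E hσ hτ d hd2
  rw [← hd'] at hxγ hL hord ⊢
  set S := semiComp (simSemi (minusQF (k + 3) a b) (minusQF_apply _ a b) d') (gSemi k E ρ) with hS
  have hSaut : semiAutM (minusQF (k + 3) a b) (minusQF_apply _ a b) S =
      simAut d' * gamma k E ρ := by
    rw [hS, semiAutM_comp, simAut_eq_semi (minusQF (k + 3) a b) (minusQF_apply _ a b)]
    rfl
  have hScomm : ∀ v, S.L ((gSemi k E τ).L v) = (gSemi k E τ).L (S.L v) := fun v => by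
    rw [hS, semiComp_L, semiComp_L, simSemi_L, simSemi_L, ← gSemi_L_mul, hρτ, gSemi_L_mul,
      ← semiConj_spec _ (minusQF_apply (k + 3) a b) (gSemi k E τ) d']
    exact congrArg (fun z : ↥(GOm k a b) => (z.1 : Matrix (MIx k) (MIx k) F) *ᵥ _) hfix.symm
  obtain ⟨R, hRσ, hR⟩ := X.exists_descend E he S hScomm
  obtain ⟨K₀, _, _, ω₀, E₀⟩ := exists_qext (F := F₀) (Classical.anisotropic_binQF X.hA₀)
  -- the descended automorphism centralises the inner automorphisms
  have hR1 : semiAutM (minusQF (k + 3) X.a₀ X.b₀) (minusQF_apply _ _ _) R = 1 := by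
    refine MulEquiv.ext fun y => ?_
    obtain ⟨t, rfl⟩ := QuotientGroup.mk_surjective y
    have h1 : semiAutM (minusQF (k + 3) X.a₀ X.b₀) (minusQF_apply _ _ _) R * simAut (isoInc t.1) =
        simAut (isoInc t.1) * semiAutM (minusQF (k + 3) X.a₀ X.b₀) (minusQF_apply _ _ _) R := by
      rw [semiAutM_mul_simAut]
      congr 1
      set h₀ := semiConj (minusQF (k + 3) X.a₀ X.b₀) (minusQF_apply _ _ _) R (isoInc t.1) with hh₀
      have e1 : semiConj (minusQF (k + 3) a b) (minusQF_apply _ a b) S (X.emb (isoInc t.1)) =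
          X.emb h₀ := by
        refine semiConj_eq _ _ _ _ _ fun v => ?_
        refine X.semilinear_ext E (σ' := S.σ)
          (S := fun v => ((X.emb h₀).1 : Matrix (MIx k) (MIx k) F) *ᵥ S.L v)
          (T := fun v => S.L (((X.emb (isoInc t.1)).1 : Matrix (MIx k) (MIx k) F) *ᵥ v))
          (fun u v => by rw [map_add, Matrix.mulVec_add])
          (fun c v => by rw [S.smul, Matrix.mulVec_smul])
          (fun u v => by rw [Matrix.mulVec_add, map_add])
          (fun c v => by rw [Matrix.mulVec_smul, S.smul]) (fun w => ?_) v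
        rw [hR, X.emb_rational E, X.emb_rational E, hR, hh₀, semiConj_spec]
      have h3 := semiAutM_mul_simAut (minusQF (k + 3) a b) (minusQF_apply _ a b) S (X.emb (isoInc t.1))
      rw [hSaut, ← X.omHom_apply, (hL t).eq, mul_left_inj, e1, X.omHom_apply] at h3
      have h4 : simAut (h₀ * (isoInc t.1)⁻¹) = 1 := (X.simAut_emb_eq_one E E₀ _).1 (by
        rw [map_mul X.emb, map_inv X.emb, simAut_mul (X.emb h₀) (X.emb (isoInc t.1))⁻¹,
          simAut_inv (X.emb (isoInc t.1)), ← h3, mul_inv_cancel])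
      rw [simAut_mul h₀ (isoInc t.1)⁻¹, simAut_inv (isoInc t.1), mul_inv_eq_one] at h4
      exact h4
    rw [simAut_isoInc] at h1
    have h2 := DFunLike.congr_fun h1
    set β := semiAutM (minusQF (k + 3) X.a₀ X.b₀) (minusQF_apply _ _ _) R
    have h5 : MulAut.conj (β (QuotientGroup.mk t) * (QuotientGroup.mk t)⁻¹) = 1 := by
      refine MulEquiv.ext fun Z => ?_
      obtain ⟨z, hz⟩ := β.surjective ((QuotientGroup.mk t)⁻¹ * Z * QuotientGroup.mk t)
      have h6 := h2 z
      simp only [MulAut.mul_apply, MulAut.conj_apply, map_mul, map_inv, hz] at h6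
      rw [MulAut.conj_apply, MulAut.one_apply]
      rw [show ∀ A T : Cfsg.POmega F₀ (Cfsg.quadFormMinus (k + 3) F₀ X.a₀ X.b₀),
        A * T⁻¹ * Z * (A * T⁻¹)⁻¹ = A * (T⁻¹ * Z * T) * A⁻¹ from fun A T => by group, h6]
      group
    exact mul_inv_eq_one.1 (conj_eq_one_minus E₀ _ h5)
  obtain ⟨hRid, c₀, hc₀, hRc⟩ := semiAutM_eq_one _ _ (good_minus E₀.aniso (by omega)) R hR1
  have hfix' : ∀ y, E.res τ y = y → E.res ρ y = y := fun y hy => by
    obtain ⟨z, rfl⟩ := (he y).1 hy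
    rw [show E.res ρ (e z) = S.σ (e z) from rfl, ← hRσ, hRid]
    rfl
  obtain ⟨j, hj⟩ := ringAut_eq_pow hσ hfix'
  have hsame : ∀ v, S.L v = e c₀ • (gSemi k E (τ ^ j)).L v := by
    refine X.semilinear_ext E (σ' := S.σ) (T := fun v => e c₀ • (gSemi k E (τ ^ j)).L v)
      (map_add S.L) S.smul (fun u v => by rw [map_add, smul_add]) (fun c v => ?_) fun w => ?_
    · rw [(gSemi k E (τ ^ j)).smul, gSemi_σ, map_pow, ← hj, smul_comm]
      rfl
    · rw [hR, hRc, ← gSemi_iterate, Function.iterate_fixed ((X.gSemi_fix E he _).2 ⟨w, rfl⟩),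
        ← Matrix.mulVec_smul]
      congr 1
      funext i
      exact map_mul e _ _
  have hx : semiAutM (minusQF (k + 3) a b) (minusQF_apply _ a b) S = gamma k E τ ^ j := by
    rw [← map_pow]
    let Sc : ↥(GOm k a b) := (minusCoord k E.aniso).scal (Units.mk0 (e c₀) ((map_ne_zero e).2 hc₀))
    rw [← one_mul (gamma k E (τ ^ j)), ← (minusCoord k E.aniso).simAut_scal
      (Units.mk0 (e c₀) ((map_ne_zero e).2 hc₀)),
      simAut_eq_semi (minusQF (k + 3) a b) (minusQF_apply _ a b)]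
    refine Eq.trans ?_ (semiAutM_comp _ _ _ _)
    refine semiAutM_congr _ _ fun v => ?_
    rw [hsame, semiComp_L, simSemi_L]
    exact (scalar_mulVec_m (Units.mk0 (e c₀) ((map_ne_zero e).2 hc₀)) _).symm
  rw [← hSaut, hx] at hord ⊢
  have hp : (gamma k E τ ^ j) ^ p = 1 := by
    rw [← pow_mul, mul_comm, pow_mul, ← map_pow, hτ, map_one, one_pow]
  rcases (Nat.dvd_prime Fact.out).1 (orderOf_dvd_of_pow_eq_one hp) with h | h
  · exact orderOf_eq_one_iff.1 h
  · exact absurd (h ▸ dvd_rfl) hord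

theorem exists_omega_of_pow {F : Type u} [Field F] [Finite F] {k : ℕ} {a b : F} {K : Type u} [Field K]
    [Algebra F K] {ω : K} (E : QExt a b ω) {r : ℕ} (hodd : Odd r) (g : ↥(GOm k a b))
    (hg : chi E g = 1) (hp : simAut g ^ r = 1) :
    ∃ t : ↥(Cfsg.Omega F (Cfsg.quadFormMinus (k + 3) F a b)), simAut (isoInc t.1) = simAut g := by
  have hmem : simAut g ∈ Cfsg.inndiagPOmegaMinus (k + 3) F a b := by
    rw [inndiagMinus_eq E]
    exact ⟨g, hg, rfl⟩
  obtain ⟨y, hy⟩ := mem_inn_of_pow_eq_one E hodd hmem hp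
  obtain ⟨t, rfl⟩ := QuotientGroup.mk_surjective y
  exact ⟨t, (simAut_isoInc t).trans hy⟩

theorem simAut_pow {F : Type u} [Field F] [Finite F] {k : ℕ} {a b : F} (g : ↥(GOm k a b)) (n : ℕ) :
    simAut (g ^ n) = simAut g ^ n :=
  MonoidHom.map_pow _ g n

theorem Model.omHom_conj {E : QExt a b ω} {τ : K ≃+* K} {F₀ : Type v} [Field F₀] [Finite F₀]
    {e : F₀ →+* F} (X : Model (gSemi k E τ) e) (g : ↥(GOm k X.a₀ X.b₀))
    (t : ↥(Cfsg.Omega F₀ (Cfsg.quadFormMinus (k + 3) F₀ X.a₀ X.b₀))) :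
    X.omHom (Classical.conjOmega g t) = simAut (X.emb g) * X.omHom t * (simAut (X.emb g))⁻¹ := by
  have h1 : isoInc (Classical.conjOmega g t).1 = g * isoInc t.1 * g⁻¹ := Subtype.ext rfl
  have h2 : simAut (X.emb (isoInc (Classical.conjOmega g t).1)) =
      simAut (X.emb (g * isoInc t.1 * g⁻¹)) := congrArg (fun z => simAut (X.emb z)) h1
  rw [X.omHom_apply, X.omHom_apply]
  refine h2.trans ?_
  rw [MonoidHom.map_mul X.emb, MonoidHom.map_mul X.emb, MonoidHom.map_inv X.emb,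
    simAut_mul (X.emb g * X.emb (isoInc t.1)) (X.emb g)⁻¹, simAut_mul (X.emb g) (X.emb (isoInc t.1)),
    simAut_inv (X.emb g)]

theorem orderOf_conj_eq_two (E : QExt a b ω) : orderOf E.conj = 2 :=
  orderOf_eq_prime (by rw [pow_two, E.conj_mul_conj]) E.conj_ne_one

theorem eq_conj_of_order_two (E : QExt a b ω) {τ : K ≃+* K} (hτ : orderOf τ = 2) : τ = E.conj := by
  obtain ⟨q, hq⟩ := CharP.exists F
  haveI := hq
  haveI : Fact q.Prime := ⟨CharP.char_is_prime F q⟩
  haveI := Fintype.ofFinite F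
  obtain ⟨n, -, hn⟩ := FiniteField.card F q
  obtain ⟨eK⟩ := E.ringAut_equiv (p := q) (f := n) (by rw [Nat.card_eq_fintype_card, hn])
  haveI : NeZero (2 * (n : ℕ)) := ⟨by have := n.pos; omega⟩
  have key : ∀ ρ : K ≃+* K, orderOf ρ = 2 → (Multiplicative.toAdd (eK ρ)).val = n := by
    intro ρ hρ
    set z := Multiplicative.toAdd (eK ρ) with hz
    have h1 : eK ρ * eK ρ = 1 := by
      have h1' : ρ ^ 2 = 1 := orderOf_dvd_iff_pow_eq_one.1 hρ.dvd
      rw [← map_mul, ← pow_two, h1', map_one]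
    have h2 : z + z = 0 := congrArg Multiplicative.toAdd h1
    have h3 : z ≠ 0 := fun h => by
      have : eK ρ = 1 := Multiplicative.toAdd.injective h
      rw [eK.map_eq_one_iff] at this
      rw [this, orderOf_one] at hρ
      omega
    have h4 : ((2 * z.val : ℕ) : ZMod (2 * (n : ℕ))) = 0 := by
      rw [Nat.cast_mul, ZMod.natCast_zmod_val, Nat.cast_ofNat]
      exact (two_mul z).trans h2
    rw [ZMod.natCast_eq_zero_iff] at h4
    have h5 : (n : ℕ) ∣ z.val := Nat.dvd_of_mul_dvd_mul_left (by norm_num) h4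
    obtain ⟨c, hc⟩ := h5
    have h6 := ZMod.val_lt z
    have h7 : z.val ≠ 0 := fun h => h3 ((ZMod.val_eq_zero z).1 h)
    have := n.pos
    rcases c with _ | _ | c
    · simp [hc] at h7
    · simpa using hc
    · rw [hc] at h6; nlinarith
  exact eK.injective (Multiplicative.toAdd.injective (ZMod.val_injective _
    ((key τ hτ).trans (key E.conj (orderOf_conj_eq_two E)).symm)))

theorem field_char_odd (hF : ¬ CharP F 2) : Odd (Nat.card F) :=
  Classical.odd_or_charTwo.resolve_right hF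

set_option maxHeartbeats 4000000 in
/-- The core of the centralizer of an outer involution. -/
theorem core_invol_minus (E : QExt a b ω) (hodd : Odd (Nat.card F)) {g : ↥(GOm k a b)}
    (hg : chi E g ≠ 1) (hg2 : simAut g * simAut g = 1)
    (B : Subgroup (MulAut (Cfsg.POmega F (Cfsg.quadFormMinus (k + 3) F a b))))
    (hinn : Cfsg.Inn (Cfsg.POmega F (Cfsg.quadFormMinus (k + 3) F a b)) ≤ B) :
    Cfsg.pPrimeCore 2 ↥(B ⊓ Subgroup.centralizer {simAut g}) = ⊥ := by
  set D := minusCoord k E.aniso with hD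
  obtain ⟨lam, hlam⟩ := (D.simAut_eq_one_iff_scal (g * g)).1 (by rw [simAut_mul g g, hg2])
  by_cases hsq : IsSquare (lam : F)
  · obtain ⟨c, hc⟩ := hsq
    have hc0 : c ≠ 0 := fun h => lam.ne_zero (by rw [hc, h, mul_zero])
    set u : Fˣ := (Units.mk0 c hc0)⁻¹ with hu
    have hone : D.scal 1 = 1 := Subtype.ext (map_one _)
    have hscal : ∀ x y, D.scal x * D.scal y = D.scal (x * y) := fun x y =>
      Subtype.ext (map_mul (GeneralLinearGroup.scalar (MIx k)) x y).symm
    have h1 : (D.scal u * g) * (D.scal u * g) = D.scal 1 := by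
      rw [mul_assoc (D.scal u), ← mul_assoc g, ← scalar_comm_GOm g (D.scal_mem u),
        mul_assoc (D.scal u) g g, ← hlam, hscal, hscal]
      congr 1
      refine Units.ext ?_
      rw [Units.val_mul, Units.val_mul, hc, hu, Units.val_inv_eq_inv_val, Units.val_mk0, Units.val_one]
      field_simp
    have hg' : chi E (D.scal u * g) ≠ 1 := by
      rwa [map_mul, chi_scalar E _ (D.scal_mem u), one_mul]
    have hmu := mu_eq_of_chi E hodd h1 hg'
    rw [hone] at h1
    have h := core_of_rigid E hodd (lam := 1) (by rw [h1, hone]) (coreScalar_split E hodd h1 hmu hg')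
      (rigid_split E hodd h1 hmu hg') B hinn
    rwa [simAut_mul (D.scal u) g, D.simAut_scal, one_mul] at h
  · obtain ⟨h1, h2⟩ := invol_nonsplit E hodd hlam.symm hsq (mu_eq_of_chi E hodd hlam.symm hg)
    exact core_of_rigid E hodd hlam.symm h1 h2 B hinn

set_option maxHeartbeats 4000000 in
/-- `O_{p'}` of the centralizer of a standard field automorphism. -/
theorem local_std_minus_of_model (E : QExt a b ω) {τ : K ≃+* K} {p : ℕ} [Fact p.Prime]
    (hσ : orderOf (E.res τ) = p) (hodd : Odd p) (hτ : τ ^ p = 1)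
    {F₀ : Type v} [Field F₀] [Finite F₀] {e : F₀ →+* F}
    (he : ∀ y : F, E.res τ y = y ↔ ∃ z, e z = y) (X : Model (gSemi k E τ) e)
    (B : Subgroup (MulAut (Cfsg.POmega F (Cfsg.quadFormMinus (k + 3) F a b))))
    (hinn : Cfsg.Inn (Cfsg.POmega F (Cfsg.quadFormMinus (k + 3) F a b)) ≤ B) :
    Cfsg.pPrimeCore p ↥(B ⊓ Subgroup.centralizer {gamma k E τ}) ≠ ⊥ ↔
      Nat.Coprime p (Nat.card ↥(MonoidHom.eqLocus (gamma k E τ).toMonoidHom
        (MonoidHom.id (Cfsg.POmega F (Cfsg.quadFormMinus (k + 3) F a b))))) := by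
  classical
  have hA₀ := Classical.anisotropic_binQF X.hA₀
  obtain ⟨K₀, _, _, ω₀, E₀⟩ := exists_qext (F := F₀) hA₀
  haveI : IsSimpleGroup (Cfsg.POmega F₀
      (Cfsg.quadFormMinus (k + 3) F₀ X.a₀ X.b₀)) :=
    Classical.isSimpleGroup_POmega_of _ (minusQF (k + 3) X.a₀ X.b₀) (minusQF_apply _ _ _)
      (Classical.goodCore_binQF hA₀) k (Classical.minusEquiv (k + 3))
      (Classical.minusEquiv_spec _ _ _)
  set L := (X.omHom).range with hL
  set C := Cfsg.Inn (Cfsg.POmega F (Cfsg.quadFormMinus (k + 3) F a b)) ⊓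
    Subgroup.centralizer {gamma k E τ} with hC
  have hcentγ : ∀ g, simAut (X.emb g) * gamma k E τ = gamma k E τ * simAut (X.emb g) := fun g => by
    rw [gamma_mul_simAut, show gConj k E τ (X.emb g) = X.emb g from X.emb_fixed he g]
  have hLC : L ≤ C := by
    rintro _ ⟨t, rfl⟩
    exact ⟨X.emb_mem_inn t.2, Subgroup.mem_centralizer_singleton_iff.2 (hcentγ _)⟩
  have hCrep : ∀ c ∈ C, ∃ g, chi E₀ g = 1 ∧ simAut (X.emb g) = c := by
    intro c hc
    obtain ⟨⟨g, hg⟩, rfl⟩ := (X.range_autHom E hσ hodd hτ he E₀).ge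
      (show c ∈ _ ⊓ _ from ⟨inn_le_inndiagMinus E hc.1, hc.2⟩)
    exact ⟨g, hg, rfl⟩
  have hnontriv : ∃ t, X.omHom t ≠ 1 := by
    obtain ⟨y, hy⟩ := exists_ne (1 : Cfsg.POmega F₀
      (Cfsg.quadFormMinus (k + 3) F₀ X.a₀ X.b₀))
    obtain ⟨t, rfl⟩ := QuotientGroup.mk_surjective y
    refine ⟨t, fun h => hy (conj_eq_one_minus E₀ _ ?_)⟩
    rw [← simAut_isoInc, ← X.simAut_emb_eq_one E E₀]
    exact h
  refine LocalBal.criterion (conj_eq_one_minus E) _ B hinn ?_ fun hpC => ?_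
  · obtain ⟨t, ht⟩ := hnontriv
    obtain ⟨⟨y, hy⟩, hc⟩ := hLC ⟨t, rfl⟩
    refine ⟨y, fun h => ht (by rw [← hy, h, map_one]), ?_⟩
    have hc' := Subgroup.mem_centralizer_singleton_iff.1 hc
    rw [← hy] at hc'
    have e1 : gamma k E τ * MulAut.conj y = MulAut.conj (gamma k E τ y) * gamma k E τ :=
      MulEquiv.ext fun z => by simp
    rw [e1, mul_left_inj] at hc'
    exact (mul_inv_eq_one.1 (conj_eq_one_minus E _ (by
      rw [map_mul, map_inv, hc', mul_inv_cancel]))).symm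
  haveI : IsSimpleGroup ↥L := by
    refine LocalBal.isSimpleGroup_range_quot X.omHom (Subgroup.center _) (fun t ht => ?_) hnontriv
    show X.omHom t = 1
    rw [X.omHom_apply, X.simAut_emb_eq_one E E₀, simAut_isoInc,
      (QuotientGroup.eq_one_iff t).2 ht, map_one]
  have hpL : p ∣ Nat.card ↥L := by
    obtain ⟨c, hc⟩ := exists_prime_orderOf_dvd_card' p hpC
    obtain ⟨g, hg, hgc⟩ := hCrep c.1 c.2
    refine LocalBal.dvd_card_of_orderOf L (a := c.1) ?_ (by rw [Subgroup.orderOf_coe, hc])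
    have hcp : c.1 ^ p = 1 := orderOf_dvd_iff_pow_eq_one.1 (by rw [Subgroup.orderOf_coe, hc])
    have hp1 : simAut g ^ p = 1 := by
      rw [← simAut_pow g p]
      refine (X.simAut_emb_eq_one E E₀ (g ^ p)).1 ?_
      rw [MonoidHom.map_pow X.emb g p, simAut_pow (X.emb g) p, hgc, hcp]
    obtain ⟨t, hy⟩ := exists_omega_of_pow E₀ hodd g hg hp1
    refine ⟨t, ?_⟩
    have h1 : simAut (isoInc t.1 * g⁻¹) = 1 := by
      rw [simAut_mul (isoInc t.1) g⁻¹, simAut_inv g, hy, mul_inv_cancel]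
    rw [← X.simAut_emb_eq_one E E₀, map_mul X.emb, map_inv X.emb, simAut_mul (X.emb (isoInc t.1)),
      simAut_inv (X.emb g), mul_inv_eq_one, hgc] at h1
    exact h1
  refine LocalBal.core_eq_bot (C := C) hLC (inf_le_inf hinn le_rfl)
    (fun h hh c hc => LocalBal.inn_cent_normalized _ B hh hc) ?_
    (LocalBal.noPPrime_of_simple L hpL) fun x hx hcomm hord => ?_
  · intro c hc l hl
    obtain ⟨g, -, rfl⟩ := hCrep c hc
    obtain ⟨t, rfl⟩ := hl
    refine ⟨Classical.conjOmega g t, ?_⟩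
    exact X.omHom_conj g t
  · exact X.centralizer_trivial E hσ hodd hτ he (Subgroup.mem_centralizer_singleton_iff.1 hx.2)
      (fun t => hcomm _ ⟨t, rfl⟩) hord

theorem local_std_minus (E : QExt a b ω) {τ : K ≃+* K} {p : ℕ} [Fact p.Prime]
    (hσ : orderOf (E.res τ) = p) (hodd : Odd p) (hτ : τ ^ p = 1)
    (B : Subgroup (MulAut (Cfsg.POmega F (Cfsg.quadFormMinus (k + 3) F a b))))
    (hinn : Cfsg.Inn (Cfsg.POmega F (Cfsg.quadFormMinus (k + 3) F a b)) ≤ B) :
    Cfsg.pPrimeCore p ↥(B ⊓ Subgroup.centralizer {gamma k E τ}) ≠ ⊥ ↔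
      Nat.Coprime p (Nat.card ↥(MonoidHom.eqLocus (gamma k E τ).toMonoidHom
        (MonoidHom.id (Cfsg.POmega F (Cfsg.quadFormMinus (k + 3) F a b))))) := by
  let e : ↥(fixedField (E.res τ)) →+* F := (fixedField (E.res τ)).subtype
  have he : ∀ y : F, E.res τ y = y ↔ ∃ z, e z = y :=
    fun y => ⟨fun hy => ⟨⟨y, hy⟩, rfl⟩, by rintro ⟨z, rfl⟩; exact z.2⟩
  obtain ⟨X⟩ := gSemi_model (k := k) E hσ hτ e he
  exact local_std_minus_of_model E hσ hodd hτ he X B hinn

set_option maxHeartbeats 4000000 in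
/-- `O_{p'}` of the centralizer of a non-inner-diagonal automorphism of prime order. -/
theorem local_balance_minus (E : QExt a b ω) {r : ℕ} [Fact r.Prime] [hr : CharP F r] {p : ℕ}
    [Fact p.Prime] (hpr : p ≠ r)
    (A : Subgroup (MulAut (Cfsg.POmega F (Cfsg.quadFormMinus (k + 3) F a b))))
    (hinn : Cfsg.Inn (Cfsg.POmega F (Cfsg.quadFormMinus (k + 3) F a b)) ≤ A)
    {x : MulAut (Cfsg.POmega F (Cfsg.quadFormMinus (k + 3) F a b))} (hord : orderOf x = p)
    (hnot : ¬ Cfsg.IsInnerDiagonalAutPOmegaMinus (k + 3) a b x) :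
    Cfsg.pPrimeCore p ↥(A ⊓ Subgroup.centralizer {x}) ≠ ⊥ ↔
      (Cfsg.IsFieldAutClassPOmegaMinus (k + 3) x ∧
        Nat.Coprime p (Nat.card ↥(MonoidHom.eqLocus x.toMonoidHom
          (MonoidHom.id (Cfsg.POmega F (Cfsg.quadFormMinus (k + 3) F a b)))))) := by
  obtain ⟨d, τ, hd, hx⟩ := exists_decomp_minus E x
  haveI := inndiagMinus_normal (k := k) E
  have hD : simAut d ∈ Cfsg.inndiagPOmegaMinus (k + 3) F a b := by
    rw [inndiagMinus_eq E]; exact ⟨d, hd, rfl⟩
  have hxp : x ^ p = 1 := by rw [← hord]; exact pow_orderOf_eq_one x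
  have hτ1 : τ ≠ 1 := fun h => hnot ((isInnDiagMinus_iff E x).2 ⟨d, hd, by
    rw [hx, h, map_one, mul_one]⟩)
  have hτp : τ ^ p = 1 := by
    refine gamma_mem_inndiag E _ ((QuotientGroup.eq_one_iff
      (N := Cfsg.inndiagPOmegaMinus (k + 3) F a b) _).1 ?_)
    have h1 := congrArg (QuotientGroup.mk' (Cfsg.inndiagPOmegaMinus (k + 3) F a b)) hxp
    rw [hx, map_pow, map_mul,
      show QuotientGroup.mk' (Cfsg.inndiagPOmegaMinus (k + 3) F a b) (simAut d) = 1 from
        (QuotientGroup.eq_one_iff _).2 hD, one_mul, ← map_pow, ← map_pow, map_one] at h1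
    exact h1
  have hτo : orderOf τ = p := orderOf_eq_prime hτp hτ1
  rcases (Fact.out : p.Prime).eq_two_or_odd' with hp2 | hodd
  · subst hp2
    obtain ⟨r₀, hr₀, hr₀L⟩ := exists_conjRefl k E
    have hF : ¬ CharP F 2 := fun h => hpr (CharP.eq F h hr)
    rw [eq_conj_of_order_two E hτo, gamma_eq_simAut_of_L E _ r₀ hr₀L, ← simAut_mul d r₀] at hx
    have hg : chi E (d * r₀) ≠ 1 := by rw [map_mul, hd, one_mul, hr₀]; exact fun h => one_ne_zero (α := ZMod 2) (congrArg Multiplicative.toAdd h)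
    have hg2 : simAut (d * r₀) * simAut (d * r₀) = 1 := by rw [← hx, ← pow_two, hxp]
    have hbot := core_invol_minus E (field_char_odd hF) hg hg2 A hinn
    rw [← hx] at hbot
    refine iff_of_false (fun h => h hbot) fun h => ?_
    exact Nat.not_odd_iff_even.2 even_two (field_std_minus E h.1 Nat.prime_two hord).1
  have hne1 : E.res τ ≠ 1 := by
    intro h
    rcases E.res_eq_one h with h1 | h1
    · exact hτ1 h1
    · rw [h1, orderOf_conj_eq_two E] at hτo
      rw [← hτo] at hodd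
      exact Nat.not_odd_iff_even.2 even_two hodd
  have hσ : orderOf (E.res τ) = p := orderOf_eq_prime (by rw [← map_pow, hτp, map_one]) hne1
  obtain ⟨g, -, hg⟩ := coset_minus E hσ hodd hτp d (by rw [← hx, hxp])
  set α := (simAut g)⁻¹ with hα
  have hαx : α * x * α⁻¹ = gamma k E τ := by rw [hx, hg, hα]; group
  rw [and_iff_right (fieldClass_of_conj E hσ (Fact.out : p.Prime).ne_one hodd hτp hαx)]
  exact LocalBal.criterion_conj x _ α hαx A hinn fun B hB => local_std_minus E hσ hodd hτp B hB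

end Cfsg.Agent.OutPO
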