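import Mathlib
import Cfsg.Agent.OutPO.OddMain
import Cfsg.Agent.LocalBal.Core

/-!
`O_{p'}` of centralizers of outer automorphisms of `Ω_{2m+1}(F)`.
-/

set_option autoImplicit false
set_option linter.unusedSectionVars false

namespace Cfsg.Agent.OutPO

open Matrix QuadraticMap
open Cfsg.Agent.AutPSL (twistNorm_apply fixedField)
open Cfsg.Agent.Classical (oddQF oddQF_apply two_ne_zero_of_odd)

universe u v

variable {F : Type u} [Field F] {m : ℕ}

local notation "f⋆" => Cfsg.quadFormOdd m F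
local notation "A⋆" => MulAut (Cfsg.POmega F (Cfsg.quadFormOdd m F))

theorem soAut_omSO (d : ↥(SOo m F)) (hd : d ∈ omSO m F) :
    soAut d = (MulAut.conj (QuotientGroup.mk ⟨soToIso d, hd⟩ : Cfsg.POmega F f⋆) : A⋆) := by
  refine MulEquiv.ext fun x => ?_
  obtain ⟨t, rfl⟩ := QuotientGroup.mk_surjective x
  rw [MulAut.conj_apply, ← QuotientGroup.mk_mul, ← QuotientGroup.mk_inv, ← QuotientGroup.mk_mul]
  rfl

variable [Finite F]

theorem fixed_of_commute (h2 : (2 : F) ≠ 0) (hm : 3 ≤ m) (hodd : Odd (Nat.card F)) {x : A⋆}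
    {k : Cfsg.POmega F f⋆} (h : MulAut.conj k * x = x * MulAut.conj k) : x k = k := by
  have e : x * MulAut.conj k = MulAut.conj (x k) * x := MulEquiv.ext fun y => by simp
  rw [e, mul_left_inj] at h
  exact (eq_of_mul_inv_eq_one (conj_eq_one_iff h2 hm hodd _ (by
    rw [map_mul, map_inv, h, mul_inv_cancel]))).symm

theorem omSO_simple (hodd : Odd (Nat.card F)) (hm : 3 ≤ m) : IsSimpleGroup ↥(omSO m F) := by
  have h2 := two_ne_zero_of_odd hodd
  haveI hK : IsSimpleGroup (Cfsg.POmega F f⋆) := by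
    obtain ⟨k, rfl⟩ : ∃ k, m = k + 3 := ⟨m - 3, by omega⟩
    exact Classical.isSimpleGroup_POmega_of _ (oddQF (k + 3) F) (oddQF_apply _)
      (Classical.goodCore_sq h2) k (Classical.oddEquiv (k + 3)) (Classical.oddEquiv_spec (k + 3))
  have hmap : (omSO m F).map soAut = Cfsg.Inn (Cfsg.POmega F f⋆) := by
    rw [← show (Cfsg.Inn (Cfsg.POmega F f⋆)).comap soAut = omSO m F from
        Subgroup.ext fun d => soAut_mem_inn_iff h2 hodd hm d,
      Subgroup.map_comap_eq, inf_eq_right.2 (inn_le_range h2 hodd hm)]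
  have e : Cfsg.POmega F f⋆ ≃* ↥(omSO m F) :=
    (MonoidHom.ofInjective ((injective_iff_map_eq_one (MulAut.conj : Cfsg.POmega F f⋆ →* _)).2
      fun k hk => conj_eq_one_iff h2 hm hodd k hk)).trans
      ((MulEquiv.subgroupCongr hmap.symm).trans
        ((omSO m F).equivMapOfInjective _ (soAut_injective h2 hm)).symm)
  haveI : Nontrivial ↥(omSO m F) := e.symm.toEquiv.nontrivial
  exact IsSimpleGroup.isSimpleGroup_of_surjective e.toMonoidHom e.surjective

theorem exists_involution (hodd : Odd (Nat.card F)) (hm : 3 ≤ m) :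
    ∃ z ∈ omSO m F, orderOf z = 2 := by
  have h2 := two_ne_zero_of_odd hodd
  obtain ⟨k, rfl⟩ : ∃ k, m = k + 1 := ⟨m - 1, by omega⟩
  set x : OIx (k + 1) → F := Pi.single (Sum.inl ()) 1 with hxdef
  set y : OIx (k + 1) → F := Pi.single (.inr (.inl 0)) 1 + Pi.single (.inr (.inr 0)) 1 with hydef
  have hx : Cfsg.quadFormOdd (k + 1) F x = 1 := f_e0
  have hy : Cfsg.quadFormOdd (k + 1) F y = 1 := by simp [hydef, Cfsg.quadFormOdd, Pi.single_apply]
  have hxy : polar ⇑(oddQF (k + 1) F) x y = 0 := by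
    simp [polar, oddQF_apply, hxdef, hydef, Cfsg.quadFormOdd, Pi.single_apply]
  have hx0 : Cfsg.quadFormOdd (k + 1) F x ≠ 0 := by rw [hx]; exact one_ne_zero
  have hy0 : Cfsg.quadFormOdd (k + 1) F y ≠ 0 := by rw [hy]; exact one_ne_zero
  refine ⟨reflPair x y hx0 hy0, (reflPair_mem_iff h2 hodd hm x y hx0 hy0).2
    ⟨1, by rw [hx, hy]⟩, orderOf_eq_prime ?_ ?_⟩
  · rw [pow_two]
    refine Subtype.ext (Units.ext (Matrix.ext_iff_mulVec.2 fun v => ?_))
    show Units.val ((oddRefl x hx0).1 * (oddRefl y hy0).1 * ((oddRefl x hx0).1 * (oddRefl y hy0).1))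
      *ᵥ v = (1 : Matrix (OIx (k + 1)) (OIx (k + 1)) F) *ᵥ v
    rw [Units.val_mul, Units.val_mul, one_mulVec, ← Matrix.mulVec_mulVec, ← Matrix.mulVec_mulVec,
      ← Matrix.mulVec_mulVec]
    simp only [oddRefl_mulVec, oddQF_apply, hx, hy, inv_one, one_mul, polar_sub_right,
      polar_smul_right, hxy, polar_comm _ y x, Forms.polar_self_eq, smul_eq_mul, mul_zero,
      mul_one, sub_zero]
    module
  · intro h
    have h1 := congrArg (fun g : ↥(SOo (k + 1) F) =>
      (g.1 : Matrix (OIx (k + 1)) (OIx (k + 1)) F) *ᵥ x) h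
    change Units.val ((oddRefl x hx0).1 * (oddRefl y hy0).1) *ᵥ x =
      (1 : Matrix (OIx (k + 1)) (OIx (k + 1)) F) *ᵥ x at h1
    rw [Units.val_mul, one_mulVec, ← Matrix.mulVec_mulVec] at h1
    simp only [oddRefl_mulVec, oddQF_apply, hx, hy, inv_one, one_mul, polar_comm _ y x, hxy,
      zero_smul, sub_zero, Forms.polar_self_eq, mul_one] at h1
    have h3 := congrFun h1 (Sum.inl ())
    simp [hxdef] at h3
    exact h2 h3

theorem ringAut_comm (σ ρ : F ≃+* F) : σ * ρ = ρ * σ := by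
  obtain ⟨p, hp⟩ := CharP.exists F
  haveI := hp
  haveI : Fact p.Prime := ⟨CharP.char_is_prime F p⟩
  haveI := Fintype.ofFinite F
  obtain ⟨n, -, hn⟩ := FiniteField.card F p
  obtain ⟨e⟩ := ClassicalElem.exists_ringAut_equiv (F := F) p n
    (by rw [Nat.card_eq_fintype_card, hn])
  exact e.injective (by rw [map_mul, map_mul, mul_comm])

set_option maxHeartbeats 1600000 in
/-- `O_{p'}` of the centralizer of a standard field automorphism. -/
theorem local_std_odd (hodd : Odd (Nat.card F)) (hm : 3 ≤ m) {p : ℕ} [Fact p.Prime]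
    (σ : F ≃+* F) (hσ : orderOf σ = p) (B : Subgroup A⋆)
    (hinn : Cfsg.Inn (Cfsg.POmega F f⋆) ≤ B) :
    Cfsg.pPrimeCore p ↥(B ⊓ Subgroup.centralizer {(oddFieldAut σ : A⋆)}) ≠ ⊥ ↔
      Nat.Coprime p (Nat.card ↥(MonoidHom.eqLocus (oddFieldAut σ : A⋆).toMonoidHom
        (MonoidHom.id (Cfsg.POmega F f⋆)))) := by
  classical
  have h2 := two_ne_zero_of_odd hodd
  let F₀ := ↥(fixedField σ)
  let e₀ : F₀ →+* F := (fixedField σ).subtype
  have he : ∀ a : F, σ a = a ↔ ∃ b, e₀ b = a :=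
    fun a => ⟨fun ha => ⟨⟨a, ha⟩, rfl⟩, by rintro ⟨b, rfl⟩; exact b.2⟩
  have h20 : (2 : F₀) ≠ 0 := fun h => h2 (congrArg Subtype.val h)
  have hodd₀ : Odd (Nat.card F₀) := by
    have := AutPSL.card_fixedField_pow σ
    rw [this] at hodd
    rcases Nat.even_or_odd (Nat.card F₀) with he' | ho
    · exact absurd hodd
        (Nat.not_odd_iff_even.2 (he'.pow_of_ne_zero (AutPSL.orderOf_pos_field σ).ne'))
    · exact ho
  let Φ : ↥(SOo m F₀) →* A⋆ := soAut.comp (soIncl e₀)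
  have hΦ : Function.Injective Φ := (soAut_injective h2 hm).comp (soIncl_injective e₀)
  set L : Subgroup A⋆ := (omSO m F₀).map Φ with hL
  set C := Cfsg.Inn (Cfsg.POmega F f⋆) ⊓ Subgroup.centralizer {(oddFieldAut σ : A⋆)} with hC
  have hLC : L ≤ C := by
    rintro _ ⟨s, hs, rfl⟩
    exact ⟨(soAut_mem_inn_iff h2 hodd hm _).2 (omSO_ext e₀ hs),
      Subgroup.mem_centralizer_singleton_iff.2
        ((mem_cent_odd h2 hm σ _).2 (soMap_soIncl e₀ he s))⟩
  have hCΦ : C ≤ Φ.range := by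
    rintro c ⟨hc, hc'⟩
    obtain ⟨d, rfl⟩ := inn_le_range h2 hodd hm hc
    obtain ⟨d₀, rfl⟩ := exists_rational_so e₀ he
      ((mem_cent_odd h2 hm σ d).1 (Subgroup.mem_centralizer_singleton_iff.1 hc'))
    exact ⟨d₀, rfl⟩
  obtain ⟨z, hz, hz2⟩ := exists_involution (F := F₀) hodd₀ hm
  refine LocalBal.criterion (conj_eq_one_iff h2 hm hodd) _ B hinn ?_ ?_
  · obtain ⟨hi, hc⟩ := hLC (Subgroup.mem_map_of_mem Φ hz)
    have e : Φ z = MulAut.conj (QuotientGroup.mk ⟨soToIso (soIncl e₀ z), omSO_ext e₀ hz⟩) :=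
      soAut_omSO _ _
    refine ⟨_, fun h => ?_, fixed_of_commute h2 hm hodd
      (e ▸ Subgroup.mem_centralizer_singleton_iff.1 hc)⟩
    rw [h, map_one] at e
    have : z = 1 := hΦ (by rw [e, map_one])
    rw [this, orderOf_one] at hz2
    omega
  intro hpC
  haveI : IsSimpleGroup ↥L := by
    haveI := omSO_simple (F := F₀) hodd₀ hm
    let E := (omSO m F₀).equivMapOfInjective Φ hΦ
    haveI : Nontrivial ↥L := E.symm.toEquiv.nontrivial
    exact IsSimpleGroup.isSimpleGroup_of_surjective E.toMonoidHom E.surjective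
  have hidx₀ : (omSO m F₀).index = 2 := by
    rw [← show (Cfsg.Inn (Cfsg.POmega F₀ (Cfsg.quadFormOdd m F₀))).comap soAut =
        omSO m F₀ from Subgroup.ext fun d => soAut_mem_inn_iff h20 hodd₀ hm d,
      ← Subgroup.relIndex_top_right, Subgroup.relIndex_comap, ← MonoidHom.range_eq_map]
    exact relIndex_inn h20 hodd₀ hm
  have hpL : p ∣ Nat.card ↥L := by
    by_cases hp : p = 2
    · subst hp
      exact LocalBal.dvd_card_of_orderOf L (Subgroup.mem_map_of_mem Φ hz)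
        ((orderOf_injective Φ hΦ z).trans hz2)
    · have h1 : p ∣ Nat.card ↥Φ.range := hpC.trans (Subgroup.card_dvd_of_le hCΦ)
      rw [← Nat.card_congr (MonoidHom.ofInjective hΦ).toEquiv, ← (omSO m F₀).card_mul_index,
        hidx₀] at h1
      rw [hL, Subgroup.card_map_of_injective hΦ]
      exact (((Nat.coprime_primes Fact.out Nat.prime_two).2 hp)).dvd_of_dvd_mul_right h1
  haveI hn₀ : (omSO m F₀).Normal := Subgroup.normal_of_index_eq_two hidx₀
  refine LocalBal.core_eq_bot (C := C) hLC (inf_le_inf hinn le_rfl)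
    (fun h hh c hc => LocalBal.inn_cent_normalized _ B hh hc) ?_
    (LocalBal.noPPrime_of_simple L hpL) fun a ha hcomm hord => ?_
  · intro c hc l hl
    obtain ⟨d₀, rfl⟩ := hCΦ hc
    obtain ⟨s, hs, rfl⟩ := hl
    exact ⟨d₀ * s * d₀⁻¹, hn₀.conj_mem s hs d₀, by rw [map_mul, map_mul, map_inv]⟩
  -- an automorphism commuting with `φ_σ` and with `Ω` over the fixed field
  obtain ⟨d, ρ, rfl⟩ := exists_decomp_odd h2 hm a
  have hcomσ := Subgroup.mem_centralizer_singleton_iff.1 ha.2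
  have hd : soMap σ d = d := by
    have h1 : soAut (soMap σ d) * oddFieldAut (σ * ρ) = soAut d * (oddFieldAut (σ * ρ) : A⋆) := by
      rw [map_mul, ← mul_assoc, ← oddFieldAut_mul_soAut, mul_assoc, ← hcomσ, ← map_mul,
        ringAut_comm σ ρ, map_mul, mul_assoc]
    exact soAut_injective h2 hm (mul_right_cancel h1)
  obtain ⟨d₀, rfl⟩ := exists_rational_so e₀ he hd
  have hρF : ∀ a : F, σ a = a → σ (ρ a) = ρ a := fun a ha => by
    have := DFunLike.congr_fun (ringAut_comm σ ρ) a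
    change σ (ρ a) = ρ (σ a) at this
    rw [this, ha]
  have hρF' : ∀ a : F, σ a = a → σ (ρ.symm a) = ρ.symm a := fun a ha => by
    have := DFunLike.congr_fun (ringAut_comm σ ρ.symm) a
    change σ (ρ.symm a) = ρ.symm (σ a) at this
    rw [this, ha]
  let ρ₀ : F₀ ≃+* F₀ :=
    { toFun := fun a => ⟨ρ a.1, hρF _ a.2⟩
      invFun := fun a => ⟨ρ.symm a.1, hρF' _ a.2⟩
      left_inv := fun a => Subtype.ext (ρ.symm_apply_apply _)
      right_inv := fun a => Subtype.ext (ρ.apply_symm_apply _)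
      map_mul' := fun a b => Subtype.ext (map_mul ρ _ _)
      map_add' := fun a b => Subtype.ext (map_add ρ _ _) }
  have hρ₀ : ∀ s : ↥(SOo m F₀), soMap ρ (soIncl e₀ s) = soIncl e₀ (soMap ρ₀ s) := fun s =>
    Subtype.ext (Units.ext (Matrix.ext fun _ _ => rfl))
  have key : soAut d₀ * oddFieldAut ρ₀ =
      (1 : MulAut (Cfsg.POmega F₀ (Cfsg.quadFormOdd m F₀))) := by
    refine MulEquiv.ext fun k => ?_
    obtain ⟨t, rfl⟩ := QuotientGroup.mk_surjective k
    let s : ↥(SOo m F₀) := ⟨t.1.1, t.1.2, omega_det h20 hodd₀ hm t.2⟩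
    have hs : s ∈ omSO m F₀ := t.2
    have h1 := hcomm (Φ s) (Subgroup.mem_map_of_mem Φ hs)
    have h2' : soAut (soIncl e₀ d₀ * soIncl e₀ (soMap ρ₀ s)) * oddFieldAut ρ =
        soAut (soIncl e₀ s * soIncl e₀ d₀) * (oddFieldAut ρ : A⋆) := by
      rw [map_mul, map_mul, ← hρ₀, mul_assoc, ← oddFieldAut_mul_soAut, ← mul_assoc, mul_assoc (soAut (soIncl e₀ s))]
      exact h1
    have h3 : d₀ * soMap ρ₀ s = s * d₀ := soIncl_injective e₀ (by
      rw [map_mul, map_mul]; exact soAut_injective h2 hm (mul_right_cancel h2'))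
    have h4 : soAut s * (soAut d₀ * oddFieldAut ρ₀) =
        soAut d₀ * oddFieldAut ρ₀ * (soAut s : MulAut (Cfsg.POmega F₀ (Cfsg.quadFormOdd m F₀))) := by
      rw [mul_assoc (soAut d₀), oddFieldAut_mul_soAut, ← mul_assoc, ← mul_assoc, ← map_mul,
        ← map_mul, h3]
    rw [soAut_omSO s hs] at h4
    exact fixed_of_commute h20 hm hodd₀ h4
  obtain ⟨hd1, hρ1⟩ := soAut_field_eq_one h20 hm key
  rw [hd1, map_one, map_one, one_mul]
  have hρfix : ∀ x : F₀, ρ (x : F) = (x : F) := fun x =>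
    congrArg Subtype.val (DFunLike.congr_fun hρ1 x)
  haveI : Algebra.IsAlgebraic F₀ F := Algebra.IsAlgebraic.of_finite _ _
  have hcard : Nat.card (F ≃ₐ[F₀] F) = p := by
    rw [IsGalois.card_aut_eq_finrank]
    have h : Nat.card F = Nat.card F₀ ^ Module.finrank F₀ F := Module.natCard_eq_pow_finrank
    rw [AutPSL.card_fixedField_pow σ, hσ] at h
    exact (Nat.pow_right_injective (Finite.one_lt_card (α := F₀)) h).symm
  let ρ' : F ≃ₐ[F₀] F := AlgEquiv.ofRingEquiv (f := ρ) fun x => hρfix x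
  have h := pow_card_eq_one' (x := ρ')
  rw [hcard] at h
  have hpow : ∀ k : ℕ, ∀ y, (ρ ^ k) y = (ρ' ^ k) y := by
    intro k
    induction k with
    | zero => intro y; rfl
    | succ k ih =>
      intro y
      rw [AutPSL.ringAut_pow_succ_apply, ih, pow_succ']
      rfl
  have hρp : ρ ^ p = 1 := RingEquiv.ext fun y => by rw [hpow, h]; rfl
  have hap : (oddFieldAut ρ : A⋆) ^ p = 1 := by rw [← map_pow, hρp, map_one]
  rw [hd1, map_one, map_one, one_mul] at hord
  rcases (Nat.dvd_prime Fact.out).1 (orderOf_dvd_of_pow_eq_one hap) with h | h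
  · exact orderOf_eq_one_iff.1 h
  · exact absurd (h ▸ dvd_rfl) hord

/-- `O_{p'}` of the centralizer of a non-inner-diagonal automorphism of prime order. -/
theorem local_balance_odd (hodd : Odd (Nat.card F)) (hm : 3 ≤ m) {p : ℕ} [Fact p.Prime]
    (A : Subgroup A⋆) (hinn : Cfsg.Inn (Cfsg.POmega F f⋆) ≤ A) {x : A⋆} (hord : orderOf x = p)
    (hnot : ¬ Cfsg.IsInnerDiagonalAutPOmegaOdd m x) :
    Cfsg.pPrimeCore p ↥(A ⊓ Subgroup.centralizer {x}) ≠ ⊥ ↔
      (Cfsg.IsFieldAutClassPOmega f⋆ x ∧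
        Nat.Coprime p (Nat.card ↥(MonoidHom.eqLocus x.toMonoidHom
          (MonoidHom.id (Cfsg.POmega F f⋆))))) := by
  have h2 := two_ne_zero_of_odd hodd
  obtain ⟨d, σ, hx⟩ := exists_decomp_odd h2 hm x
  have hσ1 : σ ≠ 1 := fun h => hnot ((isInnDiag_iff h2 x).2 (by
    rw [hx, h, map_one, mul_one]; exact ⟨d, rfl⟩))
  have hxp : x ^ p = 1 := by rw [← hord]; exact pow_orderOf_eq_one x
  have hσp : σ ^ p = 1 := by
    have h := twistNorm_apply soAut (oddFieldAut σ : A⋆) (soMap σ)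
      (fun g => oddFieldAut_mul_soAut σ g) d p
    rw [← hx, hxp, ← map_pow] at h
    exact (soAut_field_eq_one h2 hm h.symm).2
  have hσ : orderOf σ = p := orderOf_eq_prime hσp hσ1
  obtain ⟨g, hg⟩ := field_coset_odd h2 hm σ hσ d (by rw [← hx, hxp])
  set α : A⋆ := (soAut g)⁻¹ with hα
  have hαx : α * x * α⁻¹ = oddFieldAut σ := by rw [hx, hg, hα]; group
  have hclass : Cfsg.IsFieldAutClassPOmega f⋆ x :=
    ⟨α, oddFieldAut σ, σ, hσ1, (isFieldAutOdd_iff σ _).2 rfl, hαx⟩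
  rw [and_iff_right hclass]
  exact LocalBal.criterion_conj x _ α hαx A hinn (fun B hB => local_std_odd hodd hm σ hσ B hB)

end Cfsg.Agent.OutPO
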